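import Mathlib
import Cfsg.Agent.Deg.NdA
import Cfsg.Agent.Deg.PGrp

set_option autoImplicit false

namespace Cfsg.Agent.NE3

open Subgroup Cfsg Cfsg.Agent.Ch Module
open scoped commutatorElement

universe u

section Grp
variable {H : Type u} [Group H]

abbrev g2 (H : Type u) [Group H] : Subgroup H := ⁅(⊤ : Subgroup H), (⊤ : Subgroup H)⁆
abbrev g3 (H : Type u) [Group H] : Subgroup H := ⁅g2 H, (⊤ : Subgroup H)⁆
abbrev g4 (H : Type u) [Group H] : Subgroup H := ⁅g3 H, (⊤ : Subgroup H)⁆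
abbrev g5 (H : Type u) [Group H] : Subgroup H := ⁅g4 H, (⊤ : Subgroup H)⁆

/-- Stabiliser in `Γ` of a function on `H`. -/
def St (Γ : Subgroup (MulAut H)) (ψ : H → ℂ) : Subgroup Γ where
  carrier := {σ | ∀ x, ψ (σ.1 x) = ψ x}
  one_mem' := fun _ => rfl
  mul_mem' := fun {a b} ha hb x => by
    have : (a * b).1 x = a.1 (b.1 x) := rfl
    rw [this, ha, hb]
  inv_mem' := fun {a} ha x => by
    have h := ha (a⁻¹.1 x)
    have e : a.1 (a⁻¹.1 x) = x := a.1.apply_symm_apply x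
    rw [e] at h; exact h.symm

theorem mem_St {Γ : Subgroup (MulAut H)} {ψ : H → ℂ} {σ : Γ} :
    σ ∈ St Γ ψ ↔ ∀ x, ψ (σ.1 x) = ψ x := Iff.rfl

/-- The degree of the characters of `H ⋊ Γ` over `ψ`. -/
noncomputable def dg (Γ : Subgroup (MulAut H)) (ψ : H → ℂ) : ℕ := charDegree ψ * (St Γ ψ).index

/-- Fixed points of `Γ`. -/
def fx (Γ : Subgroup (MulAut H)) : Subgroup H where
  carrier := {x | ∀ σ ∈ Γ, σ x = x}
  one_mem' := fun σ _ => map_one σ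
  mul_mem' := fun {a b} ha hb σ hσ => by rw [map_mul, ha σ hσ, hb σ hσ]
  inv_mem' := fun {a} ha σ hσ => by rw [map_inv, ha σ hσ]

theorem mem_fx {Γ : Subgroup (MulAut H)} {x : H} : x ∈ fx Γ ↔ ∀ σ ∈ Γ, σ x = x := Iff.rfl

/-- The character hypotheses. -/
structure CH (p : ℕ) (Γ : Subgroup (MulAut H)) : Prop where
  pg : IsPGroup p H
  cop : ¬ p ∣ Nat.card Γ
  comm : ∀ σ ∈ Γ, ∀ τ ∈ Γ, σ * τ = τ * σ
  ne : Γ ≠ ⊥
  nd : ∀ ψ φ : H → ℂ, IsIrrCharacter H ψ → IsIrrCharacter H φ → dg Γ ψ ≠ 1 → dg Γ ψ ∣ dg Γ φ →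
    dg Γ ψ = dg Γ φ

/-- `σ` acts fixed point freely on `H / (B ⊔ H')`. -/
def Fpf (σ : MulAut H) (B : Subgroup H) : Prop := ∀ x, σ x * x⁻¹ ∈ B ⊔ g2 H → x ∈ B ⊔ g2 H

structure Cf2 (p : ℕ) (α : MulAut H) (B : Subgroup H) : Prop where
  pg : IsPGroup p H
  aB : ∀ b ∈ B, α b = b
  ne : B ⊔ g2 H ≠ ⊤
  fa : Fpf α B
  cam : ∀ x, x ∉ B ⊔ g2 H → ∀ k ∈ g2 H, ∃ g : H, ⁅g, x⁆ = k
  a2 : ∀ w ∈ g2 H, α w * w⁻¹ ∈ g3 H

structure Cf3 (p : ℕ) (α β : MulAut H) (B : Subgroup H) : Prop extends Cf2 p α B where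
  comm : α * β = β * α
  bB : ∀ b ∈ B, β b = b
  fb : Fpf β B
  b3 : ∀ y ∈ g3 H, β y * y⁻¹ ∈ g4 H
  ne3 : g3 H ≠ ⊥

/-- `[H, α] H'`. -/
def P0 (α : MulAut H) : Subgroup H :=
  (((Abelianization.of.comp α.toMonoidHom) / (Abelianization.of : H →* Abelianization H)).range).comap
    Abelianization.of

theorem mem_P0 {α : MulAut H} {x : H} : x ∈ P0 α ↔ ∃ h, x * (α h * h⁻¹)⁻¹ ∈ g2 H := by
  have key : ∀ a b : H, Abelianization.of a = Abelianization.of b ↔ a * b⁻¹ ∈ g2 H := fun a b => by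
    rw [← mul_inv_eq_one, ← map_inv, ← map_mul, ← MonoidHom.mem_ker, Abelianization.ker_of]; rfl
  simp only [P0, mem_comap, MonoidHom.mem_range]
  refine exists_congr fun h => ?_
  rw [← key, eq_comm, map_mul, map_inv, ← div_eq_mul_inv]
  rfl

/-- The section `X / X'` as a vector space over `ZMod p`. -/
structure Sc (p : ℕ) (X X' : Subgroup H) where
  V : Type u
  [acg : AddCommGroup V]
  [md : Module (ZMod p) V]
  [fin : Finite V]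
  f : H → V
  mul : ∀ x ∈ X, ∀ y ∈ X, f (x * y) = f x + f y
  zero : ∀ x ∈ X, (f x = 0 ↔ x ∈ X')
  surj : ∀ v, ∃ x ∈ X, f x = v

attribute [instance] Sc.acg Sc.md Sc.fin

end Grp

section Lin
variable {p : ℕ} [Fact p.Prime] {A W Y : Type*} [AddCommGroup A] [Module (ZMod p) A]
  [AddCommGroup W] [Module (ZMod p) W] [AddCommGroup Y] [Module (ZMod p) Y]

structure L3 (b : A →ₗ[ZMod p] A →ₗ[ZMod p] W) (t : W →ₗ[ZMod p] A →ₗ[ZMod p] Y) : Prop where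
  alt : ∀ x, b x x = 0
  jac : ∀ x y z, t (b x y) z + t (b y z) x + t (b z x) y = 0
  onto : ∀ x, x ≠ 0 → Function.Surjective (b x)
  ntA : Nontrivial A
  ntY : Nontrivial Y
  span : ∀ ν : Dual (ZMod p) Y, ν ≠ 0 → ∃ w x, ν (t w x) ≠ 0

/-- `A_ν`. -/
def An (t : W →ₗ[ZMod p] A →ₗ[ZMod p] Y) (ν : Dual (ZMod p) Y) : Submodule (ZMod p) A where
  carrier := {x | ∀ w, ν (t w x) = 0}
  zero_mem' := fun w => by simp
  add_mem' := fun {a b} ha hb w => by simp [ha w, hb w]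
  smul_mem' := fun c a ha w => by simp [ha w]

theorem mem_An {t : W →ₗ[ZMod p] A →ₗ[ZMod p] Y} {ν : Dual (ZMod p) Y} {x : A} :
    x ∈ An t ν ↔ ∀ w, ν (t w x) = 0 := Iff.rfl

/-- The annihilator of `t(W, x)`. -/
def ann (t : W →ₗ[ZMod p] A →ₗ[ZMod p] Y) (x : A) : Submodule (ZMod p) (Dual (ZMod p) Y) where
  carrier := {ν | ∀ w, ν (t w x) = 0}
  zero_mem' := fun w => by simp
  add_mem' := fun {a b} ha hb w => by simp [ha w, hb w]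
  smul_mem' := fun c a ha w => by simp [ha w]

theorem mem_ann {t : W →ₗ[ZMod p] A →ₗ[ZMod p] Y} {ν : Dual (ZMod p) Y} {x : A} :
    ν ∈ ann t x ↔ ∀ w, ν (t w x) = 0 := Iff.rfl

def Kap (t : W →ₗ[ZMod p] A →ₗ[ZMod p] Y) : Prop :=
  ∀ x, x ≠ 0 → 2 * finrank (ZMod p) (ann t x) ≤ finrank (ZMod p) W

/-- Level four; `u d = ν_d`. -/
structure L4 (b : A →ₗ[ZMod p] A →ₗ[ZMod p] W) (t : W →ₗ[ZMod p] A →ₗ[ZMod p] Y)
    (u : A →ₗ[ZMod p] Dual (ZMod p) Y) (ω : W →ₗ[ZMod p] W →ₗ[ZMod p] ZMod p) : Prop extends L3 b t where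
  kap : Kap t
  une : u ≠ 0
  oalt : ∀ w, ω w w = 0
  j4 : ∀ w c d, ω w (b c d) = u d (t w c) - u c (t w d)

end Lin

section Dat
variable {H : Type u} [Group H]

structure D3 (p : ℕ) [Fact p.Prime] (α : MulAut H) where
  sA : Sc p (P0 α) (g2 H)
  sW : Sc p (g2 H) (g3 H)
  sY : Sc p (g3 H) (g4 H)
  b : sA.V →ₗ[ZMod p] sA.V →ₗ[ZMod p] sW.V
  t : sW.V →ₗ[ZMod p] sA.V →ₗ[ZMod p] sY.V
  hb : ∀ x ∈ P0 α, ∀ y ∈ P0 α, b (sA.f x) (sA.f y) = sW.f ⁅x, y⁆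
  ht : ∀ w ∈ g2 H, ∀ x ∈ P0 α, t (sW.f w) (sA.f x) = sY.f ⁅w, x⁆
  l3 : L3 b t

/-- `ρ` is a homomorphism `g4 → ZMod p` killing `g5`. -/
structure D4 (p : ℕ) [Fact p.Prime] (α : MulAut H) extends D3 p α where
  ρ : H → ZMod p
  ρmul : ∀ x ∈ g4 H, ∀ y ∈ g4 H, ρ (x * y) = ρ x + ρ y
  ρ5 : ∀ x ∈ g5 H, ρ x = 0
  u : sA.V →ₗ[ZMod p] Dual (ZMod p) sY.V
  ω : sW.V →ₗ[ZMod p] sW.V →ₗ[ZMod p] ZMod p
  hu : ∀ y ∈ g3 H, ∀ x ∈ P0 α, u (sA.f x) (sY.f y) = ρ ⁅y, x⁆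
  hω : ∀ v ∈ g2 H, ∀ w ∈ g2 H, ω (sW.f v) (sW.f w) = ρ ⁅v, w⁆
  l4 : L4 b t u ω

end Dat

end Cfsg.Agent.NE3
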