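import Mathlib
import Cfsg.Agent.NE3.Defs
import Cfsg.Agent.Cl.SpForm

set_option autoImplicit false

namespace Cfsg.Agent.NE3

open Subgroup Cfsg Cfsg.Agent.Ch Cfsg.Agent.Deg Module MvPolynomial
open scoped commutatorElement

universe u

theorem pf_alt {K ι : Type*} [Field K] [Fintype ι] [DecidableEq ι] (M : Matrix ι ι K)
    (h0 : ∀ i, M i i = 0) (h1 : ∀ i j, M i j + M j i = 0) : (Matrix.toBilin' M).IsAlt := by
  intro v
  rw [Matrix.toBilin'_apply, ← Finset.sum_product']
  refine Finset.sum_ninvolution Prod.swap (fun a => ?_) (fun a ha e => ha ?_)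
    (fun a => by simp) (fun a => rfl)
  · simp only [Prod.fst_swap, Prod.snd_swap]
    linear_combination (v a.1 * v a.2) * h1 a.1 a.2
  · have : a.2 = a.1 := congrArg Prod.fst e
    rw [this, h0]; simp

theorem pf_sq {K ι : Type*} [Field K] [Fintype ι] [DecidableEq ι] (M M1 : Matrix ι ι K)
    (hM : M.det ≠ 0) (h1 : M1.det ≠ 0) (a : (Matrix.toBilin' M).IsAlt)
    (a1 : (Matrix.toBilin' M1).IsAlt) : ∃ e : K, M.det = e ^ 2 * M1.det := by
  obtain ⟨e, he⟩ := Cl.sp_exists_isometry
    (LinearMap.BilinForm.nondegenerate_toBilin'_iff_det_ne_zero.2 hM) a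
    (LinearMap.BilinForm.nondegenerate_toBilin'_iff_det_ne_zero.2 h1) a1 rfl
  have h2 : (Matrix.toBilin' M1).comp (e : (ι → K) →ₗ[K] (ι → K)) e = Matrix.toBilin' M := by
    refine LinearMap.ext fun u => LinearMap.ext fun v => he u v
  have h3 := congrArg (fun B => (LinearMap.BilinForm.toMatrix' B).det) h2
  simp only [LinearMap.BilinForm.toMatrix'_comp, Matrix.det_mul, Matrix.det_transpose,
    LinearMap.BilinForm.toMatrix'_toBilin'] at h3
  exact ⟨_, by rw [← h3]; ring⟩

theorem pf {p : ℕ} [Fact p.Prime] {N S : Type*} [AddCommGroup N] [Module (ZMod p) N] [Finite N]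
    [AddCommGroup S] [Module (ZMod p) S] [Finite S] [Nontrivial S]
    (β : N →ₗ[ZMod p] S →ₗ[ZMod p] S →ₗ[ZMod p] ZMod p) (alt : ∀ ν s, β ν s s = 0)
    (nd : ∀ ν, ν ≠ 0 → ∀ s, s ≠ 0 → ∃ s', β ν s s' ≠ 0) :
    2 * finrank (ZMod p) N ≤ finrank (ZMod p) S := by
  classical
  by_contra hlt
  have hd : 0 < finrank (ZMod p) S := finrank_pos
  set m := finrank (ZMod p) N with hm
  set d := finrank (ZMod p) S with hd'
  let b := finBasis (ZMod p) N
  let c := finBasis (ZMod p) S
  let M : Matrix (Fin d) (Fin d) (MvPolynomial (Fin m) (ZMod p)) :=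
    fun j k => ∑ i, C (β (b i) (c j) (c k)) * X i
  have anti : ∀ ν s t, β ν s t + β ν t s = 0 := fun ν s t => by
    have := alt ν (s + t)
    simp only [map_add, LinearMap.add_apply, alt] at this
    linear_combination this
  have ev : ∀ x : Fin m → ZMod p, eval x M.det =
      (LinearMap.BilinForm.toMatrix c (β (b.equivFun.symm x))).det := fun x => by
    rw [RingHom.map_det]
    congr 1
    ext j k
    rw [RingHom.mapMatrix_apply, Matrix.map_apply]
    simp [M, LinearMap.BilinForm.toMatrix_apply, map_sum, LinearMap.sum_apply, mul_comm]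
  have ne : ∀ x : Fin m → ZMod p, x ≠ 0 → eval x M.det ≠ 0 := fun x hx => by
    rw [ev, ← LinearMap.BilinForm.nondegenerate_iff_det_ne_zero]
    have ha : LinearMap.BilinForm.IsAlt (β (b.equivFun.symm x)) := alt _
    refine ha.isRefl.nondegenerate_iff_separatingLeft.2 fun s hs => ?_
    by_contra h0
    obtain ⟨s', h'⟩ := nd (b.equivFun.symm x) (b.equivFun.symm.map_ne_zero_iff.2 hx) s h0
    exact h' (hs s')
  have z0 : eval (0 : Fin m → ZMod p) M.det = 0 := by
    have : Nonempty (Fin d) := ⟨⟨0, hd⟩⟩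
    rw [ev]; simp
  have hom : M.det.IsHomogeneous d := by
    rw [Matrix.det_apply']
    refine IsHomogeneous.sum _ _ _ fun σ _ => ?_
    have h1 : (∏ i, M (σ i) i).IsHomogeneous (∑ _i : Fin d, 1) :=
      IsHomogeneous.prod _ _ _ fun i _ => IsHomogeneous.sum _ _ _ fun k _ =>
        (isHomogeneous_X _ k).C_mul _
    have h2 := h1.C_mul ((Equiv.Perm.sign σ : ℤ) : ZMod p)
    simpa using h2
  have hm0 : 0 < m := by omega
  let x1 : Fin m → ZMod p := fun _ => 1
  have hx1 : x1 ≠ 0 := fun e => one_ne_zero (congrFun e ⟨0, hm0⟩)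
  let K := FractionRing (MvPolynomial (Fin m) (ZMod p))
  let φ := algebraMap (MvPolynomial (Fin m) (ZMod p)) K
  have hφ : Function.Injective φ := IsFractionRing.injective _ _
  have hdet : M.det ≠ 0 := fun e => ne x1 hx1 (by rw [e, map_zero])
  have M0 : ∀ i, M i i = 0 := fun i => by simp [M, alt]
  have M1 : ∀ i j, M i j + M j i = 0 := fun i j => by
    simp only [M, ← Finset.sum_add_distrib, ← add_mul, ← map_add, anti, map_zero, zero_mul,
      Finset.sum_const_zero]
  let ψ : MvPolynomial (Fin m) (ZMod p) →+* K := φ.comp (C.comp (eval x1))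
  obtain ⟨e, he⟩ := pf_sq (φ.mapMatrix M) (ψ.mapMatrix M)
    (by rw [← RingHom.map_det]; exact (map_ne_zero_iff _ hφ).2 hdet)
    (by
      rw [← RingHom.map_det]
      exact (map_ne_zero_iff _ hφ).2 (C_ne_zero.2 (ne x1 hx1)))
    (pf_alt _ (fun i => by simp [M0]) fun i j => by simp [← map_add, M1])
    (pf_alt _ (fun i => by simp [M0]) fun i j => by simp [← map_add, M1])
  rw [← RingHom.map_det, ← RingHom.map_det] at he
  set a := eval x1 M.det with ha
  have ha0 : a ≠ 0 := ne x1 hx1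
  have h2 : e ^ 2 = φ (C a⁻¹ * M.det) := by
    have : φ (C a⁻¹) * φ (C a) = 1 := by rw [← map_mul, ← map_mul, inv_mul_cancel₀ ha0]; simp
    rw [map_mul, he]
    change e ^ 2 = φ (C a⁻¹) * (e ^ 2 * φ (C a))
    linear_combination (-e ^ 2) * this
  obtain ⟨g, hg⟩ : ∃ g, φ g = e :=
    IsIntegrallyClosed.exists_algebraMap_eq_of_isIntegral_pow (n := 2) two_pos
      (h2 ▸ isIntegral_algebraMap)
  have h3 : g * g = C a⁻¹ * M.det := hφ (by rw [← h2, map_mul, hg, sq])
  have g0 : g ≠ 0 := fun e => by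
    rw [e, mul_zero] at h3
    exact mul_ne_zero (C_ne_zero.2 (inv_ne_zero ha0)) hdet h3.symm
  have h4 := (hom.C_mul a⁻¹).totalDegree_le
  rw [← h3, totalDegree_mul_of_isDomain g0 g0] at h4
  have h5 := char_dvd_card_solutions p (f := g) (by rw [Fintype.card_fin]; omega)
  have h6 : eval (0 : Fin m → ZMod p) g = 0 := by
    have := congrArg (eval (0 : Fin m → ZMod p)) h3
    rw [map_mul, map_mul, z0, mul_zero] at this
    exact mul_self_eq_zero.1 this
  have h7 : 1 < Fintype.card {x : Fin m → ZMod p // eval x g = 0} :=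
    (Fact.out : p.Prime).one_lt.trans_le
      (Nat.le_of_dvd (Fintype.card_pos_iff.2 ⟨⟨0, h6⟩⟩) h5)
  obtain ⟨⟨x, hx⟩, hne⟩ := Fintype.exists_ne_of_one_lt_card h7 ⟨0, h6⟩
  have h8 := congrArg (eval x) h3
  rw [map_mul, map_mul, hx, mul_zero, eval_C] at h8
  exact mul_ne_zero (inv_ne_zero ha0) (ne x fun e => hne (Subtype.ext e)) h8.symm

end Cfsg.Agent.NE3
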