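import Mathlib
import Cfsg.Agent.NE3.Defs
import Cfsg.Agent.NE3.PF

set_option autoImplicit false

namespace Cfsg.Agent.NE3

open Subgroup Cfsg Cfsg.Agent.Ch Cfsg.Agent.Deg Module
open scoped commutatorElement

universe u

variable {p : ℕ} [Fact p.Prime] {A W Y : Type*} [AddCommGroup A] [Module (ZMod p) A] [Finite A]
  [AddCommGroup W] [Module (ZMod p) W] [Finite W] [AddCommGroup Y] [Module (ZMod p) Y] [Finite Y]
  {b : A →ₗ[ZMod p] A →ₗ[ZMod p] W} {t : W →ₗ[ZMod p] A →ₗ[ZMod p] Y}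
  {u : A →ₗ[ZMod p] Dual (ZMod p) Y} {ω : W →ₗ[ZMod p] W →ₗ[ZMod p] ZMod p}

theorem L3.iso (h : L3 b t) (I : Submodule (ZMod p) A) (μ : Dual (ZMod p) W) (hμ : μ ≠ 0)
    (hI : ∀ x ∈ I, ∀ y ∈ I, μ (b x y) = 0) : 2 * finrank (ZMod p) I ≤ finrank (ZMod p) A := by
  let B : LinearMap.BilinForm (ZMod p) A := b.compr₂ μ
  have hker : LinearMap.ker B = ⊥ := by
    rw [LinearMap.ker_eq_bot']
    intro x hx
    by_contra h0
    apply hμ
    ext w
    obtain ⟨y, rfl⟩ := h.onto x h0 w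
    have := LinearMap.congr_fun hx y
    simpa [B] using this
  have h1 := LinearMap.BilinForm.finrank_add_finrank_orthogonal' (B := B) I
  have hle : I ≤ B.orthogonal I := fun y hy => by
    rw [LinearMap.BilinForm.mem_orthogonal_iff]
    intro x hx
    simpa [B, LinearMap.BilinForm.IsOrtho] using hI x hx y hy
  have h2 := Submodule.finrank_mono hle
  rw [hker, inf_bot_eq, finrank_bot] at h1
  omega

theorem L3.l1_ab (h : L3 b t) {ν : Dual (ZMod p) Y} {x y : A} (hx : x ∈ An t ν)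
    (hy : y ∈ An t ν) (z : A) : ν (t (b x y) z) = 0 := by
  have h1 := congrArg ν (h.jac x y z)
  rw [map_add, map_add, hx (b y z), hy (b z x), map_zero] at h1
  simpa using h1

theorem L3.l1_two (h : L3 b t) : 2 * finrank (ZMod p) W ≤ finrank (ZMod p) A := by
  have := h.ntA
  have : Finite (Dual (ZMod p) W) := Module.finite_of_finite (ZMod p)
  let β : Dual (ZMod p) W →ₗ[ZMod p] A →ₗ[ZMod p] A →ₗ[ZMod p] ZMod p :=
    { toFun := fun μ => b.compr₂ μ
      map_add' := fun μ μ' => by ext; simp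
      map_smul' := fun c μ => by ext; simp }
  have h1 := pf β (fun μ s => by simp [β, h.alt]) (fun μ hμ s hs => by
    by_contra hc
    push Not at hc
    apply hμ
    ext w
    obtain ⟨y, rfl⟩ := h.onto s hs w
    simpa [β] using hc y)
  rwa [Subspace.dual_finrank_eq] at h1

theorem L3.l1_key (h : L3 b t) {ν : Dual (ZMod p) Y} (hν : ν ≠ 0) :
    finrank (ZMod p) A = 2 * finrank (ZMod p) W ∧
      finrank (ZMod p) (An t ν) = finrank (ZMod p) W ∧ LinearMap.ker (t.compr₂ ν) = ⊥ := by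
  let T : W →ₗ[ZMod p] A →ₗ[ZMod p] ZMod p := t.compr₂ ν
  have hAn : An t ν = LinearMap.ker T.flip := by
    ext x
    rw [mem_An, LinearMap.mem_ker]
    constructor
    · intro hx; ext w; simpa [T] using hx w
    · intro hx w; simpa [T] using LinearMap.congr_fun hx w
  have e1 := LinearMap.finrank_range_add_finrank_ker T.flip
  have e2 := Subspace.finrank_add_finrank_dualAnnihilator_eq (LinearMap.ker T)
  rw [LinearMap.dualAnnihilator_ker_eq_range_flip] at e2
  rw [← hAn] at e1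
  have hlt : LinearMap.ker T < ⊤ := by
    rw [lt_top_iff_ne_top]
    intro ht
    obtain ⟨w, x, hw⟩ := h.span ν hν
    have : w ∈ LinearMap.ker T := ht ▸ Submodule.mem_top
    exact hw (by simpa [T] using LinearMap.congr_fun this x)
  obtain ⟨μ, hμ, hle⟩ := Submodule.exists_le_ker_of_lt_top _ hlt
  have e3 := h.iso (An t ν) μ hμ (fun x hx y hy => by
    apply hle
    rw [LinearMap.mem_ker]
    ext z
    simpa [T] using h.l1_ab hx hy z)
  have e4 := h.l1_two
  obtain ⟨s, e5, e6⟩ : ∃ s, s + finrank (ZMod p) (An t ν) = finrank (ZMod p) A ∧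
      finrank (ZMod p) (LinearMap.ker T) + s = finrank (ZMod p) W := ⟨_, e1, e2⟩
  clear e1 e2
  refine ⟨by omega, by omega, ?_⟩
  rw [← Submodule.finrank_eq_zero]
  change finrank (ZMod p) (LinearMap.ker T) = 0
  omega

theorem L3.dimA (h : L3 b t) : finrank (ZMod p) A = 2 * finrank (ZMod p) W := by
  have := h.ntY
  obtain ⟨y, hy⟩ := exists_ne (0 : Y)
  obtain ⟨ν, hν⟩ : ∃ ν : Dual (ZMod p) Y, ν y ≠ 0 := by
    by_contra hc
    push Not at hc
    exact hy ((Module.forall_dual_apply_eq_zero_iff (ZMod p) y).1 hc)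
  exact (h.l1_key (ν := ν) (fun h0 => hν (by simp [h0]))).1

theorem L3.dimAn (h : L3 b t) {ν : Dual (ZMod p) Y} (hν : ν ≠ 0) :
    finrank (ZMod p) (An t ν) = finrank (ZMod p) W := by
  exact (h.l1_key hν).2.1

theorem L3.wz (h : L3 b t) {ν : Dual (ZMod p) Y} (hν : ν ≠ 0) {w : W} (hw : ∀ x, ν (t w x) = 0) :
    w = 0 := by
  have h1 : w ∈ LinearMap.ker (t.compr₂ ν) := by
    rw [LinearMap.mem_ker]
    ext x
    simpa using hw x
  rw [(h.l1_key hν).2.2] at h1
  simpa using h1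

theorem L3.ab (h : L3 b t) {ν : Dual (ZMod p) Y} (hν : ν ≠ 0) {x y : A} (hx : x ∈ An t ν)
    (hy : y ∈ An t ν) : b x y = 0 := by
  exact h.wz hν (h.l1_ab hx hy)

theorem L3.dimker (h : L3 b t) {x : A} (hx : x ≠ 0) :
    finrank (ZMod p) (LinearMap.ker (b x)) = finrank (ZMod p) W := by
  have e1 := LinearMap.finrank_range_add_finrank_ker (b x)
  rw [LinearMap.range_eq_top.2 (h.onto x hx), finrank_top, h.dimA] at e1
  omega

theorem L3.ker_eq (h : L3 b t) {ν : Dual (ZMod p) Y} (hν : ν ≠ 0) {x : A} (hx : x ∈ An t ν)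
    (h0 : x ≠ 0) : LinearMap.ker (b x) = An t ν := by
  refine (Submodule.eq_of_le_of_finrank_eq (fun y hy => ?_) ?_).symm
  · exact h.ab hν hx hy
  · rw [h.dimAn hν, h.dimker h0]

theorem L3.pos (h : L3 b t) : 0 < finrank (ZMod p) W := by
  have := h.ntA
  have h1 : 0 < finrank (ZMod p) A := Module.finrank_pos
  have h2 := h.dimA
  omega

end Cfsg.Agent.NE3
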