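import Mathlib
import Cfsg.Agent.NE3.Defs
import Cfsg.Agent.NE3.L1

set_option autoImplicit false

namespace Cfsg.Agent.NE3

open Subgroup Cfsg Cfsg.Agent.Ch Cfsg.Agent.Deg Module
open scoped commutatorElement

universe u

variable {p : ℕ} [Fact p.Prime] {A W Y : Type*} [AddCommGroup A] [Module (ZMod p) A] [Finite A]
  [AddCommGroup W] [Module (ZMod p) W] [Finite W] [AddCommGroup Y] [Module (ZMod p) Y] [Finite Y]
  {b : A →ₗ[ZMod p] A →ₗ[ZMod p] W} {t : W →ₗ[ZMod p] A →ₗ[ZMod p] Y}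
  {u : A →ₗ[ZMod p] Dual (ZMod p) Y} {ω : W →ₗ[ZMod p] W →ₗ[ZMod p] ZMod p}

theorem Cnt_card (M : Type*) [AddCommGroup M] [Module (ZMod p) M] [Finite M] :
    Nat.card M = p ^ finrank (ZMod p) M := by
  rw [Module.natCard_eq_pow_finrank (K := ZMod p), Nat.card_zmod]

theorem Cnt_ar {N H a c : ℕ} (h1 : 1 < N) (h2 : H < N) (h3 : N * H ≤ a + 1) (h4 : c + 1 = N * N)
    (h5 : N * N + a * N ≤ a + 1 + c * H) : False := by
  zify at *
  have e : (c : ℤ) = N * N - 1 := by linarith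
  rw [e] at h5
  nlinarith [mul_nonneg (sub_nonneg.2 h3) (sub_pos.2 h1).le, mul_pos (sub_pos.2 h1) (sub_pos.2 h2)]

theorem L3.cnt (h : L3 b t) (k : Kap t) : 2 * finrank (ZMod p) Y < 3 * finrank (ZMod p) W := by
  classical
  have hp : 1 < p := (Fact.out : p.Prime).one_lt
  have : Finite (Dual (ZMod p) Y) := Module.finite_of_finite (ZMod p)
  have := Fintype.ofFinite (Dual (ZMod p) Y)
  have := Fintype.ofFinite A
  by_contra hc
  have n0 := h.pos
  have cA : Nat.card A = p ^ finrank (ZMod p) W * p ^ finrank (ZMod p) W := by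
    rw [Cnt_card (p := p), h.dimA, two_mul, pow_add]
  have cY : Nat.card (Dual (ZMod p) Y) = p ^ finrank (ZMod p) Y := by
    rw [Cnt_card (p := p), Subspace.dual_finrank_eq]
  have e : (Σ ν : Dual (ZMod p) Y, An t ν) ≃ (Σ x : A, ann t x) :=
    ⟨fun z => ⟨z.2.1, z.1, z.2.2⟩, fun z => ⟨z.2.1, z.1, z.2.2⟩, fun _ => rfl, fun _ => rfl⟩
  have E := Nat.card_congr e
  rw [Nat.card_sigma, Nat.card_sigma,
    ← Finset.add_sum_erase _ (fun ν : Dual (ZMod p) Y => Nat.card (An t ν)) (Finset.mem_univ 0),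
    ← Finset.add_sum_erase _ (fun x : A => Nat.card (ann t x)) (Finset.mem_univ 0)] at E
  have a0 : Nat.card (An t (0 : Dual (ZMod p) Y)) = Nat.card A :=
    Nat.card_congr (Equiv.subtypeUnivEquiv fun x => mem_An.2 fun w => rfl)
  have b0 : Nat.card (ann t (0 : A)) = Nat.card (Dual (ZMod p) Y) :=
    Nat.card_congr (Equiv.subtypeUnivEquiv fun x => mem_ann.2 fun w => by simp)
  have a1 : ∑ ν ∈ Finset.univ.erase (0 : Dual (ZMod p) Y), Nat.card (An t ν) =
      (Finset.univ.erase (0 : Dual (ZMod p) Y)).card * p ^ finrank (ZMod p) W :=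
    Finset.sum_const_nat fun ν hν => by rw [Cnt_card (p := p), h.dimAn (Finset.ne_of_mem_erase hν)]
  have b1 : ∑ x ∈ Finset.univ.erase (0 : A), Nat.card (ann t x) ≤
      (Finset.univ.erase (0 : A)).card * p ^ (finrank (ZMod p) W / 2) := by
    rw [← smul_eq_mul]
    refine Finset.sum_le_card_nsmul _ _ _ fun x hx => ?_
    rw [Cnt_card (p := p)]
    have := k x (Finset.ne_of_mem_erase hx)
    exact Nat.pow_le_pow_right hp.le (by omega)
  have a2 : (Finset.univ.erase (0 : Dual (ZMod p) Y)).card + 1 = Nat.card (Dual (ZMod p) Y) := by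
    rw [Finset.card_erase_add_one (Finset.mem_univ _), Nat.card_eq_fintype_card, Finset.card_univ]
  have b2 : (Finset.univ.erase (0 : A)).card + 1 = Nat.card A := by
    rw [Finset.card_erase_add_one (Finset.mem_univ _), Nat.card_eq_fintype_card, Finset.card_univ]
  rw [a0, b0, a1, cA, ← a2] at E
  refine Cnt_ar (N := p ^ finrank (ZMod p) W) (H := p ^ (finrank (ZMod p) W / 2))
    (Nat.one_lt_pow n0.ne' hp) (Nat.pow_lt_pow_right hp (by omega)) ?_ (b2.trans cA)
    (E.le.trans (Nat.add_le_add_left b1 _))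
  rw [a2, cY, ← pow_add]
  exact Nat.pow_le_pow_right hp.le (by omega)

end Cfsg.Agent.NE3
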