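import Mathlib
import Cfsg.Agent.NE3.Defs

set_option autoImplicit false

namespace Cfsg.Agent.NE3

open Subgroup Cfsg Cfsg.Agent.Ch Cfsg.Agent.Deg Module
open scoped commutatorElement

universe u

variable {H : Type u} [Group H]

theorem g3_le : g3 H ≤ g2 H := commutator_le_left _ _

theorem g4_le : g4 H ≤ g3 H := commutator_le_left _ _

theorem g5_le : g5 H ≤ g4 H := commutator_le_left _ _

theorem HW_bot {K N : Subgroup H} [N.Normal] : K.map (QuotientGroup.mk' N) = ⊥ ↔ K ≤ N := by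
  rw [Subgroup.map_eq_bot_iff, QuotientGroup.ker_mk']

theorem three_sub {X Y Z N : Subgroup H} [N.Normal] (h1 : ⁅⁅Y, Z⁆, X⁆ ≤ N) (h2 : ⁅⁅Z, X⁆, Y⁆ ≤ N) :
    ⁅⁅X, Y⁆, Z⁆ ≤ N := by
  rw [← HW_bot, map_commutator, map_commutator] at h1 h2 ⊢
  exact commutator_commutator_eq_bot_of_rotate h1 h2

theorem g22 : ⁅g2 H, g2 H⁆ ≤ g4 H :=
  three_sub (by rw [commutator_comm ⊤ (g2 H)]) le_rfl

theorem g23 : ⁅g2 H, g3 H⁆ ≤ g5 H :=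
  three_sub (by rw [commutator_comm ⊤ (g3 H)]) le_rfl

theorem HW_l {V : Subgroup H} {v : H} (h : v ∈ V) (x : H) : ⁅v, x⁆ ∈ ⁅V, (⊤ : Subgroup H)⁆ :=
  commutator_mem_commutator h (mem_top x)

theorem HW_r {V : Subgroup H} {v : H} (h : v ∈ V) (x : H) : ⁅x, v⁆ ∈ ⁅V, (⊤ : Subgroup H)⁆ := by
  rw [← commutatorElement_inv]
  exact inv_mem (HW_l h x)

/-- If `V` is normal and the commutator lies in `V`, multiplicativity modulo `⁅V, ⊤⁆`. -/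
theorem cm_left {V : Subgroup H} [V.Normal] {x y z : H} (h1 : ⁅x, z⁆ ∈ V) (h2 : ⁅y, z⁆ ∈ V) :
    ⁅x * y, z⁆ * (⁅x, z⁆ * ⁅y, z⁆)⁻¹ ∈ ⁅V, (⊤ : Subgroup H)⁆ := by
  have _ := h1
  have e : ⁅x * y, z⁆ * (⁅x, z⁆ * ⁅y, z⁆)⁻¹ = ⁅x, ⁅y, z⁆⁆ * ⁅⁅y, z⁆, ⁅x, z⁆⁆ := by
    simp only [commutatorElement_def]; group
  exact e ▸ mul_mem (HW_r h2 _) (HW_l h2 _)

theorem cm_right {V : Subgroup H} [V.Normal] {x y z : H} (h1 : ⁅x, y⁆ ∈ V) (h2 : ⁅x, z⁆ ∈ V) :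
    ⁅x, y * z⁆ * (⁅x, y⁆ * ⁅x, z⁆)⁻¹ ∈ ⁅V, (⊤ : Subgroup H)⁆ := by
  have _ := h1
  have e : ⁅x, y * z⁆ * (⁅x, y⁆ * ⁅x, z⁆)⁻¹ = ⁅x, y⁆ * ⁅y, ⁅x, z⁆⁆ * ⁅x, y⁆⁻¹ := by
    simp only [commutatorElement_def]; group
  exact e ▸ Normal.conj_mem inferInstance _ (HW_r h2 _) _

theorem HW_eq {N : Subgroup H} [N.Normal] {a b : H} :
    QuotientGroup.mk' N a = QuotientGroup.mk' N b ↔ a * b⁻¹ ∈ N := by
  rw [← mul_inv_eq_one, ← map_inv, ← map_mul, ← MonoidHom.mem_ker, QuotientGroup.ker_mk']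

theorem HW_one {N : Subgroup H} [N.Normal] {a : H} : QuotientGroup.mk' N a = 1 ↔ a ∈ N := by
  rw [← MonoidHom.mem_ker, QuotientGroup.ker_mk']

theorem HW_cj {V : Subgroup H} [V.Normal] {v y z : H} (h1 : ⁅v, ⁅y, z⁆⁆ ∈ ⁅V, (⊤ : Subgroup H)⁆) (h2 : ⁅v, z⁆ ∈ V) :
    QuotientGroup.mk' ⁅V, (⊤ : Subgroup H)⁆ ⁅v, y * z * y⁻¹⁆ = QuotientGroup.mk' ⁅V, (⊤ : Subgroup H)⁆ ⁅v, z⁆ := by
  rw [show y * z * y⁻¹ = ⁅y, z⁆ * z by rw [commutatorElement_def, inv_mul_cancel_right],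
    HW_eq.2 (cm_right (commutator_le_left _ _ h1) h2), map_mul, HW_one.2 h1, one_mul]

theorem HW_2 (x y : H) : ⁅x, y⁆ ∈ g2 H := HW_l (mem_top x) y

theorem hw3 (x y z : H) : ⁅⁅x, y⁆, z⁆ * ⁅⁅y, z⁆, x⁆ * ⁅⁅z, x⁆, y⁆ ∈ g4 H := by
  have k : ∀ a b c : H, QuotientGroup.mk' (g4 H) ⁅⁅a, b⁆, b * c * b⁻¹⁆ = QuotientGroup.mk' (g4 H) ⁅⁅a, b⁆, c⁆ :=
    fun a b c => HW_cj (g22 (commutator_mem_commutator (HW_2 _ _) (HW_2 _ _))) (HW_l (HW_2 _ _) _)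
  rw [← HW_one, map_mul, map_mul, ← k, ← k y, ← k z, ← map_mul, ← map_mul,
    commutatorElement_commutatorElement_conj_mul, map_one]

theorem hw4 {w : H} (hw : w ∈ g2 H) (c d : H) :
    ⁅w, ⁅c, d⁆⁆ * (⁅⁅w, c⁆, d⁆ * ⁅⁅w, d⁆, c⁆⁻¹)⁻¹ ∈ g5 H := by
  have k : ∀ v ∈ g3 H, ∀ y z : H, QuotientGroup.mk' (g5 H) ⁅v, y * z * y⁻¹⁆ = QuotientGroup.mk' (g5 H) ⁅v, z⁆ :=
    fun v hv y z => HW_cj (by
      rw [← commutatorElement_inv]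
      exact inv_mem (g23 (commutator_mem_commutator (HW_2 _ _) hv))) (HW_l hv _)
  have h1 := k _ (HW_l hw c) c d
  have h2 : QuotientGroup.mk' (g5 H) ⁅⁅c, d⁆, d * w * d⁻¹⁆ = QuotientGroup.mk' (g5 H) ⁅⁅c, d⁆, w⁆ :=
    HW_cj (g23 (commutator_mem_commutator (HW_2 _ _) (HW_r hw d))) (g22 (commutator_mem_commutator (HW_2 _ _) hw))
  have h3 := k _ (HW_r hw d) w c
  have h4 := HW_eq.2 (cm_left (HW_l (HW_r hw d) c) (HW_l (HW_l hw d) c))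
  rw [← commutatorElement_inv w d, inv_mul_cancel, commutatorElement_one_left, map_one, map_mul,
    commutatorElement_inv, eq_comm, mul_eq_one_iff_eq_inv] at h4
  have h5 := congrArg (QuotientGroup.mk' (g5 H)) (commutatorElement_commutatorElement_conj_mul w c d)
  rw [map_mul, map_mul, h1, h2, h3, h4, map_one, ← commutatorElement_inv w ⁅c, d⁆, map_inv, mul_inv_eq_one,
    mul_inv_eq_iff_eq_mul] at h5
  have h6 := HW_one.2 (HW_l (g22 (commutator_mem_commutator hw (HW_2 c d))) ⁅⁅w, d⁆, c⁆)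
  rw [← HW_eq, map_mul, map_inv, h5, eq_mul_inv_iff_mul_eq]
  rwa [map_commutatorElement, commutatorElement_eq_one_iff_mul_comm] at h6

theorem HW_ch (σ : MulAut H) (K : Subgroup H) [h : K.Characteristic] : ∀ x ∈ K, σ x ∈ K :=
  characteristic_iff_le_comap.1 h σ

theorem aut_mem (σ : MulAut H) : (∀ x ∈ g2 H, σ x ∈ g2 H) ∧ (∀ x ∈ g3 H, σ x ∈ g3 H) ∧
    (∀ x ∈ g4 H, σ x ∈ g4 H) ∧ ∀ x ∈ g5 H, σ x ∈ g5 H :=
  ⟨HW_ch σ _, HW_ch σ _, HW_ch σ _, HW_ch σ _⟩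

theorem eq_bot_of_le [Finite H] {p : ℕ} [Fact p.Prime] (h : IsPGroup p H) {V : Subgroup H}
    (hV : V ≤ ⁅V, (⊤ : Subgroup H)⁆) : V = ⊥ := by
  obtain ⟨n, hn⟩ := Subgroup.nilpotent_iff_lowerCentralSeries.1 h.isNilpotent
  have k : ∀ m, V ≤ (⊤ : Subgroup H).lowerCentralSeries m := fun m => by
    induction m with
    | zero => exact le_top
    | succ m ih => exact hV.trans (commutator_mono ih le_rfl)
  exact le_bot_iff.1 (hn ▸ k n)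

end Cfsg.Agent.NE3
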