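import Mathlib
import Cfsg.Agent.NE3.Defs
import Cfsg.Agent.NE3.HW

set_option autoImplicit false
set_option linter.unusedSectionVars false

namespace Cfsg.Agent.NE3

open Subgroup Cfsg Cfsg.Agent.Ch Cfsg.Agent.Deg Module
open scoped commutatorElement

universe u

variable {H : Type u} [Group H] [Finite H] {p : ℕ} [Fact p.Prime] {α β : MulAut H} {B : Subgroup H}

theorem G1_map (σ : MulAut H) {k : H} (hk : k ∈ g2 H) : σ k ∈ g2 H := by
  have : (g2 H).map σ.toMonoidHom ≤ g2 H := by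
    rw [map_commutator]
    exact commutator_mono le_top le_top
  exact this ⟨k, hk, rfl⟩

theorem G1_normal {N : Subgroup H} (h : g2 H ≤ N) : N.Normal := ⟨fun n hn g => by
  have : g * n * g⁻¹ = ⁅g, n⁆ * n := by rw [commutatorElement_def]; group
  rw [this]
  exact mul_mem (h (commutator_mem_commutator (mem_top _) (mem_top _))) hn⟩

theorem G1_onto {σ : MulAut H} {X N : Subgroup H} (hN : N.Normal) (hX : ∀ x ∈ X, σ x ∈ X)
    (h : ∀ x ∈ X, σ x * x⁻¹ ∈ N → x ∈ N) {r : H} (hr : r ∈ X) : ∃ k ∈ X, (σ k * k⁻¹)⁻¹ * r ∈ N := by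
  let f : X ⧸ N.subgroupOf X → X ⧸ N.subgroupOf X := fun q =>
    QuotientGroup.mk ⟨σ q.out.1 * q.out.1⁻¹, mul_mem (hX _ q.out.2) (inv_mem q.out.2)⟩
  have hf : Function.Injective f := fun a b e => by
    have e1 : (σ a.out.1 * a.out.1⁻¹)⁻¹ * (σ b.out.1 * b.out.1⁻¹) ∈ N :=
      mem_subgroupOf.1 ((QuotientGroup.eq (s := N.subgroupOf X)).1 e)
    have e2 : σ (a.out.1⁻¹ * b.out.1) * (a.out.1⁻¹ * b.out.1)⁻¹ ∈ N := by
      have := hN.conj_mem _ e1 a.out.1⁻¹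
      convert this using 1
      rw [map_mul, map_inv]
      group
    have e3 := h _ (mul_mem (inv_mem a.out.2) b.out.2) e2
    rw [← a.out_eq, ← b.out_eq]
    exact QuotientGroup.eq.2 e3
  obtain ⟨q, hq⟩ := Finite.injective_iff_surjective.1 hf (QuotientGroup.mk ⟨r, hr⟩)
  exact ⟨q.out.1, q.out.2, mem_subgroupOf.1 ((QuotientGroup.eq (s := N.subgroupOf X)).1 hq)⟩

theorem G1_sup {x : H} (hx : x ∈ B ⊔ g2 H) : ∃ k ∈ g2 H, ∃ c ∈ B, k * c = x := by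
  rw [sup_comm] at hx
  exact mem_sup_of_normal_left.1 hx

theorem g2_le_P0 (α : MulAut H) : g2 H ≤ P0 α := fun x hx => mem_P0.2 ⟨1, by simpa using hx⟩

theorem P0_normal (α : MulAut H) : (P0 α).Normal := G1_normal (g2_le_P0 α)

theorem Cf2.dec (h : Cf2 p α B) (x : H) : ∃ r ∈ P0 α, ∃ c ∈ B, x = r * c := by
  obtain ⟨k, -, hk⟩ := G1_onto (σ := α) (X := ⊤) (G1_normal (N := B ⊔ g2 H) le_sup_right) (fun _ _ => mem_top _)
    (fun y _ => h.fa y) (mem_top x)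
  obtain ⟨w, hw, c, hc, e⟩ := G1_sup hk
  refine ⟨α k * k⁻¹ * w, mul_mem (mem_P0.2 ⟨k, by rw [mul_inv_cancel]; exact one_mem _⟩) (g2_le_P0 α hw), c, hc, ?_⟩
  rw [mul_assoc, e, mul_inv_cancel_left]

theorem Cf2.inf (h : Cf2 p α B) {r : H} (hr : r ∈ P0 α) (hD : r ∈ B ⊔ g2 H) : r ∈ g2 H := by
  obtain ⟨y, hy⟩ := mem_P0.1 hr
  have e1 : α y * y⁻¹ ∈ B ⊔ g2 H := by
    have := mul_mem (inv_mem (mem_sup_right hy : _ ∈ B ⊔ g2 H)) hD
    rwa [mul_inv_rev, inv_inv, inv_mul_cancel_right] at this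
  obtain ⟨w, hw, c, hc, rfl⟩ := G1_sup (h.fa y e1)
  have e2 : α (w * c) * (w * c)⁻¹ ∈ g2 H := by
    rw [map_mul, h.aB c hc, mul_inv_rev, ← mul_assoc, mul_inv_cancel_right]
    exact mul_mem (G1_map α hw) (inv_mem hw)
  have := mul_mem hy e2
  rwa [inv_mul_cancel_right] at this

theorem Cf2.ex (h : Cf2 p α B) : ∃ r ∈ P0 α, r ∉ g2 H := by
  by_contra k
  refine h.ne (eq_top_iff.2 fun x _ => ?_)
  obtain ⟨r, hr, c, hc, rfl⟩ := h.dec x
  exact mul_mem (mem_sup_right (by_contra fun hn => k ⟨r, hr, hn⟩)) (mem_sup_left hc)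

theorem P0_map {σ : MulAut H} (hc : α * σ = σ * α) {r : H} (hr : r ∈ P0 α) : σ r ∈ P0 α := by
  obtain ⟨y, hy⟩ := mem_P0.1 hr
  refine mem_P0.2 ⟨σ y, ?_⟩
  have e : α (σ y) = σ (α y) := by rw [← MulAut.mul_apply, hc, MulAut.mul_apply]
  have := G1_map σ hy
  rwa [map_mul, map_inv, map_mul, map_inv, ← e] at this

theorem Cf2.onto (h : Cf2 p α B) {σ : MulAut H} (hc : α * σ = σ * α) (hf : Fpf σ B) {r : H}
    (hr : r ∈ P0 α) : ∃ k ∈ P0 α, r * (σ k * k⁻¹)⁻¹ ∈ g2 H := by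
  obtain ⟨k, hk, e⟩ := G1_onto (σ := σ) (X := P0 α) (G1_normal (N := g2 H) le_rfl) (fun _ hx => P0_map hc hx)
    (fun y hy e => h.inf hy (hf y (mem_sup_right e))) hr
  exact ⟨k, hk, (G1_normal (N := g2 H) le_rfl).mem_comm e⟩

end Cfsg.Agent.NE3
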