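import Mathlib
import Cfsg.Agent.NE3.Defs
import Cfsg.Agent.NE3.G1

set_option autoImplicit false

namespace Cfsg.Agent.NE3

open Subgroup Cfsg Cfsg.Agent.Ch Cfsg.Agent.Deg Module
open scoped commutatorElement

universe u

section Aux
variable {H : Type u} [Group H]

theorem g1b_eq {a b : H} :
    QuotientGroup.mk' (g3 H) a = QuotientGroup.mk' (g3 H) b ↔ a * b⁻¹ ∈ g3 H := by
  rw [← mul_inv_eq_one, ← map_inv, ← map_mul, ← MonoidHom.mem_ker, QuotientGroup.ker_mk']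

theorem g1b_one {a : H} : QuotientGroup.mk' (g3 H) a = 1 ↔ a ∈ g3 H := by
  rw [← MonoidHom.mem_ker, QuotientGroup.ker_mk']

theorem g1b_mem (x y : H) : ⁅x, y⁆ ∈ g2 H := commutator_mem_commutator (mem_top x) (mem_top y)

/-- The commutator with a fixed left entry, modulo `g3`. -/
def g1bR (x : H) : H →* H ⧸ g3 H :=
  MonoidHom.mk' (fun y => QuotientGroup.mk' (g3 H) ⁅x, y⁆) fun y z => by
    rw [← map_mul, g1b_eq]
    exact cm_right (g1b_mem x y) (g1b_mem x z)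

/-- The commutator with a fixed right entry, modulo `g3`. -/
def g1bL (z : H) : H →* H ⧸ g3 H :=
  MonoidHom.mk' (fun x => QuotientGroup.mk' (g3 H) ⁅x, z⁆) fun x y => by
    rw [← map_mul, g1b_eq]
    exact cm_left (g1b_mem x z) (g1b_mem y z)

theorem g1bR_apply (x y : H) : g1bR x y = QuotientGroup.mk' (g3 H) ⁅x, y⁆ := rfl

theorem g1bL_apply (x y : H) : g1bL y x = QuotientGroup.mk' (g3 H) ⁅x, y⁆ := rfl

theorem g1b_symm {x y : H} (h : ⁅x, y⁆ ∈ g3 H) : ⁅y, x⁆ ∈ g3 H := by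
  rw [← commutatorElement_inv]; exact inv_mem h

theorem g1b_pow (x y : H) (n : ℕ) :
    QuotientGroup.mk' (g3 H) ⁅x ^ n, y⁆ = QuotientGroup.mk' (g3 H) ⁅x, y⁆ ^ n := by
  rw [← g1bL_apply, map_pow, g1bL_apply]

end Aux

variable {H : Type u} [Group H] [Finite H] {p : ℕ} [Fact p.Prime] {α β : MulAut H} {B : Subgroup H}

theorem Cf2.bP (h : Cf2 p α B) {c r : H} (hc : c ∈ B) (hr : r ∈ P0 α) : ⁅c, r⁆ ∈ g3 H := by
  obtain ⟨k, hk⟩ := mem_P0.1 hr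
  have e : r = r * (α k * k⁻¹)⁻¹ * (α k * k⁻¹) := by group
  have h1 : g1bR c (r * (α k * k⁻¹)⁻¹) = 1 :=
    g1b_one.2 (g1b_symm (commutator_mem_commutator hk (mem_top c)))
  have h2 : g1bR c (α k) = g1bR c k := by
    rw [g1bR_apply, g1bR_apply, g1b_eq]
    have := h.a2 _ (g1b_mem c k)
    rwa [map_commutatorElement, h.aB c hc] at this
  rw [← g1b_one, ← g1bR_apply, e, map_mul, h1, map_mul, h2, map_inv, mul_inv_cancel, one_mul]

theorem Cf2.camP (h : Cf2 p α B) {x : H} (hx : x ∈ P0 α) (hx' : x ∉ g2 H) {k : H} (hk : k ∈ g2 H) :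
    ∃ g ∈ P0 α, ⁅x, g⁆ * k⁻¹ ∈ g3 H := by
  obtain ⟨g, hg⟩ := h.cam x (fun e => hx' (h.inf hx e)) k⁻¹ (inv_mem hk)
  obtain ⟨r, hr, c, hc, rfl⟩ := h.dec g
  refine ⟨r, hr, g1b_eq.1 ?_⟩
  have e : ⁅x, r * c⁆ = k := by rw [← commutatorElement_inv, hg, inv_inv]
  have h1 : g1bR x c = 1 := g1b_one.2 (g1b_symm (h.bP hc hx))
  rw [← e, ← g1bR_apply, ← g1bR_apply, map_mul, h1, mul_one]

theorem Cf2.powA (h : Cf2 p α B) (hn : g2 H ≠ ⊥) {r : H} (hr : r ∈ P0 α) : r ^ p ∈ g2 H := by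
  by_contra hp
  have key : ∀ n : ℕ, ∀ k ∈ g2 H, ∃ k' ∈ g2 H,
      QuotientGroup.mk' (g3 H) k = QuotientGroup.mk' (g3 H) k' ^ p ^ n := by
    intro n
    induction n with
    | zero => exact fun k hk => ⟨k, hk, by rw [pow_zero, pow_one]⟩
    | succ n ih =>
      intro k hk
      obtain ⟨k', hk', e⟩ := ih k hk
      obtain ⟨g, -, hg⟩ := h.camP (pow_mem hr p) hp hk'
      refine ⟨⁅r, g⁆, g1b_mem r g, ?_⟩
      rw [e, ← g1b_eq.2 hg, g1b_pow, ← pow_mul, pow_succ']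
  obtain ⟨n, hn'⟩ := h.pg.exists_card_eq
  refine hn (eq_bot_of_le h.pg fun k hk => ?_)
  obtain ⟨k', -, e⟩ := key n k hk
  rw [← map_pow, ← hn', pow_card_eq_one', map_one] at e
  exact g1b_one.1 e

theorem Cf2.powW (h : Cf2 p α B) {w : H} (hw : w ∈ g2 H) : w ^ p ∈ g3 H := by
  by_cases hn : g2 H = ⊥
  · rw [hn, mem_bot] at hw
    rw [hw, one_pow]
    exact one_mem _
  obtain ⟨x, hx, hx'⟩ := h.ex
  obtain ⟨g, -, hg⟩ := h.camP hx hx' hw
  rw [← g1b_one, map_pow, ← g1b_eq.2 hg, ← g1b_pow, g1b_one]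
  exact commutator_mem_commutator (h.powA hn hx) (mem_top g)

end Cfsg.Agent.NE3
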