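import Mathlib
import Cfsg.Agent.NE3.Defs
import Cfsg.Agent.NE3.G1b

set_option autoImplicit false

namespace Cfsg.Agent.NE3

open Subgroup Cfsg Cfsg.Agent.Ch Cfsg.Agent.Deg Module
open scoped commutatorElement

universe u

variable {H : Type u} [Group H] [Finite H] {p : ℕ} [Fact p.Prime] {α β : MulAut H} {B : Subgroup H}

omit [Finite H] in
theorem G2_sup {X A M C N : Subgroup H} [hN : N.Normal] (hX : X ≤ A ⊔ M) (hA : ⁅A, C⁆ ≤ N)
    (hM : ⁅M, C⁆ ≤ N) : ⁅X, C⁆ ≤ N := by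
  let K : Subgroup H :=
    { carrier := {x | ∀ b ∈ C, ⁅x, b⁆ ∈ N}
      one_mem' := fun b _ => by rw [commutatorElement_one_left]; exact one_mem _
      mul_mem' := fun {x y} hx hy b hb => by
        have e : ⁅x * y, b⁆ = x * ⁅y, b⁆ * x⁻¹ * ⁅x, b⁆ := by
          simp only [commutatorElement_def]; group
        rw [e]; exact mul_mem (hN.conj_mem _ (hy b hb) x) (hx b hb)
      inv_mem' := fun {x} hx b hb => by
        have e : ⁅x⁻¹, b⁆ = x⁻¹ * ⁅x, b⁆⁻¹ * x⁻¹⁻¹ := by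
          simp only [commutatorElement_def]; group
        rw [e]; exact hN.conj_mem _ (inv_mem (hx b hb)) x⁻¹ }
  have h : A ⊔ M ≤ K := sup_le (fun x hx b hb => commutator_le.1 hA x hx b hb)
    fun x hx b hb => commutator_le.1 hM x hx b hb
  exact commutator_le.2 fun x hx b hb => h (hX hx) b hb

theorem G2_gen (h : Cf2 p α B) {V : Subgroup H} [V.Normal]
    (hV : ⁅V, B⁆ ≤ ⁅⁅V, (⊤ : Subgroup H)⁆, (⊤ : Subgroup H)⁆) :
    ⁅V, (⊤ : Subgroup H)⁆ ≤ ⁅V, P0 α⁆ ⊔ ⁅⁅V, (⊤ : Subgroup H)⁆, (⊤ : Subgroup H)⁆ := by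
  refine commutator_le.2 fun w hw x _ => ?_
  obtain ⟨r, hr, c, hc, rfl⟩ := h.dec x
  have k := cm_right (V := ⁅V, (⊤ : Subgroup H)⁆) (x := w) (y := r) (z := c)
    (commutator_mem_commutator hw (mem_top _)) (commutator_mem_commutator hw (mem_top _))
  rw [← inv_mul_cancel_right ⁅w, r * c⁆ (⁅w, r⁆ * ⁅w, c⁆)]
  exact mul_mem (mem_sup_right k) (mul_mem (mem_sup_left (commutator_mem_commutator hw hr))
    (mem_sup_right (hV (commutator_mem_commutator hw hc))))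

omit [Finite H] [Fact p.Prime] in
theorem G2_pow {V : Subgroup H} [V.Normal] (hV : ∀ w ∈ V, w ^ p ∈ ⁅V, (⊤ : Subgroup H)⁆) {y : H}
    (hy : y ∈ ⁅V, (⊤ : Subgroup H)⁆) : y ^ p ∈ ⁅⁅V, (⊤ : Subgroup H)⁆, (⊤ : Subgroup H)⁆ := by
  set N := ⁅⁅V, (⊤ : Subgroup H)⁆, (⊤ : Subgroup H)⁆ with hN
  let π := QuotientGroup.mk' N
  have ker : ∀ x, π x = 1 ↔ x ∈ N := fun x => QuotientGroup.eq_one_iff x
  let K : Subgroup H :=
    { carrier := {x | x ∈ ⁅V, (⊤ : Subgroup H)⁆ ∧ π x ^ p = 1}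
      one_mem' := ⟨one_mem _, by rw [map_one, one_pow]⟩
      mul_mem' := fun {a b} ha hb => ⟨mul_mem ha.1 hb.1, by
        have c : Commute (π a) (π b) := by
          rw [← commutatorElement_eq_one_iff_commute, ← map_commutatorElement, ker]
          exact commutator_mem_commutator ha.1 (mem_top _)
        rw [map_mul, c.mul_pow, ha.2, hb.2, one_mul]⟩
      inv_mem' := fun {a} ha => ⟨inv_mem ha.1, by rw [map_inv, inv_pow, ha.2, inv_one]⟩ }
  have h : ⁅V, (⊤ : Subgroup H)⁆ ≤ K := commutator_le.2 fun w hw x _ => by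
    refine ⟨commutator_mem_commutator hw (mem_top _), ?_⟩
    have e : ∀ n : ℕ, π ⁅w, x⁆ ^ n = π ⁅w ^ n, x⁆ := fun n => by
      induction n with
      | zero => rw [pow_zero, pow_zero, commutatorElement_one_left, map_one]
      | succ n ih =>
        have k := (ker _).2 (cm_left (V := ⁅V, (⊤ : Subgroup H)⁆) (x := w ^ n) (y := w) (z := x)
          (commutator_mem_commutator (pow_mem hw n) (mem_top _)) (commutator_mem_commutator hw (mem_top _)))
        rw [map_mul, map_inv, mul_inv_eq_one, map_mul] at k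
        rw [pow_succ, pow_succ, ih, k]
    rw [e, ker]
    exact commutator_mem_commutator (hV w hw) (mem_top _)
  rw [← ker, map_pow]
  exact (h hy).2

theorem G2_BP (h : Cf2 p α B) : ⁅B, P0 α⁆ ≤ g3 H := commutator_le.2 fun _ hc _ hr => h.bP hc hr

theorem G2_PP (h : Cf2 p α B) : g2 H ≤ ⁅P0 α, P0 α⁆ ⊔ g3 H := fun k hk => by
  obtain ⟨r, hr, h2⟩ := h.ex
  obtain ⟨g, hg, e⟩ := h.camP hr h2 hk
  have : k = (⁅r, g⁆ * k⁻¹)⁻¹ * ⁅r, g⁆ := by group
  rw [this]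
  exact mul_mem (mem_sup_right (inv_mem e)) (mem_sup_left (commutator_mem_commutator hr hg))

theorem Cf2.g2B (h : Cf2 p α B) : ⁅g2 H, B⁆ ≤ g4 H :=
  G2_sup (G2_PP h) (three_sub (commutator_mono ((Subgroup.commutator_comm _ _).le.trans (G2_BP h)) le_top)
    (commutator_mono (G2_BP h) le_top)) (commutator_mono le_rfl le_top)

theorem Cf2.g3P (h : Cf2 p α B) : g3 H ≤ ⁅g2 H, P0 α⁆ ⊔ g4 H := G2_gen h h.g2B

theorem Cf2.g3B (h : Cf2 p α B) : ⁅g3 H, B⁆ ≤ g5 H :=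
  G2_sup h.g3P (three_sub
    ((commutator_mono ((Subgroup.commutator_comm _ _).le.trans (G2_BP h)) le_rfl).trans
      ((Subgroup.commutator_comm _ _).le.trans g23))
    (commutator_mono ((Subgroup.commutator_comm _ _).le.trans h.g2B) le_top)) (commutator_mono le_rfl le_top)

theorem Cf2.g4P (h : Cf2 p α B) : g4 H ≤ ⁅g3 H, P0 α⁆ ⊔ g5 H := G2_gen h h.g3B

theorem Cf2.powY (h : Cf2 p α B) {y : H} (hy : y ∈ g3 H) : y ^ p ∈ g4 H :=
  G2_pow (fun _ hw => h.powW hw) hy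

theorem Cf2.powZ (h : Cf2 p α B) {z : H} (hz : z ∈ g4 H) : z ^ p ∈ g5 H :=
  G2_pow (fun _ hw => h.powY hw) hz

end Cfsg.Agent.NE3
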