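import Mathlib
import Cfsg.Agent.NE3.Defs

set_option autoImplicit false

namespace Cfsg.Agent.NE3

open Subgroup Cfsg Cfsg.Agent.Ch Cfsg.Agent.Deg Module
open scoped commutatorElement

universe u

theorem exists_sc {H : Type u} [Group H] [Finite H] {p : ℕ} [Fact p.Prime] {X X' : Subgroup H} [X'.Normal]
    (hc : ⁅X, X⁆ ≤ X') (hp : ∀ x ∈ X, x ^ p ∈ X') : Nonempty (Sc p X X') := by
  classical
  let π := QuotientGroup.mk' X'
  let A := X.map π
  let _ : CommGroup A := { (inferInstance : Group A) with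
    mul_comm := by
      rintro ⟨_, a, ha, rfl⟩ ⟨_, b, hb, rfl⟩
      refine Subtype.ext (commutatorElement_eq_one_iff_mul_comm.1 ?_)
      show ⁅π a, π b⁆ = 1
      rw [← map_commutatorElement]
      exact (QuotientGroup.eq_one_iff _).2 (hc (commutator_mem_commutator ha hb)) }
  let _ : Module (ZMod p) (Additive A) := AddCommGroup.zmodModule (n := p) (by
    rintro ⟨_, a, ha, rfl⟩
    refine Subtype.ext ?_
    show (π a) ^ p = 1
    rw [← map_pow]
    exact (QuotientGroup.eq_one_iff _).2 (hp a ha))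
  refine ⟨{ V := Additive A
            f := fun x => if h : x ∈ X then Additive.ofMul ⟨π x, mem_map_of_mem π h⟩ else 0
            mul := fun x hx y hy => ?_
            zero := fun x hx => ?_
            surj := ?_ }⟩
  · rw [dif_pos hx, dif_pos hy, dif_pos (mul_mem hx hy), ← ofMul_mul]
    exact congrArg Additive.ofMul (Subtype.ext (map_mul π x y))
  · rw [dif_pos hx, ofMul_eq_zero, Subtype.ext_iff]
    exact QuotientGroup.eq_one_iff x
  · rintro ⟨_, a, ha, rfl⟩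
    exact ⟨a, ha, dif_pos ha⟩

theorem Sc.one {H : Type u} [Group H] {p : ℕ} {X X' : Subgroup H} (s : Sc p X X') : s.f 1 = 0 := by
  have := s.mul 1 (one_mem _) 1 (one_mem _)
  rw [mul_one] at this
  exact left_eq_add.1 this

theorem Sc.inv {H : Type u} [Group H] {p : ℕ} {X X' : Subgroup H} (s : Sc p X X') {x : H} (hx : x ∈ X) :
    s.f x⁻¹ = -s.f x := by
  have := s.mul x⁻¹ (inv_mem hx) x hx
  rw [inv_mul_cancel, s.one] at this
  exact eq_neg_of_add_eq_zero_left this.symm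

theorem Sc.eq_iff {H : Type u} [Group H] {p : ℕ} {X X' : Subgroup H} (s : Sc p X X') {x y : H}
    (hx : x ∈ X) (hy : y ∈ X) : s.f x = s.f y ↔ x * y⁻¹ ∈ X' := by
  rw [← s.zero _ (mul_mem hx (inv_mem hy)), s.mul x hx _ (inv_mem hy), s.inv hy, ← sub_eq_add_neg, sub_eq_zero]

theorem exists_lin {H : Type u} [Group H] {p : ℕ} [Fact p.Prime] {X X' : Subgroup H} (s : Sc p X X')
    {M : Type*} [AddCommGroup M] [Module (ZMod p) M] (φ : H → M)
    (h1 : ∀ x ∈ X, ∀ y ∈ X, φ (x * y) = φ x + φ y) (h2 : ∀ x ∈ X, x ∈ X' → φ x = 0) :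
    ∃ l : s.V →ₗ[ZMod p] M, ∀ x ∈ X, l (s.f x) = φ x := by
  choose g hg e using s.surj
  have wd : ∀ x ∈ X, ∀ y ∈ X, s.f x = s.f y → φ x = φ y := fun x hx y hy h => by
    have h3 := mul_mem hx (inv_mem hy)
    have h4 := h1 _ h3 y hy
    rwa [inv_mul_cancel_right, h2 _ h3 ((s.eq_iff hx hy).1 h), zero_add] at h4
  let a : s.V →+ M := AddMonoidHom.mk' (fun v => φ (g v)) fun v w => by
    rw [← h1 _ (hg v) _ (hg w)]
    exact wd _ (hg _) _ (mul_mem (hg v) (hg w)) (by rw [s.mul _ (hg v) _ (hg w), e, e, e])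
  exact ⟨a.toZModLinearMap p, fun x hx => wd _ (hg _) x hx (e _)⟩

theorem exists_bil {H : Type u} [Group H] {p : ℕ} [Fact p.Prime] {X X' U U' : Subgroup H}
    (s : Sc p X X') (r : Sc p U U') {M : Type*} [AddCommGroup M] [Module (ZMod p) M] (φ : H → H → M)
    (h1 : ∀ x ∈ X, ∀ y ∈ X, ∀ v ∈ U, φ (x * y) v = φ x v + φ y v)
    (h2 : ∀ x ∈ X, ∀ v ∈ U, ∀ w ∈ U, φ x (v * w) = φ x v + φ x w)
    (h3 : ∀ x ∈ X, x ∈ X' → ∀ v ∈ U, φ x v = 0) (h4 : ∀ x ∈ X, ∀ v ∈ U, v ∈ U' → φ x v = 0) :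
    ∃ l : s.V →ₗ[ZMod p] r.V →ₗ[ZMod p] M, ∀ x ∈ X, ∀ v ∈ U, l (s.f x) (r.f v) = φ x v := by
  classical
  have ex : ∀ x : H, ∃ l : r.V →ₗ[ZMod p] M, x ∈ X → ∀ v ∈ U, l (r.f v) = φ x v := fun x => by
    by_cases hx : x ∈ X
    · obtain ⟨l, hl⟩ := exists_lin r (φ x) (h2 x hx) (h4 x hx)
      exact ⟨l, fun _ => hl⟩
    · exact ⟨0, fun h => absurd h hx⟩
  choose ψ hψ using ex
  obtain ⟨l, hl⟩ := exists_lin s ψ
    (fun x hx y hy => LinearMap.ext fun w => by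
      obtain ⟨v, hv, rfl⟩ := r.surj w
      rw [LinearMap.add_apply, hψ x hx v hv, hψ y hy v hv, hψ _ (mul_mem hx hy) v hv, h1 x hx y hy v hv])
    (fun x hx hx' => LinearMap.ext fun w => by
      obtain ⟨v, hv, rfl⟩ := r.surj w
      rw [hψ x hx v hv, h3 x hx hx' v hv, LinearMap.zero_apply])
  exact ⟨l, fun x hx v hv => by rw [hl x hx, hψ x hx v hv]⟩

end Cfsg.Agent.NE3
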