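import Mathlib
import Cfsg.Agent.NE3.Defs
import Cfsg.Agent.NE3.G2
import Cfsg.Agent.NE3.Sec

set_option autoImplicit false
set_option linter.unusedSectionVars false

namespace Cfsg.Agent.NE3

open Subgroup Cfsg Cfsg.Agent.Ch Cfsg.Agent.Deg Module
open scoped commutatorElement

universe u

variable {H : Type u} [Group H] [Finite H] {p : ℕ} [Fact p.Prime] {α β : MulAut H} {B : Subgroup H}

theorem g3_c2 (x y : H) : ⁅x, y⁆ ∈ g2 H := commutator_mem_commutator (mem_top x) (mem_top y)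

theorem g3_c3 {w : H} (hw : w ∈ g2 H) (x : H) : ⁅w, x⁆ ∈ g3 H := commutator_mem_commutator hw (mem_top x)

theorem g3_c4 {w : H} (hw : w ∈ g3 H) (x : H) : ⁅w, x⁆ ∈ g4 H := commutator_mem_commutator hw (mem_top x)

/-- Congruent products have the sum as their image. -/
theorem g3_add {X X' : Subgroup H} (s : Sc p X X') {a b c : H} (ha : a ∈ X) (hb : b ∈ X) (hc : c ∈ X)
    (h : a * (b * c)⁻¹ ∈ X') : s.f a = s.f b + s.f c := by
  rw [← s.mul b hb c hc]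
  exact (s.eq_iff ha (mul_mem hb hc)).2 h

theorem Cf3.d3 (h : Cf3 p α β B) : Nonempty (D3 p α) := by
  have h2 := h.toCf2
  have n2 : g2 H ≠ ⊥ := fun e => h.ne3 (le_bot_iff.1 (g3_le.trans e.le))
  obtain ⟨sA⟩ : Nonempty (Sc p (P0 α) (g2 H)) :=
    exists_sc (commutator_mono le_top le_top) fun x hx => h2.powA n2 hx
  obtain ⟨sW⟩ : Nonempty (Sc p (g2 H) (g3 H)) :=
    exists_sc (commutator_mono le_rfl le_top) fun x hx => h2.powW hx
  obtain ⟨sY⟩ : Nonempty (Sc p (g3 H) (g4 H)) :=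
    exists_sc (commutator_mono le_rfl le_top) fun x hx => h2.powY hx
  obtain ⟨b, hb⟩ := exists_bil sA sA (fun x y => sW.f ⁅x, y⁆)
    (fun x _ y _ v _ => g3_add sW (g3_c2 _ _) (g3_c2 _ _) (g3_c2 _ _) (cm_left (g3_c2 _ _) (g3_c2 _ _)))
    (fun x _ v _ w _ => g3_add sW (g3_c2 _ _) (g3_c2 _ _) (g3_c2 _ _) (cm_right (g3_c2 _ _) (g3_c2 _ _)))
    (fun x _ hx v _ => (sW.zero _ (g3_c2 _ _)).2 (g3_c3 hx v))
    (fun x _ v _ hv => (sW.zero _ (g3_c2 _ _)).2 (by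
      rw [← commutatorElement_inv]; exact inv_mem (g3_c3 hv x)))
  obtain ⟨t, ht⟩ := exists_bil sW sA (fun w x => sY.f ⁅w, x⁆)
    (fun x hx y hy v _ => g3_add sY (g3_c3 (mul_mem hx hy) _) (g3_c3 hx _) (g3_c3 hy _)
      (cm_left (g3_c3 hx _) (g3_c3 hy _)))
    (fun x hx v _ w _ => g3_add sY (g3_c3 hx _) (g3_c3 hx _) (g3_c3 hx _) (cm_right (g3_c3 hx _) (g3_c3 hx _)))
    (fun x hx hx' v _ => (sY.zero _ (g3_c3 hx _)).2 (g3_c4 hx' v))
    (fun x hx v _ hv => (sY.zero _ (g3_c3 hx _)).2 (g22 (commutator_mem_commutator hx hv)))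
  refine ⟨⟨sA, sW, sY, b, t, hb, ht, ?_, ?_, ?_, ?_, ?_, ?_⟩⟩
  · intro x
    obtain ⟨x, hx, rfl⟩ := sA.surj x
    rw [hb x hx x hx, commutatorElement_self, sW.one]
  · intro x y z
    obtain ⟨x, hx, rfl⟩ := sA.surj x
    obtain ⟨y, hy, rfl⟩ := sA.surj y
    obtain ⟨z, hz, rfl⟩ := sA.surj z
    have k := fun a b c : H => g3_c3 (g3_c2 a b) c
    rw [hb x hx y hy, hb y hy z hz, hb z hz x hx, ht _ (g3_c2 _ _) z hz, ht _ (g3_c2 _ _) x hx,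
      ht _ (g3_c2 _ _) y hy, ← sY.mul _ (k _ _ _) _ (k _ _ _), ← sY.mul _ (mul_mem (k _ _ _) (k _ _ _)) _ (k _ _ _)]
    exact (sY.zero _ (mul_mem (mul_mem (k _ _ _) (k _ _ _)) (k _ _ _))).2 (hw3 x y z)
  · intro x hx0 w
    obtain ⟨x, hx, rfl⟩ := sA.surj x
    obtain ⟨w, hw, rfl⟩ := sW.surj w
    obtain ⟨g, hg, e⟩ := h2.camP hx (fun e => hx0 ((sA.zero x hx).2 e)) hw
    exact ⟨sA.f g, (hb x hx g hg).trans ((sW.eq_iff (g3_c2 _ _) hw).2 e)⟩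
  · obtain ⟨r, hr, hr'⟩ := h2.ex
    exact ⟨⟨sA.f r, 0, fun e => hr' ((sA.zero r hr).1 e)⟩⟩
  · obtain ⟨y, hy, hy'⟩ : ∃ y ∈ g3 H, y ∉ g4 H := SetLike.not_le_iff_exists.1 fun e => h.ne3 (eq_bot_of_le h2.pg e)
    exact ⟨⟨sY.f y, 0, fun e => hy' ((sY.zero y hy).1 e)⟩⟩
  · intro ν hν
    by_contra hc
    push Not at hc
    let K : Subgroup H :=
      { carrier := {y | y ∈ g3 H ∧ ν (sY.f y) = 0}
        one_mem' := ⟨one_mem _, by rw [sY.one, map_zero]⟩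
        mul_mem' := fun {a b} ha hb => ⟨mul_mem ha.1 hb.1, by rw [sY.mul a ha.1 b hb.1, map_add, ha.2, hb.2, add_zero]⟩
        inv_mem' := fun {a} ha => ⟨inv_mem ha.1, by rw [sY.inv ha.1, map_neg, ha.2, neg_zero]⟩ }
    have hK : g3 H ≤ K := h2.g3P.trans (sup_le
      (commutator_le.2 fun w hw x hx => ⟨g3_c3 hw x, by rw [← ht w hw x hx]; exact hc _ _⟩)
      fun y hy => ⟨g4_le hy, by rw [(sY.zero y (g4_le hy)).2 hy, map_zero]⟩)
    refine hν (LinearMap.ext fun y => ?_)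
    obtain ⟨y, hy, rfl⟩ := sY.surj y
    exact (hK hy).2

end Cfsg.Agent.NE3
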