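import Mathlib
import Cfsg.Agent.NE3.Defs
import Cfsg.Agent.NE3.G2
import Cfsg.Agent.NE3.Sec
import Cfsg.Agent.NE3.L1

set_option autoImplicit false

namespace Cfsg.Agent.NE3

open Subgroup Cfsg Cfsg.Agent.Ch Cfsg.Agent.Deg Module
open scoped commutatorElement

universe u

variable {H : Type u} [Group H] [Finite H] {p : ℕ} [Fact p.Prime] {α β : MulAut H} {B : Subgroup H}

theorem G3c_top {A W Y : Type*} [AddCommGroup A] [Module (ZMod p) A] [AddCommGroup W] [Module (ZMod p) W]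
    [AddCommGroup Y] [Module (ZMod p) Y] {t : W →ₗ[ZMod p] A →ₗ[ZMod p] Y} {S : Submodule (ZMod p) Y}
    (h : ∀ ν : Dual (ZMod p) Y, ν ≠ 0 → ∃ y ∈ S, ν y ≠ 0) : S = ⊤ := by
  by_contra k
  obtain ⟨ν, h0, h1⟩ := S.exists_le_ker_of_lt_top (lt_top_iff_ne_top.2 k)
  obtain ⟨y, hy, e⟩ := h ν h0
  exact e (h1 hy)

theorem G3c_sub (h : Cf2 p α B) (s : Sc p (P0 α) (g2 H)) {σ : MulAut H} (hc : α * σ = σ * α) (hf : Fpf σ B)
    (a : s.V) : ∃ k ∈ P0 α, a = s.f (σ k) - s.f k := by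
  obtain ⟨r, hr, rfl⟩ := s.surj a
  obtain ⟨k, hk, e⟩ := h.onto hc hf hr
  have k1 := P0_map hc hk
  refine ⟨k, hk, ?_⟩
  rw [(s.eq_iff hr (mul_mem k1 (inv_mem hk))).2 e, s.mul _ k1 _ (inv_mem hk), s.inv hk, sub_eq_add_neg]

omit [Finite H] in
theorem G3c_cm {w : H} (hw : w ∈ g2 H) (x : H) : ⁅w, x⁆ ∈ g3 H := commutator_mem_commutator hw (mem_top x)

theorem Cf3.wsp (h : Cf3 p α β B) (d : D3 p α) {w : H} (hw : w ∈ g2 H) (hw' : w ∉ g3 H) {y : H}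
    (hy : y ∈ g3 H) : ∃ g ∈ P0 α, ⁅w, g⁆ * y⁻¹ ∈ g4 H := by
  have k : LinearMap.range (d.t (d.sW.f w)) = ⊤ := G3c_top (t := d.t) fun ν h0 => by
    by_contra e
    refine hw' ((d.sW.zero w hw).1 (d.l3.wz h0 fun x => ?_))
    by_contra e'
    exact e ⟨_, ⟨x, rfl⟩, e'⟩
  obtain ⟨x, hx⟩ := LinearMap.range_eq_top.1 k (d.sY.f y)
  obtain ⟨g, hg, rfl⟩ := d.sA.surj x
  rw [d.ht w hw g hg] at hx
  exact ⟨g, hg, (d.sY.eq_iff (G3c_cm hw g) hy).1 hx⟩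

theorem Cf3.fW (h : Cf3 p α β B) (d : D3 p α) {w : H} (hw : w ∈ g2 H) (h1 : β w * w⁻¹ ∈ g3 H) :
    w ∈ g3 H := by
  haveI := d.l3.ntY
  obtain ⟨y, hy⟩ := exists_ne (0 : d.sY.V)
  obtain ⟨ν, hν⟩ : ∃ ν : Dual (ZMod p) d.sY.V, ν y ≠ 0 := by
    by_contra e
    exact hy ((Module.forall_dual_apply_eq_zero_iff (ZMod p) y).1 fun ν => by_contra fun k => e ⟨ν, k⟩)
  refine (d.sW.zero w hw).1 (d.l3.wz (ν := ν) (fun e => hν (by rw [e]; rfl)) fun a => ?_)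
  obtain ⟨k, hk, rfl⟩ := G3c_sub h.toCf2 d.sA h.comm h.fb a
  have w1 := (aut_mem β).1 w hw
  have e : d.t (d.sW.f w) (d.sA.f (β k)) = d.t (d.sW.f w) (d.sA.f k) := by
    rw [d.ht w hw k hk, ← (d.sW.eq_iff w1 hw).2 h1, d.ht _ w1 _ (P0_map h.comm hk), ← map_commutatorElement]
    exact (d.sY.eq_iff ((aut_mem β).2.1 _ (G3c_cm hw k)) (G3c_cm hw k)).2 (h.b3 _ (G3c_cm hw k))
  rw [map_sub, e, sub_self, map_zero]

theorem Cf3.fY (h : Cf3 p α β B) (d : D3 p α) {y : H} (hy : y ∈ g3 H) (h1 : α y * y⁻¹ ∈ g4 H) :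
    y ∈ g4 H := by
  have A := aut_mem α
  obtain ⟨l, hl⟩ := exists_lin d.sY (fun x => d.sY.f (α x))
    (fun x hx z hz => by rw [map_mul, d.sY.mul _ (A.2.1 x hx) _ (A.2.1 z hz)])
    (fun x hx hx' => (d.sY.zero _ (A.2.1 x hx)).2 (A.2.2.1 x hx'))
  have k : LinearMap.range (l - LinearMap.id) = ⊤ := G3c_top (t := d.t) fun ν h0 => by
    obtain ⟨v, a, e⟩ := d.l3.span ν h0
    refine ⟨_, ?_, e⟩
    obtain ⟨w, hw, rfl⟩ := d.sW.surj v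
    obtain ⟨k, hk, rfl⟩ := G3c_sub h.toCf2 d.sA rfl h.fa a
    refine ⟨d.t (d.sW.f w) (d.sA.f k), ?_⟩
    rw [map_sub, LinearMap.sub_apply, LinearMap.id_apply]
    congr 1
    rw [d.ht w hw k hk, hl _ (G3c_cm hw k), ← (d.sW.eq_iff (A.1 w hw) hw).2 (h.a2 w hw),
      d.ht _ (A.1 w hw) _ (P0_map rfl hk), map_commutatorElement]
  have i := Finite.injective_iff_surjective.2 (LinearMap.range_eq_top.1 k)
  refine (d.sY.zero y hy).1 (i ?_)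
  rw [map_zero, LinearMap.sub_apply, LinearMap.id_apply, hl y hy, (d.sY.eq_iff (A.2.1 y hy) hy).2 h1, sub_self]

theorem Cf3.Bg2 (h : Cf3 p α β B) (d : D3 p α) {c : H} (hc : c ∈ B) (h2 : c ∈ g2 H) : c ∈ g4 H :=
  h.fY d (h.fW d h2 (by rw [h.bB c hc, mul_inv_cancel]; exact one_mem _))
    (by rw [h.aB c hc, mul_inv_cancel]; exact one_mem _)

theorem Cf3.BP (h : Cf3 p α β B) (d : D3 p α) {c : H} (hc : c ∈ B) (x : H) : ⁅c, x⁆ ∈ g4 H := by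
  obtain ⟨r, hr, c', hc', rfl⟩ := h.toCf2.dec x
  have b : ∀ r ∈ P0 α, ⁅c, r⁆ ∈ g3 H := fun r hr => h.toCf2.bP hc hr
  obtain ⟨l, hl⟩ := exists_lin d.sA (fun x => d.sY.f ⁅c, x⁆)
    (fun x hx z hz => by
      rw [← d.sY.mul _ (b x hx) _ (b z hz)]
      exact (d.sY.eq_iff (b _ (mul_mem hx hz)) (mul_mem (b x hx) (b z hz))).2 (cm_right (b x hx) (b z hz)))
    (fun x hx hx' => (d.sY.zero _ (b x hx)).2 (by
      rw [← commutatorElement_inv]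
      exact inv_mem (h.toCf2.g2B (commutator_mem_commutator hx' hc))))
  have k1 : ⁅c, r⁆ ∈ g4 H := by
    refine (d.sY.zero _ (b r hr)).1 ?_
    obtain ⟨k, hk, e⟩ := G3c_sub h.toCf2 d.sA h.comm h.fb (d.sA.f r)
    have e2 : ⁅c, β k⁆ = β ⁅c, k⁆ := by rw [map_commutatorElement, h.bB c hc]
    rw [← hl r hr, e, map_sub, hl _ (P0_map h.comm hk), hl k hk, e2,
      (d.sY.eq_iff ((aut_mem β).2.1 _ (b k hk)) (b k hk)).2 (h.b3 _ (b k hk)), sub_self]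
  have k2 : ⁅c, c'⁆ ∈ g4 H := h.Bg2 d
    (mul_mem (mul_mem (mul_mem hc hc') (inv_mem hc)) (inv_mem hc')) (commutator_mem_commutator (mem_top _) (mem_top _))
  have e : ⁅c, r * c'⁆ = ⁅c, r⁆ * (r * ⁅c, c'⁆ * r⁻¹) := by
    simp only [commutatorElement_def]; group
  rw [e]
  exact mul_mem k1 (Normal.conj_mem inferInstance _ k2 r)

end Cfsg.Agent.NE3
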