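import Mathlib
import Cfsg.Agent.NE3.Defs
import Cfsg.Agent.NE3.G3c
import Cfsg.Agent.NE3.PF

set_option autoImplicit false

namespace Cfsg.Agent.NE3

open Subgroup Cfsg Cfsg.Agent.Ch Cfsg.Agent.Deg Module
open scoped commutatorElement

universe u

variable {H : Type u} [Group H] [Finite H] {p : ℕ} [Fact p.Prime] {α β : MulAut H} {B : Subgroup H}

theorem Cf3.kap (h : Cf3 p α β B) (d : D3 p α) : Kap d.t := by
  classical
  intro x hx0
  by_cases hb : ann d.t x = ⊥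
  · rw [hb, finrank_bot]; exact Nat.zero_le _
  obtain ⟨ν, hνx, hν⟩ := (Submodule.ne_bot_iff _).1 hb
  have hxS : x ∈ An d.t ν := hνx
  have key : ∀ μ ∈ ann d.t x, ∀ s ∈ An d.t ν, ∀ w, μ (d.t w s) = 0 := fun μ hμ s hs w => by
    by_cases h0 : μ = 0
    · rw [h0]; rfl
    · have e := (d.l3.ker_eq h0 (show x ∈ An d.t μ from hμ) hx0).symm.trans (d.l3.ker_eq hν hxS hx0)
      exact (show s ∈ An d.t μ from e ▸ hs) w
  let X : Subgroup H :=
    { carrier := {r | r ∈ P0 α ∧ d.sA.f r ∈ An d.t ν}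
      one_mem' := ⟨one_mem _, by rw [d.sA.one]; exact zero_mem _⟩
      mul_mem' := fun {a b} ha hb => ⟨mul_mem ha.1 hb.1, by
        rw [d.sA.mul a ha.1 b hb.1]; exact add_mem ha.2 hb.2⟩
      inv_mem' := fun {a} ha => ⟨inv_mem ha.1, by rw [d.sA.inv ha.1]; exact neg_mem ha.2⟩ }
  let f : H → An d.t ν := fun r => if hr : d.sA.f r ∈ An d.t ν then ⟨_, hr⟩ else 0
  have hf : ∀ r ∈ X, (f r).1 = d.sA.f r := fun r hr => congrArg Subtype.val (dif_pos hr.2)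
  let sc : Sc p X (g2 H) :=
    { V := An d.t ν
      f := f
      mul := fun a ha b hb => Subtype.ext (by
        rw [Submodule.coe_add, hf _ (mul_mem ha hb), hf a ha, hf b hb, d.sA.mul a ha.1 b hb.1])
      zero := fun a ha => by rw [Subtype.ext_iff, hf a ha]; exact d.sA.zero a ha.1
      surj := fun v => by
        obtain ⟨r, hr, e⟩ := d.sA.surj v.1
        have hr' : r ∈ X := ⟨hr, e ▸ v.2⟩
        exact ⟨r, hr', Subtype.ext ((hf r hr').trans e)⟩ }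
  have c2 : ∀ a b : H, ⁅a, b⁆ ∈ g2 H := fun a b => commutator_mem_commutator (mem_top _) (mem_top _)
  have c3 : ∀ a ∈ X, ∀ b ∈ X, ⁅a, b⁆ ∈ g3 H := fun a ha b hb =>
    (d.sW.zero _ (c2 a b)).1 (by rw [← d.hb a ha.1 b hb.1]; exact d.l3.ab hν ha.2 hb.2)
  let ev : d.sY.V →ₗ[ZMod p] (ann d.t x) →ₗ[ZMod p] ZMod p := (ann d.t x).subtype.flip
  have hev : ∀ y (μ : ann d.t x), ev y μ = μ.1 y := fun _ _ => rfl
  have k3 : ∀ a ∈ X, a ∈ g2 H → ∀ v ∈ X, ev (d.sY.f ⁅a, v⁆) = 0 := fun a _ ha2 v hv =>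
    LinearMap.ext fun μ => by rw [hev, ← d.ht a ha2 v hv.1]; exact key μ.1 μ.2 _ hv.2 _
  obtain ⟨l, hl⟩ := exists_bil sc sc (fun a b => ev (d.sY.f ⁅a, b⁆))
    (fun a ha b hb v hv => by
      rw [← map_add, ← d.sY.mul _ (c3 a ha v hv) _ (c3 b hb v hv),
        (d.sY.eq_iff (c3 _ (mul_mem ha hb) v hv) (mul_mem (c3 a ha v hv) (c3 b hb v hv))).2
          (cm_left (c3 a ha v hv) (c3 b hb v hv))])
    (fun a ha v hv w hw => by
      rw [← map_add, ← d.sY.mul _ (c3 a ha v hv) _ (c3 a ha w hw),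
        (d.sY.eq_iff (c3 a ha _ (mul_mem hv hw)) (mul_mem (c3 a ha v hv) (c3 a ha w hw))).2
          (cm_right (c3 a ha v hv) (c3 a ha w hw))])
    k3
    (fun a ha v hv hv2 => by
      rw [← commutatorElement_inv, d.sY.inv (c3 v hv a ha), map_neg, k3 v hv hv2 a ha, neg_zero])
  have : Nontrivial (An d.t ν) := ⟨⟨x, hxS⟩, 0, fun e => hx0 (congrArg Subtype.val e)⟩
  let γ : (ann d.t x) →ₗ[ZMod p] (An d.t ν) →ₗ[ZMod p] (An d.t ν) →ₗ[ZMod p] ZMod p :=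
    (LinearMap.lflip.toLinearMap ∘ₗ l).flip
  have hγ : ∀ μ, ∀ a ∈ X, ∀ b ∈ X, γ μ (f a) (f b) = μ.1 (d.sY.f ⁅a, b⁆) := fun μ a ha b hb =>
    congrArg (fun m => m μ) (hl a ha b hb)
  have : Finite (Dual (ZMod p) d.sY.V) := Finite.of_injective _ DFunLike.coe_injective
  rw [← d.l3.dimAn hν]
  refine pf γ (fun μ s => ?_) fun μ hμ s hs => ?_
  · obtain ⟨r, hr, rfl⟩ := sc.surj s
    exact (hγ μ r hr r hr).trans (by rw [commutatorElement_self, d.sY.one, map_zero])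
  · obtain ⟨r, hr, rfl⟩ := sc.surj s
    have hr2 : r ∉ g2 H := fun e => hs ((sc.zero r hr).2 e)
    obtain ⟨v, hv⟩ : ∃ v, μ.1 v ≠ 0 := by
      by_contra hh
      exact hμ (Subtype.ext (LinearMap.ext fun v => not_not.1 fun e => hh ⟨v, e⟩))
    obtain ⟨y, hy, rfl⟩ := d.sY.surj v
    obtain ⟨g, hg⟩ := h.cam r (fun e => hr2 (h.toCf2.inf hr.1 e)) y (g3_le hy)
    obtain ⟨r1, hr1, c, hc, rfl⟩ := h.toCf2.dec g
    have h4 : y * ⁅r1, r⁆⁻¹ ∈ g4 H := by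
      rw [← hg, show ⁅r1 * c, r⁆ * ⁅r1, r⁆⁻¹ = r1 * ⁅c, r⁆ * r1⁻¹ by
        simp only [commutatorElement_def]; group]
      exact (inferInstance : (g4 H).Normal).conj_mem _ (h.BP d hc r) r1
    have h3 : ⁅r1, r⁆ ∈ g3 H := by
      have := mul_mem (inv_mem (g4_le h4)) hy
      rwa [mul_inv_rev, inv_inv, inv_mul_cancel_right] at this
    have h3' : ⁅r, r1⁆ ∈ g3 H := by rw [← commutatorElement_inv]; exact inv_mem h3
    have hX : r1 ∈ X := ⟨hr1, by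
      rw [← d.l3.ker_eq hν hr.2 fun e => hr2 ((d.sA.zero r hr.1).1 e), LinearMap.mem_ker, d.hb r hr.1 r1 hr1]
      exact (d.sW.zero _ (c2 _ _)).2 h3'⟩
    refine ⟨f r1, fun e => hv ?_⟩
    have e' := (hγ μ r hr r1 hX).symm.trans e
    rw [← commutatorElement_inv, d.sY.inv h3, map_neg, neg_eq_zero, ← (d.sY.eq_iff hy h3).2 h4] at e'
    exact e'

end Cfsg.Agent.NE3
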