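import Mathlib
import Cfsg.Agent.NE3.Defs
import Cfsg.Agent.NE3.G4
import Cfsg.Agent.NE3.G3

set_option autoImplicit false

namespace Cfsg.Agent.NE3

open Subgroup Cfsg Cfsg.Agent.Ch Cfsg.Agent.Deg Module
open scoped commutatorElement

universe u

variable {H : Type u} [Group H] [Finite H] {p : ℕ} [Fact p.Prime] {α β : MulAut H} {B : Subgroup H}

theorem Cf3.d4 (h : Cf3 p α β B) (h4 : g4 H ≠ ⊥) : Nonempty (D4 p α) := by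
  obtain ⟨d⟩ := h.d3
  have h44 : ⁅g4 H, g4 H⁆ ≤ g5 H := commutator_mono le_rfl le_top
  obtain ⟨sZ⟩ : Nonempty (Sc p (g4 H) (g5 H)) := exists_sc h44 (fun x hx => h.toCf2.powZ hx)
  -- a nonzero functional on `g4 / g5`
  obtain ⟨z, hz4, hz5⟩ : ∃ z ∈ g4 H, z ∉ g5 H := by
    by_contra hc
    push Not at hc
    exact h4 (eq_bot_of_le h.pg hc)
  have hz0 : sZ.f z ≠ 0 := fun e => hz5 ((sZ.zero z hz4).1 e)
  obtain ⟨lam, hlam⟩ : ∃ lam : Dual (ZMod p) sZ.V, lam (sZ.f z) ≠ 0 := by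
    by_contra hc
    push Not at hc
    exact hz0 ((Module.forall_dual_apply_eq_zero_iff (ZMod p) _).1 hc)
  obtain ⟨ρ, hρ⟩ : ∃ ρ : H → ZMod p, ∀ x, ρ x = lam (sZ.f x) := ⟨_, fun _ => rfl⟩
  have ρmul : ∀ x ∈ g4 H, ∀ y ∈ g4 H, ρ (x * y) = ρ x + ρ y := fun x hx y hy => by
    rw [hρ, hρ, hρ, sZ.mul x hx y hy, map_add]
  have ρ5 : ∀ x ∈ g5 H, ρ x = 0 := fun x hx => by
    rw [hρ, (sZ.zero x (g5_le hx)).2 hx, map_zero]
  have ρinv : ∀ x ∈ g4 H, ρ x⁻¹ = -ρ x := fun x hx => by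
    rw [hρ, hρ, sZ.inv hx, map_neg]
  have ρeq : ∀ x ∈ g4 H, ∀ y ∈ g4 H, x * y⁻¹ ∈ g5 H → ρ x = ρ y := fun x hx y hy e => by
    rw [hρ, hρ, (sZ.eq_iff hx hy).2 e]
  have m2 : ∀ x y : H, ⁅x, y⁆ ∈ g2 H := fun x y => commutator_mem_commutator (mem_top x) (mem_top y)
  have m3 : ∀ w ∈ g2 H, ∀ x : H, ⁅w, x⁆ ∈ g3 H := fun w hw x => commutator_mem_commutator hw (mem_top x)
  have m4 : ∀ y ∈ g3 H, ∀ x : H, ⁅y, x⁆ ∈ g4 H := fun y hy x => commutator_mem_commutator hy (mem_top x)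
  have m5 : ∀ y ∈ g4 H, ∀ x : H, ⁅y, x⁆ ∈ g5 H := fun y hy x => commutator_mem_commutator hy (mem_top x)
  have m22 : ∀ v ∈ g2 H, ∀ w ∈ g2 H, ⁅v, w⁆ ∈ g4 H := fun v hv w hw =>
    g22 (commutator_mem_commutator hv hw)
  have m23 : ∀ v ∈ g2 H, ∀ y ∈ g3 H, ⁅v, y⁆ ∈ g5 H := fun v hv y hy =>
    g23 (commutator_mem_commutator hv hy)
  have m32 : ∀ y ∈ g3 H, ∀ v ∈ g2 H, ⁅y, v⁆ ∈ g5 H := fun y hy v hv => by
    rw [← commutatorElement_inv]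
    exact inv_mem (m23 v hv y hy)
  have cl : ∀ x y z : H, ⁅x, z⁆ ∈ g4 H → ⁅y, z⁆ ∈ g4 H → ⁅x * y, z⁆ ∈ g4 H →
      ρ ⁅x * y, z⁆ = ρ ⁅x, z⁆ + ρ ⁅y, z⁆ := fun x y z h1 h2 h3 => by
    rw [ρeq _ h3 _ (mul_mem h1 h2) (cm_left (V := g4 H) h1 h2), ρmul _ h1 _ h2]
  have cr : ∀ x y z : H, ⁅x, y⁆ ∈ g4 H → ⁅x, z⁆ ∈ g4 H → ⁅x, y * z⁆ ∈ g4 H →
      ρ ⁅x, y * z⁆ = ρ ⁅x, y⁆ + ρ ⁅x, z⁆ := fun x y z h1 h2 h3 => by
    rw [ρeq _ h3 _ (mul_mem h1 h2) (cm_right (V := g4 H) h1 h2), ρmul _ h1 _ h2]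
  obtain ⟨u, hu⟩ := exists_bil d.sA d.sY (fun x y => ρ ⁅y, x⁆)
    (fun x _ y _ v hv => cr v x y (m4 v hv x) (m4 v hv y) (m4 v hv _))
    (fun x _ v hv w hw => cl v w x (m4 v hv x) (m4 w hw x) (m4 _ (mul_mem hv hw) x))
    (fun x _ hx v hv => ρ5 _ (m32 v hv x hx))
    (fun x _ v _ hv => ρ5 _ (m5 v hv x))
  obtain ⟨ω, hω⟩ := exists_bil d.sW d.sW (fun v w => ρ ⁅v, w⁆)
    (fun x hx y hy v hv => cl x y v (m22 x hx v hv) (m22 y hy v hv) (m22 _ (mul_mem hx hy) v hv))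
    (fun x hx v hv w hw => cr x v w (m22 x hx v hv) (m22 x hx w hw) (m22 x hx _ (mul_mem hv hw)))
    (fun x _ hx v hv => ρ5 _ (m32 x hx v hv))
    (fun x hx v _ hv => ρ5 _ (m23 x hx v hv))
  have une : u ≠ 0 := by
    intro e
    let K : Subgroup H :=
      { carrier := {x | x ∈ g4 H ∧ ρ x = 0}
        one_mem' := ⟨one_mem _, ρ5 _ (one_mem _)⟩
        mul_mem' := fun {a b} ha hb => ⟨mul_mem ha.1 hb.1, by rw [ρmul _ ha.1 _ hb.1, ha.2, hb.2, add_zero]⟩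
        inv_mem' := fun {a} ha => ⟨inv_mem ha.1, by rw [ρinv _ ha.1, ha.2, neg_zero]⟩ }
    have hK : g4 H ≤ K := by
      refine h.toCf2.g4P.trans (sup_le ?_ fun x hx => ⟨g5_le hx, ρ5 x hx⟩)
      rw [commutator_le]
      intro y hy x hx
      refine ⟨m4 y hy x, ?_⟩
      have := hu x hx y hy
      rw [e] at this
      exact this.symm
    exact hlam ((hρ z).symm.trans (hK hz4).2)
  refine ⟨{ toD3 := d, ρ := ρ, ρmul := ρmul, ρ5 := ρ5, u := u, ω := ω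
            hu := fun y hy x hx => hu x hx y hy, hω := hω
            l4 := { toL3 := d.l3, kap := h.kap d, une := une, oalt := ?_, j4 := ?_ } }⟩
  · intro w
    obtain ⟨v, hv, rfl⟩ := d.sW.surj w
    rw [hω v hv v hv, commutatorElement_self]
    exact ρ5 _ (one_mem _)
  · intro w c e
    obtain ⟨v, hv, rfl⟩ := d.sW.surj w
    obtain ⟨x, hx, rfl⟩ := d.sA.surj c
    obtain ⟨y, hy, rfl⟩ := d.sA.surj e
    have a1 := m4 _ (m3 v hv x) y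
    have a2 := m4 _ (m3 v hv y) x
    rw [d.hb x hx y hy, d.ht v hv x hx, d.ht v hv y hy, hω v hv _ (m2 x y), hu y hy _ (m3 v hv x),
      hu x hx _ (m3 v hv y), ρeq _ (m22 v hv _ (m2 x y)) _ (mul_mem a1 (inv_mem a2)) (hw4 hv x y),
      ρmul _ a1 _ (inv_mem a2), ρinv _ a2, sub_eq_add_neg]

end Cfsg.Agent.NE3
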