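import Mathlib
import Cfsg.Agent.NE3.Defs
import Cfsg.Agent.NE3.G3c

set_option autoImplicit false

namespace Cfsg.Agent.NE3

open Subgroup Cfsg Cfsg.Agent.Ch Cfsg.Agent.Deg Module
open scoped commutatorElement

universe u

variable {H : Type u} [Group H] [Finite H] {p : ℕ} [Fact p.Prime] {α β : MulAut H} {B : Subgroup H}

theorem G5b_neg {M : Type*} [AddCommGroup M] [Module (ZMod p) M] (hp : p = 2) (v : M) : -v = v := by
  subst hp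
  rw [neg_eq_iff_add_eq_zero, ← two_smul (ZMod 2), show (2 : ZMod 2) = 0 from rfl, zero_smul]

omit [Finite H] in
theorem G5b_cm {V : Subgroup H} {x : H} (hx : x ∈ V) (y : H) : ⁅x, y⁆ ∈ ⁅V, (⊤ : Subgroup H)⁆ :=
  commutator_mem_commutator hx (mem_top y)

omit [Finite H] in
theorem G5b_cm' {V : Subgroup H} {x : H} (hx : x ∈ V) (y : H) : ⁅y, x⁆ ∈ ⁅V, (⊤ : Subgroup H)⁆ := by
  rw [← commutatorElement_inv]
  exact inv_mem (G5b_cm hx y)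

omit [Finite H] in
theorem G5b_sq (a w : H) : a ^ 2 * (w ^ 2)⁻¹ = (a * w⁻¹) ^ 2 * ⁅(a * w⁻¹)⁻¹, w⁆ := by
  simp only [commutatorElement_def, pow_two]
  group

omit [Finite H] in
theorem G5b_sqc (r s : H) : ⁅r ^ 2, s⁆ = ⁅r, ⁅r, s⁆⁆ * ⁅r, s⁆ ^ 2 := by
  simp only [commutatorElement_def, pow_two]
  group

theorem Cf3.sq2 (h : Cf3 p α β B) (d : D3 p α) (hp : p = 2) {w : H} (hw : w ∈ g2 H) : w ^ 2 ∈ g4 H := by
  refine h.fY d (hp ▸ h.toCf2.powW hw) ?_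
  rw [map_pow, G5b_sq]
  exact mul_mem (hp ▸ h.toCf2.powY (h.a2 w hw)) (G5b_cm (inv_mem (h.a2 w hw)) w)

theorem G5b_fix (h : Cf3 p α β B) {z : H} (hz : z ∈ g4 H) (h1 : β z * z⁻¹ ∈ g5 H) : z ∈ g5 H := by
  obtain ⟨s⟩ := exists_sc (p := p) (X := g4 H) (X' := g5 H) (commutator_mono le_rfl le_top)
    fun x hx => h.toCf2.powZ hx
  obtain ⟨-, a3, a4, a5⟩ := aut_mem β
  obtain ⟨l, hl⟩ := exists_lin s (fun x => s.f (β x) - s.f x)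
    (fun x hx y hy => by rw [map_mul, s.mul _ (a4 x hx) _ (a4 y hy), s.mul x hx y hy]; abel)
    (fun x hx hx' => by rw [(s.zero _ (a4 x hx)).2 (a5 x hx'), (s.zero x hx).2 hx', sub_zero])
  let T : Subgroup H :=
    { carrier := {x | x ∈ g4 H ∧ s.f x ∈ LinearMap.range l}
      one_mem' := ⟨one_mem _, by rw [s.one]; exact zero_mem _⟩
      mul_mem' := fun {a b} ha hb => ⟨mul_mem ha.1 hb.1, by
        rw [s.mul a ha.1 b hb.1]; exact add_mem ha.2 hb.2⟩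
      inv_mem' := fun {a} ha => ⟨inv_mem ha.1, by rw [s.inv ha.1]; exact neg_mem ha.2⟩ }
  have hT : g4 H ≤ T := by
    refine h.toCf2.g4P.trans (sup_le (commutator_le.2 fun y hy r hr => ⟨G5b_cm hy r, ?_⟩)
      fun x hx => ⟨g5_le hx, by rw [(s.zero x (g5_le hx)).2 hx]; exact zero_mem _⟩)
    have ad : ∀ a b, s.f ⁅y, a * b⁆ = s.f ⁅y, a⁆ + s.f ⁅y, b⁆ := fun a b => by
      rw [← s.mul _ (G5b_cm hy a) _ (G5b_cm hy b)]
      exact (s.eq_iff (G5b_cm hy _) (mul_mem (G5b_cm hy a) (G5b_cm hy b))).2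
        (cm_right (V := g4 H) (G5b_cm hy a) (G5b_cm hy b))
    have iv : ∀ a, s.f ⁅y, a⁻¹⁆ = -s.f ⁅y, a⁆ := fun a => by
      have := ad a⁻¹ a
      rw [inv_mul_cancel, commutatorElement_one_right, s.one] at this
      exact eq_neg_of_add_eq_zero_left this.symm
    obtain ⟨k, -, hk⟩ := h.toCf2.onto h.comm h.fb hr
    have e1 : r = (r * (β k * k⁻¹)⁻¹) * (β k * k⁻¹) := by group
    have e2 : s.f ⁅y, r * (β k * k⁻¹)⁻¹⁆ = 0 := (s.zero _ (G5b_cm hy _)).2 (by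
      rw [← commutatorElement_inv]
      exact inv_mem (g23 (commutator_mem_commutator hk hy)))
    have m4 := h.b3 y hy
    have e3 : s.f (β ⁅y, k⁆) = s.f ⁅y, β k⁆ := by
      have e : β y = (β y * y⁻¹) * y := by group
      have c1 : ⁅β y * y⁻¹, β k⁆ ∈ g5 H := G5b_cm m4 _
      rw [map_commutatorElement, e, ← zero_add (s.f ⁅y, β k⁆), ← (s.zero _ (g5_le c1)).2 c1,
        ← s.mul _ (g5_le c1) _ (G5b_cm hy _)]
      exact (s.eq_iff (G5b_cm (mul_mem (g4_le m4) hy) _) (mul_mem (g5_le c1) (G5b_cm hy _))).2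
        (cm_left (V := g4 H) (g5_le c1) (G5b_cm hy _))
    refine ⟨s.f ⁅y, k⁆, ?_⟩
    rw [hl _ (G5b_cm hy k), e3]
    conv_rhs => rw [e1, ad, ad (β k), e2, iv]
    abel
  have hs : Function.Surjective l := fun v => by
    obtain ⟨x, hx, rfl⟩ := s.surj v
    exact (hT hx).2
  have hi : Function.Injective l := Finite.injective_iff_surjective.2 hs
  refine (s.zero z hz).1 (hi ?_)
  rw [hl z hz, map_zero, (s.eq_iff (a4 z hz) hz).2 h1, sub_self]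

theorem Cf3.sq3 (h : Cf3 p α β B) (hp : p = 2) {y : H} (hy : y ∈ g3 H) : y ^ 2 ∈ g5 H := by
  refine G5b_fix h (hp ▸ h.toCf2.powY hy) ?_
  rw [map_pow, G5b_sq]
  exact mul_mem (hp ▸ h.toCf2.powZ (h.b3 y hy)) (G5b_cm (inv_mem (h.b3 y hy)) y)

theorem Cf3.exq (h : Cf3 p α β B) (d : D4 p α) (hp : p = 2) : ∃ q : d.sA.V → d.sW.V,
    (∀ x y, q (x + y) = q x + q y + d.b x y) ∧ (∀ x y, d.t (q x) y = d.t (d.b x y) x) ∧
      ∀ x w, d.ω (q x) w = d.u x (d.t w x) := by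
  choose L hL hL' using d.sA.surj
  have hn : g2 H ≠ ⊥ := fun e => h.ne3 (le_bot_iff.1 (e ▸ g3_le))
  have s2 : ∀ r ∈ P0 α, r ^ 2 ∈ g2 H := fun r hr => hp ▸ h.toCf2.powA hn hr
  have c2 : ∀ a b : H, ⁅a, b⁆ ∈ g2 H := fun a b => commutator_mem_commutator (mem_top a) (mem_top b)
  have hq : ∀ r ∈ P0 α, d.sW.f (L (d.sA.f r) ^ 2) = d.sW.f (r ^ 2) := fun r hr => by
    have k := (d.sA.eq_iff (hL (d.sA.f r)) hr).1 (hL' _)
    refine (d.sW.eq_iff (s2 _ (hL _)) (s2 r hr)).2 ?_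
    rw [G5b_sq]
    exact mul_mem (hp ▸ h.toCf2.powW k) (G5b_cm (inv_mem k) r)
  refine ⟨fun v => d.sW.f (L v ^ 2), fun x y => ?_, fun x y => ?_, fun x w => ?_⟩
  · obtain ⟨r, hr, rfl⟩ := d.sA.surj x
    obtain ⟨s, hs, rfl⟩ := d.sA.surj y
    have e : (r * s) ^ 2 = r ^ 2 * ⁅r⁻¹, s⁆ * s ^ 2 := by
      simp only [commutatorElement_def, pow_two]
      group
    show d.sW.f (L (d.sA.f r + d.sA.f s) ^ 2) = d.sW.f (L (d.sA.f r) ^ 2) + d.sW.f (L (d.sA.f s) ^ 2) + _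
    rw [← d.sA.mul r hr s hs, hq _ (mul_mem hr hs), hq r hr, hq s hs, e,
      d.sW.mul _ (mul_mem (s2 r hr) (c2 _ _)) _ (s2 s hs), d.sW.mul _ (s2 r hr) _ (c2 _ _),
      ← d.hb _ (inv_mem hr) s hs, d.sA.inv hr, G5b_neg hp]
    abel
  · obtain ⟨r, hr, rfl⟩ := d.sA.surj x
    obtain ⟨s, hs, rfl⟩ := d.sA.surj y
    have k := h.sq2 d.toD3 hp (c2 r s)
    show d.t (d.sW.f (L (d.sA.f r) ^ 2)) _ = _
    rw [hq r hr, d.ht _ (s2 r hr) s hs, d.hb r hr s hs, d.ht _ (c2 r s) r hr, G5b_sqc,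
      d.sY.mul _ (G5b_cm' (c2 r s) r) _ (g4_le k), (d.sY.zero _ (g4_le k)).2 k, add_zero,
      ← commutatorElement_inv ⁅r, s⁆ r, d.sY.inv (G5b_cm (c2 r s) r), G5b_neg hp]
  · obtain ⟨r, hr, rfl⟩ := d.sA.surj x
    obtain ⟨w, hw, rfl⟩ := d.sW.surj w
    have y3 : ⁅w, r⁆ ∈ g3 H := G5b_cm hw r
    have y3' : ⁅r, w⁆ ∈ g3 H := G5b_cm' hw r
    have k := h.sq3 hp y3'
    have z4 : ⁅⁅w, r⁆, r⁆ ∈ g4 H := G5b_cm y3 r
    have z5 : ⁅⁅⁅w, r⁆, r⁆⁻¹, ⁅w, r⁆⁻¹⁆ ∈ g5 H := G5b_cm (inv_mem z4) _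
    have e : ⁅r, ⁅r, w⁆⁆ = ⁅⁅w, r⁆, r⁆ * ⁅⁅⁅w, r⁆, r⁆⁻¹, ⁅w, r⁆⁻¹⁆ := by
      simp only [commutatorElement_def]
      group
    show d.ω (d.sW.f (L (d.sA.f r) ^ 2)) _ = _
    rw [hq r hr, d.hω _ (s2 r hr) w hw, d.ht w hw r hr, d.hu _ y3 r hr, G5b_sqc,
      d.ρmul _ (G5b_cm' y3' r) _ (g5_le k), d.ρ5 _ k, add_zero, e, d.ρmul _ z4 _ (g5_le z5), d.ρ5 _ z5,
      add_zero]

end Cfsg.Agent.NE3
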