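import Mathlib
import Cfsg.Agent.NE3.Defs
import Cfsg.Agent.NE3.L1

set_option autoImplicit false

namespace Cfsg.Agent.NE3

open Subgroup Cfsg Cfsg.Agent.Ch Cfsg.Agent.Deg Module
open scoped commutatorElement

universe u

variable {p : ℕ} [Fact p.Prime] {A W Y : Type*} [AddCommGroup A] [Module (ZMod p) A] [Finite A]
  [AddCommGroup W] [Module (ZMod p) W] [Finite W] [AddCommGroup Y] [Module (ZMod p) Y] [Finite Y]
  {b : A →ₗ[ZMod p] A →ₗ[ZMod p] W} {t : W →ₗ[ZMod p] A →ₗ[ZMod p] Y}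
  {u : A →ₗ[ZMod p] Dual (ZMod p) Y} {ω : W →ₗ[ZMod p] W →ₗ[ZMod p] ZMod p}

theorem L4.r0 (h : L4 b t u ω) : finrank (ZMod p) (LinearMap.ker u) ≤ finrank (ZMod p) W := by
  by_contra k
  have z : ∀ w, ω w = 0 := fun w => by
    by_contra e
    have := h.toL3.iso (LinearMap.ker u) (ω w) e fun x hx y hy => by
      rw [h.j4, LinearMap.mem_ker.1 hx, LinearMap.mem_ker.1 hy]
      simp
    rw [h.toL3.dimA] at this
    omega
  obtain ⟨c, hc⟩ : ∃ c, u c ≠ 0 := by
    by_contra e
    push Not at e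
    exact h.une (LinearMap.ext e)
  have l : LinearMap.ker u ≤ An t (u c) := fun d hd w => by
    have := h.j4 w d c
    rw [z, LinearMap.mem_ker.1 hd] at this
    simpa using this.symm
  have := Submodule.finrank_mono l
  rw [h.toL3.dimAn hc] at this
  exact k this

theorem L4.r1 (h : L4 b t u ω) :
    2 * finrank (ZMod p) W ≤ finrank (ZMod p) (LinearMap.ker u) + finrank (ZMod p) Y := by
  have k1 := LinearMap.finrank_range_add_finrank_ker u
  have k2 := Submodule.finrank_le (LinearMap.range u)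
  rw [Subspace.dual_finrank_eq] at k2
  rw [h.toL3.dimA] at k1
  omega

omit [Finite A] [Finite W] [Finite Y] in
theorem L4.R0_key (h : L4 b t u ω) {d c : A} (hd : d ∈ LinearMap.ker u) (e : b d c = 0) (w : W) :
    u c (t w d) = 0 := by
  have := h.j4 w d c
  rw [e, LinearMap.mem_ker.1 hd] at this
  simpa using this.symm

omit [Finite A] [Finite W] [Finite Y] in
theorem L4.R0_skew (h : L4 b t u ω) {x y : A} (e : b x y = 0) : b y x = 0 := by
  have := h.alt (x + y)
  simpa [h.alt, e] using this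

theorem L4.ab (h : L4 b t u ω) {d : A} (hd : d ∈ LinearMap.ker u) (h0 : d ≠ 0) {x y : A}
    (hx : b d x = 0) (hy : b d y = 0) : b x y = 0 := by
  by_cases k : ∃ c, b d c = 0 ∧ u c ≠ 0
  · obtain ⟨c, hc, c0⟩ := k
    have e := h.toL3.ker_eq c0 (x := d) (h.R0_key hd hc) h0
    exact h.toL3.ab c0 (e ▸ LinearMap.mem_ker.2 hx) (e ▸ LinearMap.mem_ker.2 hy)
  push Not at k
  by_cases x0 : x = 0
  · rw [x0, map_zero, LinearMap.zero_apply]
  have l : LinearMap.ker (b x) ≤ LinearMap.ker u := fun c hc => by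
    by_contra c0
    have e := h.toL3.ker_eq c0 (x := x) (h.R0_key (k x hx) hc) x0
    have m : d ∈ An t (u c) := e ▸ LinearMap.mem_ker.2 (h.R0_skew hx)
    have e' := h.toL3.ker_eq c0 m h0
    rw [e, ← e'] at hc
    exact c0 (k c hc)
  have e := Submodule.eq_of_le_of_finrank_le l (by rw [h.toL3.dimker x0]; exact h.r0)
  have m : y ∈ LinearMap.ker (b x) := e ▸ LinearMap.mem_ker.2 (k y hy)
  exact m

theorem L4.ann_eq (h : L4 b t u ω) {d : A} (hd : d ∈ LinearMap.ker u) (h0 : d ≠ 0) {x : A}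
    (hx : b d x = 0) (hx0 : x ≠ 0) : ann t x = ann t d := by
  ext ν
  by_cases n0 : ν = 0
  · rw [n0]; simp
  refine ⟨fun k => ?_, fun k => ?_⟩
  · have e := h.toL3.ker_eq n0 (x := x) k hx0
    have m : d ∈ An t ν := e ▸ LinearMap.mem_ker.2 (h.R0_skew hx)
    exact m
  · have e := h.toL3.ker_eq n0 (x := d) k h0
    have m : x ∈ An t ν := e ▸ LinearMap.mem_ker.2 hx
    exact m

theorem L4.dimR (h : L4 b t u ω) {d : A} (hd : d ∈ LinearMap.ker u) (h0 : d ≠ 0) :
    finrank (ZMod p) W ≤ 2 * finrank (ZMod p) ↥(LinearMap.ker (b d) ⊓ LinearMap.ker u) := by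
  have k1 := LinearMap.finrank_range_add_finrank_ker (u.domRestrict (LinearMap.ker (b d)))
  have l : LinearMap.range (u.domRestrict (LinearMap.ker (b d))) ≤ ann t d := by
    rintro _ ⟨c, rfl⟩
    exact h.R0_key hd c.2
  have k2 := Submodule.finrank_mono l
  have k3 := h.kap d h0
  rw [h.toL3.dimker h0, LinearMap.ker_domRestrict, ← Submodule.finrank_map_subtype_eq,
    Submodule.map_comap_subtype] at k1
  omega

end Cfsg.Agent.NE3
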