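import Mathlib
import Cfsg.Agent.NE3.Defs
import Cfsg.Agent.NE3.L1
import Cfsg.Agent.NE3.Cnt
import Cfsg.Agent.NE3.R0

set_option autoImplicit false

namespace Cfsg.Agent.NE3

open Subgroup Cfsg Cfsg.Agent.Ch Cfsg.Agent.Deg Module
open scoped commutatorElement

universe u

variable {p : ℕ} [Fact p.Prime] {A W Y : Type*} [AddCommGroup A] [Module (ZMod p) A] [Finite A]
  [AddCommGroup W] [Module (ZMod p) W] [Finite W] [AddCommGroup Y] [Module (ZMod p) Y] [Finite Y]
  {b : A →ₗ[ZMod p] A →ₗ[ZMod p] W} {t : W →ₗ[ZMod p] A →ₗ[ZMod p] Y}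
  {u : A →ₗ[ZMod p] Dual (ZMod p) Y} {ω : W →ₗ[ZMod p] W →ₗ[ZMod p] ZMod p}

omit [Fact p.Prime] in
theorem odd_anti {R M N : Type*} [CommRing R] [AddCommGroup M] [Module R M] [AddCommGroup N] [Module R N]
    {β : M →ₗ[R] M →ₗ[R] N} (h : ∀ x, β x x = 0) (x y : M) : β x y = -β y x := by
  have h1 := h (x + y)
  simp only [map_add, LinearMap.add_apply, h x, h y, zero_add, add_zero] at h1
  exact eq_neg_of_add_eq_zero_right h1

omit [Finite W] in
theorem odd_comap (N : Submodule (ZMod p) (Dual (ZMod p) Y)) :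
    finrank (ZMod p) (N.comap u) ≤ finrank (ZMod p) N + finrank (ZMod p) (LinearMap.ker u) := by
  have h1 := (u.domRestrict (N.comap u)).finrank_range_add_finrank_ker
  have h2 : finrank (ZMod p) (LinearMap.range (u.domRestrict (N.comap u))) ≤ finrank (ZMod p) N := by
    apply Submodule.finrank_mono
    rintro _ ⟨x, rfl⟩
    exact x.2
  have h3 : finrank (ZMod p) (LinearMap.ker (u.domRestrict (N.comap u))) ≤
      finrank (ZMod p) (LinearMap.ker u) := by
    rw [← Submodule.finrank_map_subtype_eq]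
    apply Submodule.finrank_mono
    rintro _ ⟨x, hx, rfl⟩
    exact hx
  omega

theorem L4.odd (h : L4 b t u ω) (hp : p ≠ 2) : False := by
  have h3 : L3 b t := h.toL3
  have r1 := h.r1
  have cnt := h3.cnt h.kap
  have pos := h3.pos
  have hk : finrank (ZMod p) W < 2 * finrank (ZMod p) (LinearMap.ker u) := by omega
  obtain ⟨d, hd, h0⟩ : ∃ d ∈ LinearMap.ker u, d ≠ 0 := by
    apply Submodule.exists_mem_ne_zero_of_ne_bot
    intro e
    rw [e, finrank_bot] at hk
    omega
  set R := LinearMap.ker (b d) ⊓ LinearMap.ker u with hR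
  obtain ⟨a, ha⟩ : ∃ a, a ∉ (ann t d).comap u := by
    by_contra e
    push Not at e
    have e1 : (ann t d).comap u = ⊤ := eq_top_iff.2 fun x _ => e x
    have e2 := odd_comap (u := u) (ann t d)
    rw [e1, finrank_top, h3.dimA] at e2
    have e3 := h.kap d h0
    have e4 := h.r0
    omega
  have j : ∀ x ∈ R, ∀ c w, ω w (b c x) = -u c (t w x) := by
    intro x hx c w
    have hx2 : u x = 0 := hx.2
    rw [h.j4, hx2]
    simp
  have two : (2 : ZMod p) ≠ 0 := by
    intro e
    have e1 : ((2 : ℕ) : ZMod p) = 0 := by exact_mod_cast e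
    rw [ZMod.natCast_eq_zero_iff] at e1
    exact hp ((Nat.prime_dvd_prime_iff_eq Fact.out Nat.prime_two).1 e1)
  have iso : ∀ x ∈ R, ∀ y ∈ R, ω (b a x) (b a y) = 0 := by
    intro x hx y hy
    have e1 := h3.jac a x y
    rw [h.ab hd h0 hx.1 hy.1, odd_anti h3.alt y a] at e1
    simp only [map_zero, LinearMap.zero_apply, add_zero, map_neg, LinearMap.neg_apply] at e1
    have e2 : t (b a x) y = t (b a y) x := by
      rw [← sub_eq_zero, sub_eq_add_neg]; exact e1
    have e3 : ω (b a x) (b a y) = ω (b a y) (b a x) := by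
      rw [j y hy, j x hx, e2]
    have e4 := odd_anti h.oalt (b a x) (b a y)
    have e5 : 2 * ω (b a x) (b a y) = 0 := by linear_combination e3 + e4
    exact (mul_eq_zero.1 e5).resolve_left two
  have mem : ∀ x ∈ R, x ≠ 0 → ∀ c, b c x ∈ LinearMap.ker ω.flip ↔ c ∈ (ann t d).comap u := by
    intro x hx x0 c
    rw [Submodule.mem_comap, ← h.ann_eq hd h0 hx.1 x0, mem_ann, LinearMap.mem_ker, LinearMap.ext_iff]
    refine forall_congr' fun w => ?_
    rw [LinearMap.flip_apply, j x hx, LinearMap.zero_apply, neg_eq_zero]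
  have key : ∀ x ∈ R, b a x ∈ LinearMap.ker ω.flip → x = 0 := by
    intro x hx e
    by_contra x0
    exact ha ((mem x hx x0 a).1 e)
  have i1 : Function.Injective ((b a).domRestrict R) := by
    rw [← LinearMap.ker_eq_bot, eq_bot_iff]
    intro x hx
    have e : b a x = 0 := hx
    exact Subtype.ext (key x x.2 (e ▸ Submodule.zero_mem _))
  have i2 : Function.Injective (ω.flip.comp ((b a).domRestrict R)) := by
    rw [← LinearMap.ker_eq_bot, eq_bot_iff]
    intro x hx
    exact Subtype.ext (key x x.2 hx)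
  have d1 := LinearMap.finrank_range_of_inj i1
  have d3 : finrank (ZMod p) R +
      finrank (ZMod p) (LinearMap.range (ω.flip.comp ((b a).domRestrict R))).dualCoannihilator =
      finrank (ZMod p) W :=
    (congrArg (· + _) (LinearMap.finrank_range_of_inj i2)).symm.trans
      (Subspace.finrank_add_finrank_dualCoannihilator_eq
        (LinearMap.range (ω.flip.comp ((b a).domRestrict R))))
  have d4 := Submodule.finrank_sup_add_finrank_inf_eq (LinearMap.range ((b a).domRestrict R))
    (LinearMap.ker ω.flip)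
  have d5 : LinearMap.range ((b a).domRestrict R) ⊓ LinearMap.ker ω.flip = ⊥ := by
    rw [eq_bot_iff]
    rintro _ ⟨⟨x, rfl⟩, hx⟩
    have e : (x : A) = 0 := key x x.2 hx
    show b a x = 0
    rw [e, map_zero]
  rw [d5, finrank_bot] at d4
  have d6 : LinearMap.range ((b a).domRestrict R) ⊔ LinearMap.ker ω.flip ≤
      (LinearMap.range (ω.flip.comp ((b a).domRestrict R))).dualCoannihilator := by
    refine sup_le ?_ ?_
    · rintro _ ⟨x, rfl⟩
      rw [Submodule.mem_dualCoannihilator]
      rintro _ ⟨y, rfl⟩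
      exact iso x x.2 y y.2
    · intro v hv
      rw [Submodule.mem_dualCoannihilator]
      rintro _ ⟨y, rfl⟩
      show ω v (b a y) = 0
      have e : ω (b a y) v = 0 := LinearMap.congr_fun (LinearMap.mem_ker.1 hv) (b a y)
      rw [odd_anti h.oalt, e, neg_zero]
  have d7 := Submodule.finrank_mono d6
  have d8 : finrank (ZMod p) W ≤ 2 * finrank (ZMod p) R := h.dimR hd h0
  have d9 : LinearMap.ker ω.flip = ⊥ := Submodule.finrank_eq_zero.1 (by omega)
  have hle : LinearMap.ker u ≤ R := by
    intro c hc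
    refine ⟨?_, hc⟩
    have hc' : u c = 0 := hc
    have e := (mem d ⟨h3.alt d, hd⟩ h0 c).2 (by
      rw [Submodule.mem_comap, hc']; exact Submodule.zero_mem _)
    rw [d9, Submodule.mem_bot] at e
    show b d c = 0
    rw [odd_anti h3.alt, e, neg_zero]
  have d10 := Submodule.finrank_mono hle
  omega

end Cfsg.Agent.NE3
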