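import Mathlib
import Cfsg.Agent.NE3.Defs
import Cfsg.Agent.NE3.Cnt
import Cfsg.Agent.NE3.R0

set_option autoImplicit false

namespace Cfsg.Agent.NE3

open Subgroup Cfsg Cfsg.Agent.Ch Cfsg.Agent.Deg Module
open scoped commutatorElement

universe u

variable {p : ℕ} [Fact p.Prime] {A W Y : Type*} [AddCommGroup A] [Module (ZMod p) A] [Finite A]
  [AddCommGroup W] [Module (ZMod p) W] [Finite W] [AddCommGroup Y] [Module (ZMod p) Y] [Finite Y]
  {b : A →ₗ[ZMod p] A →ₗ[ZMod p] W} {t : W →ₗ[ZMod p] A →ₗ[ZMod p] Y}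
  {u : A →ₗ[ZMod p] Dual (ZMod p) Y} {ω : W →ₗ[ZMod p] W →ₗ[ZMod p] ZMod p}

theorem two_card {V : Type*} [AddCommGroup V] [Module (ZMod p) V] [Fintype V] [DecidableEq V]
    (S : Submodule (ZMod p) V) [DecidablePred (· ∈ S)] :
    (Finset.univ.filter fun x => x ∈ S ∧ x ≠ 0).card + 1 = p ^ finrank (ZMod p) S := by
  have h1 : Nat.card S = p ^ finrank (ZMod p) S := by
    rw [Module.natCard_eq_pow_finrank (K := ZMod p), Nat.card_zmod]
  have h2 : (Finset.univ.filter fun x => x ∈ S ∧ x ≠ 0) = (Finset.univ.filter (· ∈ S)).erase 0 := by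
    ext x; simp [and_comm]
  rw [h2, Finset.card_erase_add_one (by simp), ← h1, Nat.card_eq_fintype_card, Fintype.card_subtype]

theorem two_ex {V : Type*} [AddCommGroup V] [Module (ZMod p) V] {S : Submodule (ZMod p) V}
    (h : 0 < finrank (ZMod p) S) : ∃ x ∈ S, x ≠ 0 :=
  S.exists_mem_ne_zero_of_ne_bot (by rintro rfl; simp at h)

theorem L4.two (h : L4 b t u ω) (q : A → W) (q1 : ∀ x y, q (x + y) = q x + q y + b x y)
    (q2 : ∀ x y, t (q x) y = t (b x y) x) (q3 : ∀ x w, ω (q x) w = u x (t w x)) : False := by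
  classical
  have h3 := h.toL3
  have hp : p.Prime := Fact.out
  have : Finite (Dual (ZMod p) Y) := Module.finite_of_finite (ZMod p)
  have := Fintype.ofFinite A
  have := Fintype.ofFinite (Dual (ZMod p) Y)
  have hn := h3.pos
  have r0 := h.r0
  have r1 := h.r1
  have hc := h3.cnt h.kap
  have s1 : ∀ ν : Dual (ZMod p) Y, ν ≠ 0 → ∀ x ∈ An t ν, q x = 0 := fun ν hν x hx =>
    h3.wz hν fun y => by rw [q2]; exact hx _
  have s2 : ∀ ν : Dual (ZMod p) Y, ν ≠ 0 → ∀ x ∈ An t ν, ∀ x0 ∈ An t ν, u x ∈ ann t x0 := by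
    intro ν hν x hx x0 hx0
    by_cases h0 : u x = 0
    · rw [h0]; exact (ann t x0).zero_mem
    have hx' : x ≠ 0 := fun e => h0 (by rw [e, map_zero])
    have h1 : x ∈ An t (u x) := fun w => by rw [← q3, s1 ν hν x hx]; simp
    have h2 : An t (u x) = An t ν := (h3.ker_eq h0 h1 hx').symm.trans (h3.ker_eq hν hx hx')
    have h4 : x0 ∈ An t (u x) := h2 ▸ hx0
    exact h4
  have s3 : ∀ ν : Dual (ZMod p) Y, ν ≠ 0 →
      finrank (ZMod p) W ≤ 2 * finrank (ZMod p) ↥(An t ν ⊓ LinearMap.ker u) := by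
    intro ν hν
    have hd := h3.dimAn hν
    obtain ⟨x0, hx0, h0⟩ := two_ex (S := An t ν) (by omega)
    have e1 := LinearMap.finrank_range_add_finrank_ker (u.domRestrict (An t ν))
    have e2 : finrank (ZMod p) (LinearMap.range (u.domRestrict (An t ν))) ≤
        finrank (ZMod p) (ann t x0) := Submodule.finrank_mono (by
      rintro _ ⟨x, rfl⟩
      exact s2 ν hν x x.2 x0 hx0)
    have e3 : finrank (ZMod p) (LinearMap.ker (u.domRestrict (An t ν))) ≤
        finrank (ZMod p) ↥(An t ν ⊓ LinearMap.ker u) := by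
      rw [← Submodule.finrank_map_subtype_eq]
      refine Submodule.finrank_mono ?_
      rintro _ ⟨x, hx, rfl⟩
      exact ⟨x.2, hx⟩
    have e4 := h.kap x0 h0
    omega
  have s4 : ∀ x ∈ LinearMap.ker u, x ≠ 0 → ∃ ν : Dual (ZMod p) Y, ν ≠ 0 ∧ x ∈ An t ν := by
    intro x1 hx1 h1
    by_contra hne
    push Not at hne
    obtain ⟨m, hm⟩ : ∃ m, p ^ ((finrank (ZMod p) W + 1) / 2) = m + 1 :=
      ⟨_, (Nat.succ_pred_eq_of_pos (pow_pos hp.pos _)).symm⟩
    have hm0 : 0 < m := by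
      have : 1 < p ^ ((finrank (ZMod p) W + 1) / 2) := Nat.one_lt_pow (by omega) hp.one_lt
      omega
    have key := Finset.card_mul_le_card_mul (fun (ν : Dual (ZMod p) Y) (x : A) => x ∈ An t ν)
      (s := Finset.univ.filter fun ν => ν ∈ (⊤ : Submodule (ZMod p) (Dual (ZMod p) Y)) ∧ ν ≠ 0)
      (t := (Finset.univ.filter fun x => x ∈ LinearMap.ker u ∧ x ≠ 0).erase x1) (m := m) (n := m)
      (fun ν hν => by
        have hν' : ν ≠ 0 := (Finset.mem_filter.1 hν).2.2
        have c1 := two_card (An t ν ⊓ LinearMap.ker u)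
        have c2 : p ^ ((finrank (ZMod p) W + 1) / 2) ≤
            p ^ finrank (ZMod p) ↥(An t ν ⊓ LinearMap.ker u) :=
          Nat.pow_le_pow_right hp.pos (by have := s3 ν hν'; omega)
        refine le_trans (by omega) (Finset.card_le_card (s := Finset.univ.filter
          fun x => x ∈ An t ν ⊓ LinearMap.ker u ∧ x ≠ 0) fun x hx => ?_)
        obtain ⟨⟨a1, a2⟩, a3⟩ := (Finset.mem_filter.1 hx).2
        refine (Finset.mem_bipartiteAbove _).2 ⟨Finset.mem_erase.2 ⟨?_, Finset.mem_filter.2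
          ⟨Finset.mem_univ _, a2, a3⟩⟩, a1⟩
        rintro rfl
        exact hne ν hν' a1)
      (fun x hx => by
        have hx' : x ≠ 0 := (Finset.mem_filter.1 (Finset.mem_erase.1 hx).2).2.2
        have c1 := two_card (ann t x)
        have c2 : p ^ finrank (ZMod p) (ann t x) ≤ p ^ ((finrank (ZMod p) W + 1) / 2) :=
          Nat.pow_le_pow_right hp.pos (by have := h.kap x hx'; omega)
        refine le_trans (Finset.card_le_card (t := Finset.univ.filter
          fun ν => ν ∈ ann t x ∧ ν ≠ 0) fun ν hν => ?_) (by omega)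
        obtain ⟨a1, a2⟩ := (Finset.mem_bipartiteBelow _).1 hν
        exact Finset.mem_filter.2 ⟨Finset.mem_univ _, a2, (Finset.mem_filter.1 a1).2.2⟩)
    have k1 := Nat.le_of_mul_le_mul_right key hm0
    have c1 := two_card (⊤ : Submodule (ZMod p) (Dual (ZMod p) Y))
    have c2 := two_card (LinearMap.ker u)
    have c3 := Finset.card_erase_add_one (s := Finset.univ.filter
      fun x => x ∈ LinearMap.ker u ∧ x ≠ 0) (a := x1)
      (Finset.mem_filter.2 ⟨Finset.mem_univ _, hx1, h1⟩)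
    rw [finrank_top, Subspace.dual_finrank_eq] at c1
    have c4 : p ^ finrank (ZMod p) (LinearMap.ker u) ≤ p ^ finrank (ZMod p) Y :=
      Nat.pow_le_pow_right hp.pos (by omega)
    omega
  have q0 : q 0 = 0 := by
    have := q1 0 0
    simpa using this
  have s5 : ∀ x ∈ LinearMap.ker u, q x = 0 := fun x hx => by
    by_cases h0 : x = 0
    · rw [h0, q0]
    · obtain ⟨ν, hν, hx'⟩ := s4 x hx h0
      exact s1 ν hν x hx'
  obtain ⟨x, hx, h0⟩ := two_ex (S := LinearMap.ker u) (by omega)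
  have s6 : ann t x = ⊤ := by
    refine eq_top_iff.2 fun ν _ => ?_
    by_cases hν : ν = 0
    · rw [hν]; exact (ann t x).zero_mem
    obtain ⟨x', hx', h0'⟩ := two_ex (S := An t ν ⊓ LinearMap.ker u) (by have := s3 ν hν; omega)
    have e := q1 x' x
    rw [s5 _ (Submodule.add_mem _ hx'.2 hx), s5 _ hx'.2, s5 _ hx, zero_add, zero_add] at e
    have h4 : x ∈ An t ν := h3.ker_eq hν hx'.1 h0' ▸ LinearMap.mem_ker.2 e.symm
    exact h4
  have := h.kap x h0
  rw [s6, finrank_top, Subspace.dual_finrank_eq] at this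
  omega

end Cfsg.Agent.NE3
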