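import Mathlib
import Cfsg.Agent.NE3.Defs
import Cfsg.Agent.NE3.G5
import Cfsg.Agent.NE3.G5b
import Cfsg.Agent.NE3.Odd
import Cfsg.Agent.NE3.Two

set_option autoImplicit false

namespace Cfsg.Agent.NE3

open Subgroup Cfsg Cfsg.Agent.Ch Cfsg.Agent.Deg Module
open scoped commutatorElement

universe u

variable {H : Type u} [Group H] [Finite H] {p : ℕ} [Fact p.Prime] {α β : MulAut H} {B : Subgroup H}

theorem Cf3.fin (h : Cf3 p α β B) : g4 H = ⊥ ∧ B ≤ center H ∧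
    ∀ w ∈ g2 H, w ∉ g3 H → ∀ y ∈ g3 H, ∃ g : H, ⁅w, g⁆ = y := by
  have h4 : g4 H = ⊥ := by
    by_contra h4
    obtain ⟨d⟩ := h.d4 h4
    by_cases hp : p = 2
    · obtain ⟨q, q1, q2, q3⟩ := h.exq d hp
      exact d.l4.two q q1 q2 q3
    · exact d.l4.odd hp
  obtain ⟨d⟩ := h.d3
  refine ⟨h4, fun c hc => mem_center_iff.2 fun x => ?_, fun w hw hw' y hy => ?_⟩
  · have := h.BP d hc x
    rw [h4, mem_bot, commutatorElement_eq_one_iff_mul_comm] at this
    exact this.symm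
  · obtain ⟨g, -, hg⟩ := h.wsp d hw hw' hy
    rw [h4, mem_bot, mul_inv_eq_one] at hg
    exact ⟨g, hg⟩

end Cfsg.Agent.NE3
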