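import Mathlib
import Cfsg.Agent.NE3.Defs

set_option autoImplicit false

namespace Cfsg.Agent.NE3

open Subgroup Cfsg Cfsg.Agent.Ch Cfsg.Agent.Deg Module
open scoped commutatorElement

universe u

theorem X1_deg {G : Type u} [Group G] [Finite G] {P : Subgroup G} [P.Normal] [Fintype P]
    (hcop : (Nat.card P).Coprime P.index) (hc : commutator G ≤ P) {χ : G → ℂ} (hχ : IsIrrCharacter G χ)
    {ψ : P → ℂ} (hψ : IsIrrCharacter P ψ) (h : classInner (fun n : P => χ n) ψ ≠ 0) :
    charDegree χ = charDegree ψ * (inertia P ψ).index := by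
  have := Fintype.ofFinite G
  have hPT := le_inertia hψ.isClassFunction
  have := Fintype.ofFinite (inertia P ψ)
  have := Fintype.ofFinite (P.subgroupOf (inertia P ψ))
  obtain ⟨φ, hφ, h1, h2, -⟩ := clifford_corr_surj hψ rfl hPT hχ h
  obtain ⟨η, hη, he⟩ := deg12_extends_of_coprime hcop hψ le_rfl hPT
  have e : (fun n : P.subgroupOf (inertia P ψ) => η n) = fun n => ψ (subgroupOfEquivOfLe hPT n) :=
    funext fun n => he ⟨n.1.1, n.2⟩
  have hc' : commutator (inertia P ψ) ≤ P.subgroupOf _ :=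
    commutator_le.2 fun a _ b _ => hc (commutator_mem_commutator (mem_top a.1) (mem_top b.1))
  obtain ⟨β, -, h3⟩ := gallagher_surj_of_commutator_le hc' hη.isCharacter
    (e ▸ hψ.comp_mulEquiv (subgroupOfEquivOfLe hPT)) hφ (by
      rw [e]
      exact (classInner_subgroupOf hPT (fun n : P => φ ⟨n, hPT n.2⟩) ψ).trans_ne h1)
  have h4 : φ 1 = ψ 1 := by
    rw [h3]
    simp only [map_one, Units.val_one, one_mul]
    exact he 1
  rw [← h2, charDegree_indFun _ hφ.isCharacter, mul_comm, charDegree, h4]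
  rfl

theorem dg_over {G : Type u} [Group G] [Finite G] {p : ℕ} [Fact p.Prime] (P C : Subgroup G) [P.Normal]
    (hP : IsPGroup p P) (hC : ¬ p ∣ Nat.card C) (hCc : ∀ a ∈ C, ∀ b ∈ C, a * b = b * a)
    (hPC : P ⊔ C = ⊤) :
    (∀ χ, IsIrrCharacter G χ → ∃ ψ, IsIrrCharacter P ψ ∧
      charDegree χ = dg (C.map (MulAut.conjNormal : G →* MulAut P)) ψ) ∧
    (∀ ψ, IsIrrCharacter P ψ → ∃ χ, IsIrrCharacter G χ ∧
      charDegree χ = dg (C.map (MulAut.conjNormal : G →* MulAut P)) ψ) ∧ commutator G ≤ P := by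
  have := Fintype.ofFinite P
  have hp : p.Prime := Fact.out
  have hq : ∀ g : G, ∃ c ∈ C, (g : G ⧸ P) = c := fun g => by
    have hg : g ∈ ((P ⊔ C : Subgroup G) : Set G) := by rw [hPC]; trivial
    rw [normal_mul] at hg
    obtain ⟨a, ha, c, hc, rfl⟩ := hg
    exact ⟨c, hc, by
      rw [QuotientGroup.mk_mul, (QuotientGroup.eq_one_iff a).2 ha, one_mul]⟩
  have hc : commutator G ≤ P := commutator_le.2 fun a _ b _ => by
    obtain ⟨c, h1, e1⟩ := hq a
    obtain ⟨d, h2, e2⟩ := hq b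
    rw [← QuotientGroup.eq_one_iff, ← QuotientGroup.mk'_apply, map_commutatorElement,
      commutatorElement_eq_one_iff_mul_comm, QuotientGroup.mk'_apply, QuotientGroup.mk'_apply, e1, e2,
      ← QuotientGroup.mk_mul, ← QuotientGroup.mk_mul, hCc c h1 d h2]
  have hi : ∀ T : Subgroup G, P ≤ T → T.relIndex C = T.index := fun T hT => by
    have : T.Normal := ⟨fun n hn g => by
      have h1 : ⁅g, n⁆ ∈ T := hT (hc (commutator_mem_commutator (mem_top g) (mem_top n)))
      have := mul_mem h1 hn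
      rwa [commutatorElement_def, inv_mul_cancel_right] at this⟩
    rw [← relIndex_sup_right, eq_top_iff.2 (hPC.ge.trans (sup_le (hT.trans le_sup_right) le_sup_left)),
      relIndex_top_right]
  have hcop : (Nat.card P).Coprime P.index := by
    obtain ⟨k, hk⟩ := hP.exists_card_eq
    rw [hk, ← hi P le_rfl]
    exact (hp.coprime_iff_not_dvd.2 fun e => hC (e.trans (index_dvd_card _))).pow_left k
  have hd : ∀ ψ, IsIrrCharacter P ψ →
      dg (C.map (MulAut.conjNormal : G →* MulAut P)) ψ = charDegree ψ * (inertia P ψ).index := fun ψ hψ => by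
    rw [dg, ← hi _ (le_inertia hψ.isClassFunction),
      ← index_comap_of_surjective _ ((MulAut.conjNormal : G →* MulAut P).subgroupMap_surjective C), relIndex]
    congr 2
    ext c
    rw [mem_comap, mem_St, mem_subgroupOf, mem_inertia]
    rfl
  refine ⟨fun χ hχ => ?_, fun ψ hψ => ?_, hc⟩
  · obtain ⟨ψ, hψ, h⟩ := exists_irr_under P hχ
    exact ⟨ψ, hψ, by rw [hd ψ hψ, X1_deg hcop hc hχ hψ h]⟩
  · obtain ⟨χ, hχ, h⟩ := exists_irr_over P hψ
    exact ⟨χ, hχ, by rw [hd ψ hψ, X1_deg hcop hc hχ hψ h]⟩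

end Cfsg.Agent.NE3
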