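import Mathlib
import Cfsg.Agent.NE3.Defs

set_option autoImplicit false
set_option linter.unusedSectionVars false

namespace Cfsg.Agent.NE3

open Subgroup Cfsg Cfsg.Agent.Ch Cfsg.Agent.Deg Module
open scoped commutatorElement

universe u

variable {H : Type u} [Group H] [Finite H] {p : ℕ} [Fact p.Prime] {Γ : Subgroup (MulAut H)}

theorem exists_over {X : Subgroup H} [X.Normal] (f : X →* ℂˣ)
    (hf : ∀ x : X, (x : H) ∈ ⁅X, (⊤ : Subgroup H)⁆ → f x = 1) :
    ∃ ψ, IsIrrCharacter H ψ ∧ ∀ x : X, ψ x = ψ 1 * f x := by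
  have := Fintype.ofFinite H
  have := Fintype.ofFinite X
  have hθ := isIrrCharacter_monoidHom_units f
  obtain ⟨ψ, hψ, hne⟩ := exists_irr_over X hθ
  have hinv : ∀ g : H, linConj g f = f := fun g => MonoidHom.ext fun x => by
    rw [linConj_apply, ← mul_inv_eq_one, ← map_inv, ← map_mul]
    refine hf _ ?_
    rw [Subgroup.commutator_comm]
    exact Subgroup.commutator_mem_commutator (mem_top g) x.2
  have hc := clifford hψ hθ hne
  have key : ∀ x : X, (∑ φ ∈ conjugates (fun n : X => (f n : ℂ)), φ) x =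
      ((conjugates (fun n : X => (f n : ℂ))).card : ℂ) * f x := fun x => by
    rw [Finset.sum_apply, Finset.sum_congr rfl (g := fun _ => (f x : ℂ)), Finset.sum_const,
      nsmul_eq_mul]
    intro φ hφ
    obtain ⟨g, rfl⟩ := mem_conjugates.1 hφ
    rw [← coe_linConj, hinv]
  refine ⟨ψ, hψ, fun x => ?_⟩
  have h1 := congrFun hc x
  have h2 := congrFun hc 1
  simp only [Pi.smul_apply, smul_eq_mul, key, map_one, Units.val_one, mul_one, OneMemClass.coe_one]
    at h1 h2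
  rw [h1, h2, mul_assoc]

theorem exists_under {X : Subgroup H} [X.Normal] {ψ : H → ℂ} (hψ : IsIrrCharacter H ψ)
    (h : ⁅X, (⊤ : Subgroup H)⁆ ≤ charKer ψ) : ∃ f : X →* ℂˣ, ∀ x : X, ψ x = ψ 1 * f x := by
  have hX : X ≤ charCenter ψ := fun z hz => hψ.mem_charCenter_iff_commutator.2 fun y =>
    h (Subgroup.commutator_mem_commutator hz (mem_top y))
  have h0 : ψ ≠ 0 := fun e => by
    have h1 := hψ.charDegree_pos
    have h2 := hψ.coe_charDegree
    rw [e, Pi.zero_apply] at h2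
    have h3 : charDegree (0 : H → ℂ) = 0 := by exact_mod_cast h2
    rw [e, h3] at h1
    exact lt_irrefl _ h1
  obtain ⟨lam, h1, -⟩ := hψ.isCharacter.exists_charCenter_hom h0
  refine ⟨lam.comp (Subgroup.inclusion hX), fun x => ?_⟩
  have := h1 ⟨x, hX x.2⟩ 1
  rw [mul_one] at this
  rw [mul_comm]
  exact this

theorem apply_mul_ker {ψ : H → ℂ} (hψ : IsIrrCharacter H ψ) {k : H} (hk : k ∈ charKer ψ) (x : H) :
    ψ (k * x) = ψ x :=
  have _ := hψ
  apply_mul_of_mem_charKer hk x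

theorem dg_ne_one {ψ : H → ℂ} (h : charDegree ψ ≠ 1) : dg Γ ψ ≠ 1 :=
  fun e => h (Nat.eq_one_of_mul_eq_one_right e)

theorem mem_D {B : Subgroup H} {x : H} (hx : x ∈ B ⊔ g2 H) : ∃ k ∈ g2 H, ∃ c ∈ B, x = k * c := by
  have hg : x ∈ ((g2 H ⊔ B : Subgroup H) : Set H) := by rw [sup_comm]; exact hx
  rw [Subgroup.normal_mul] at hg
  obtain ⟨w, hw, y, hy, rfl⟩ := hg
  exact ⟨w, hw, y, hy, rfl⟩

end Cfsg.Agent.NE3
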