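import Mathlib
import Cfsg.Agent.NE3.Defs

set_option autoImplicit false

namespace Cfsg.Agent.NE3

open Subgroup Cfsg Cfsg.Agent.Ch Cfsg.Agent.Deg Module
open scoped commutatorElement

universe u

theorem reg_abs {Γ Λ : Type*} [Group Γ] [Finite Γ] [CommGroup Λ] [Finite Λ] [MulDistribMulAction Γ Λ]
    (hc : ∀ σ τ : Γ, σ * τ = τ * σ) (hco : (Nat.card Γ).Coprime (Nat.card Λ)) (l₀ : Λ) :
    ∃ l : Λ, (∀ σ : Γ, σ • l = l → ∀ m : Λ, σ • m = m) ∧
      l * l₀⁻¹ ∈ closure {x : Λ | ∃ (σ : Γ) (m : Λ), x = σ • m * m⁻¹} := by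
  classical
  set M : Subgroup Λ := closure {x : Λ | ∃ (σ : Γ) (m : Λ), x = σ • m * m⁻¹} with hM
  have hex : ∃ n : ℕ, ∃ l : Λ, l * l₀⁻¹ ∈ M ∧ Nat.card (MulAction.stabilizer Γ l) = n :=
    ⟨_, l₀, by rw [mul_inv_cancel]; exact M.one_mem, rfl⟩
  obtain ⟨l, hl, hn⟩ := Nat.find_spec hex
  have hmin : ∀ l' : Λ, l' * l₀⁻¹ ∈ M →
      Nat.card (MulAction.stabilizer Γ l) ≤ Nat.card (MulAction.stabilizer Γ l') := fun l' h => by
    rw [hn]; exact Nat.find_min' hex ⟨l', h, rfl⟩
  refine ⟨l, fun σ hσ m => ?_, hl⟩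
  set o := orderOf σ with ho
  have hcop : (Nat.card Λ).Coprime o :=
    (Nat.Coprime.coprime_dvd_left (orderOf_dvd_natCard σ) hco).symm
  have hinj : ∀ a b : Λ, a ^ o = b ^ o → a = b := fun a b h => (powCoprime hcop).injective h
  let N : Λ → Λ := fun v => ∏ i ∈ Finset.range o, σ ^ i • v
  have hNmul : ∀ a b, N (a * b) = N a * N b := fun a b => by
    simp only [N, smul_mul', Finset.prod_mul_distrib]
  have hNτ : ∀ (τ : Γ) v, N (τ • v) = τ • N v := fun τ v => by
    simp only [N]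
    rw [Finset.smul_prod']
    refine Finset.prod_congr rfl fun i _ => ?_
    rw [← mul_smul, ← mul_smul, hc]
  have hNfix : ∀ v, σ • v = v → N v = v ^ o := fun v hv => by
    have : ∀ i : ℕ, σ ^ i • v = v := fun i =>
      (MulAction.stabilizer Γ v).pow_mem (show σ ∈ MulAction.stabilizer Γ v from hv) i
    simp only [N, this, Finset.prod_const, Finset.card_range]
  have hNσ : ∀ v, N (σ • v) = N v := fun v => by
    have h1 := Finset.prod_range_succ (fun i => σ ^ i • v) o
    have h2 := Finset.prod_range_succ' (fun i => σ ^ i • v) o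
    have h3 : σ ^ o • v = v := by rw [ho, pow_orderOf_eq_one, one_smul]
    rw [h1, h3, pow_zero, one_smul] at h2
    have h4 := mul_right_cancel h2
    simp only [N]
    rw [h4]
    refine Finset.prod_congr rfl fun i _ => ?_
    rw [← mul_smul, pow_succ]
  set u : Λ := σ • m * m⁻¹ with hu
  have huM : u ∈ M := subset_closure ⟨σ, m, rfl⟩
  have hNu : N u = 1 := by
    have h1 : N (u * m) = N m := by rw [hu, inv_mul_cancel_right, hNσ]
    rw [hNmul] at h1
    exact mul_eq_right.mp h1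
  have hle : MulAction.stabilizer Γ (l * u) ≤ MulAction.stabilizer Γ l := fun τ hτ => by
    have hτ' : τ • (l * u) = l * u := hτ
    have h1 := hNτ τ (l * u)
    rw [hτ', hNmul, hNu, mul_one, hNfix l hσ, smul_pow'] at h1
    exact (hinj _ _ h1).symm
  have hmem : l * u * l₀⁻¹ ∈ M := by
    rw [mul_right_comm]; exact M.mul_mem hl huM
  have heq : MulAction.stabilizer Γ (l * u) = MulAction.stabilizer Γ l :=
    Subgroup.eq_of_le_of_card_ge hle (hmin _ hmem)
  have hσ' : σ • (l * u) = l * u := by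
    have : σ ∈ MulAction.stabilizer Γ (l * u) := by rw [heq]; exact hσ
    exact this
  rw [smul_mul', hσ] at hσ'
  have hσu : σ • u = u := mul_left_cancel hσ'
  have hu1 : u = 1 := hinj _ _ (by rw [← hNfix u hσu, hNu, one_pow])
  rw [hu] at hu1
  exact mul_inv_eq_one.mp hu1

end Cfsg.Agent.NE3
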