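import Mathlib
import Cfsg.Agent.NE3.Defs
import Cfsg.Agent.NE3.X2a
import Cfsg.Agent.Deg.NdC

set_option autoImplicit false

namespace Cfsg.Agent.NE3

open Subgroup Cfsg Cfsg.Agent.Ch Cfsg.Agent.Deg Module
open scoped commutatorElement

universe u

variable {H : Type u} [Group H] [Finite H] {p : ℕ} [Fact p.Prime] {Γ : Subgroup (MulAut H)}

/-- Linear characters of `X` that are trivial on `X'`. -/
def X2b_L (X X' : Subgroup H) : Subgroup (X →* ℂˣ) where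
  carrier := {f | ∀ x : X, (x : H) ∈ X' → f x = 1}
  one_mem' := fun _ _ => rfl
  mul_mem' := fun {a b} ha hb x hx => by rw [MonoidHom.mul_apply, ha x hx, hb x hx, one_mul]
  inv_mem' := fun {a} ha x hx => by rw [MonoidHom.inv_apply, ha x hx, inv_one]

/-- Restriction of an automorphism to an invariant subgroup. -/
def X2b_res {X : Subgroup H} (hX : ∀ σ ∈ Γ, ∀ x ∈ X, σ x ∈ X) (σ : Γ) : X →* X :=
  (σ.1.toMonoidHom.comp X.subtype).codRestrict X fun x => hX σ.1 σ.2 x.1 x.2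

/-- The action on the characters. -/
@[reducible] def X2b_act (hc : ∀ σ ∈ Γ, ∀ τ ∈ Γ, σ * τ = τ * σ) {X X' : Subgroup H}
    (hX : ∀ σ ∈ Γ, ∀ x ∈ X, σ x ∈ X) (hX' : ∀ σ ∈ Γ, ∀ x ∈ X', σ x ∈ X') :
    MulDistribMulAction Γ (X2b_L X X') where
  smul σ f := ⟨f.1.comp (X2b_res hX σ), fun x hx => f.2 _ (hX' σ.1 σ.2 x.1 hx)⟩
  one_smul f := Subtype.ext (MonoidHom.ext fun x => rfl)
  mul_smul σ τ f := Subtype.ext (MonoidHom.ext fun x => by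
    show f.1 (X2b_res hX (σ * τ) x) = f.1 (X2b_res hX τ (X2b_res hX σ x))
    congr 1
    apply Subtype.ext
    show (σ.1 * τ.1) x.1 = (τ.1 * σ.1) x.1
    rw [hc σ.1 σ.2 τ.1 τ.2])
  smul_one σ := Subtype.ext (MonoidHom.ext fun x => rfl)
  smul_mul σ f g := Subtype.ext (MonoidHom.ext fun x => rfl)

theorem regX (hP : IsPGroup p H) (hco : ¬ p ∣ Nat.card Γ) (hc : ∀ σ ∈ Γ, ∀ τ ∈ Γ, σ * τ = τ * σ)
    {X X' : Subgroup H} [X'.Normal] (hX : ∀ σ ∈ Γ, ∀ x ∈ X, σ x ∈ X) (hX' : ∀ σ ∈ Γ, ∀ x ∈ X', σ x ∈ X')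
    (hcm : ⁅X, X⁆ ≤ X') (f₀ : X →* ℂˣ) (h₀ : ∀ x : X, (x : H) ∈ X' → f₀ x = 1) :
    ∃ f : X →* ℂˣ, (∀ x : X, (x : H) ∈ X' → f x = 1) ∧
      (∀ σ ∈ Γ, (∀ x y : X, (y : H) = σ x → f y = f x) → ∀ x ∈ X, σ x * x⁻¹ ∈ X') ∧
      ∀ x : X, (∀ σ ∈ Γ, σ x * (x : H)⁻¹ ∈ X') → f x = f₀ x := by
  letI := X2b_act hc hX hX'
  have sm : ∀ (σ : Γ) (m : X2b_L X X') (x : X), (σ • m).1 x = m.1 (X2b_res hX σ x) := fun _ _ _ => rfl
  have hL : IsPGroup p (X2b_L X X') := by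
    obtain ⟨k, hk⟩ := (hP.to_subgroup X).exists_card_eq
    intro m
    refine ⟨k, Subtype.ext (MonoidHom.ext fun x => ?_)⟩
    show (m.1 ^ p ^ k) x = 1
    rw [MonoidHom.pow_apply, ← map_pow, ← hk, pow_card_eq_one', map_one]
  have hcop : (Nat.card Γ).Coprime (Nat.card (X2b_L X X')) := by
    obtain ⟨k, hk⟩ := hL.exists_card_eq
    rw [hk]
    exact (((Nat.Prime.coprime_iff_not_dvd Fact.out).2 hco).symm).pow_right k
  obtain ⟨l, h1, h2⟩ := reg_abs (Γ := Γ) (Λ := X2b_L X X')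
    (fun σ τ => Subtype.ext (hc σ.1 σ.2 τ.1 τ.2)) hcop ⟨f₀, h₀⟩
  refine ⟨l.1, l.2, fun σ hσ h x hx => ?_, fun x hx => ?_⟩
  · have hl : (⟨σ, hσ⟩ : Γ) • l = l :=
      Subtype.ext (MonoidHom.ext fun y => by rw [sm]; exact h y _ rfl)
    by_contra hn
    obtain ⟨m, hm, hne⟩ := Nd.exists_lin (X := X) (K := X') hcm
      (x := X2b_res hX ⟨σ, hσ⟩ ⟨x, hx⟩ * (⟨x, hx⟩ : X)⁻¹) hn
    have e := congrArg (fun f : X2b_L X X' => f.1 ⟨x, hx⟩) (h1 _ hl ⟨m, hm⟩)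
    simp only [sm] at e
    exact hne (by rw [map_mul, map_inv, e, mul_inv_cancel])
  · let ev : X2b_L X X' →* ℂˣ := (MonoidHom.eval x).comp (X2b_L X X').subtype
    have hk : closure {y : X2b_L X X' | ∃ (σ : Γ) (m : X2b_L X X'), y = σ • m * m⁻¹} ≤ ev.ker := by
      rw [closure_le]
      rintro _ ⟨σ, m, rfl⟩
      show (σ • m).1 x * (m.1 x)⁻¹ = 1
      rw [sm, ← map_inv, ← map_mul]
      exact m.2 _ (hx σ.1 σ.2)
    have e : l.1 x * (f₀ x)⁻¹ = 1 := hk h2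
    exact mul_inv_eq_one.1 e

end Cfsg.Agent.NE3
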