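import Mathlib
import Cfsg.Agent.NE3.Defs
import Cfsg.Agent.NE3.X2b
import Cfsg.Agent.NE3.X0
import Cfsg.Agent.NE3.HW

set_option autoImplicit false

namespace Cfsg.Agent.NE3

open Subgroup Cfsg Cfsg.Agent.Ch Cfsg.Agent.Deg Module
open scoped commutatorElement

universe u

variable {H : Type u} [Group H] [Finite H] {p : ℕ} [Fact p.Prime] {Γ : Subgroup (MulAut H)}

theorem X3a_deg (f : H →* ℂˣ) : charDegree (fun g => (f g : ℂ)) = 1 := by
  have k := (isIrrCharacter_monoidHom_units f).coe_charDegree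
  rw [map_one, Units.val_one] at k
  exact_mod_cast k

theorem CH.triv (h : CH p Γ) {σ : MulAut H} (hσ : σ ∈ Γ) (h1 : ∀ x, σ x * x⁻¹ ∈ g2 H) : σ = 1 := by
  set V : Subgroup H := normalClosure (Set.range fun x => σ x * x⁻¹) with hV
  have mV : ∀ x, σ x * x⁻¹ ∈ V := fun x => subset_normalClosure ⟨x, rfl⟩
  set N : Subgroup H := ⁅V, (⊤ : Subgroup H)⁆ with hN
  let π := QuotientGroup.mk' N
  have cen : ∀ x (y : H ⧸ N), Commute (π (σ x * x⁻¹)) y := fun x y => by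
    obtain ⟨y, rfl⟩ := QuotientGroup.mk'_surjective N y
    rw [← commutatorElement_eq_one_iff_commute, ← map_commutatorElement]
    exact (QuotientGroup.eq_one_iff _).2 (commutator_mem_commutator (mV x) (mem_top y))
  let φ : H →* H ⧸ N := MonoidHom.mk' (fun x => π (σ x * x⁻¹)) fun a b => by
    have e : σ (a * b) * (a * b)⁻¹ = σ a * (σ b * b⁻¹) * a⁻¹ := by rw [map_mul]; group
    rw [e, map_mul, map_mul π (σ a), mul_assoc, (cen b _).eq, ← mul_assoc, ← map_mul]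
  have φa : ∀ x, φ x = π (σ x * x⁻¹) := fun _ => rfl
  have k2 : g2 H ≤ φ.ker := commutator_le.2 fun a _ b _ => by
    rw [MonoidHom.mem_ker, map_commutatorElement, commutatorElement_eq_one_iff_commute]
    exact cen a _
  have k3 : ∀ x, φ (σ x) = φ x := fun x => by
    have := k2 (h1 x)
    rwa [MonoidHom.mem_ker, map_mul, map_inv, mul_inv_eq_one] at this
  have k4 : ∀ (n : ℕ) x, π ((σ ^ n) x) = φ x ^ n * π x := fun n => by
    induction n with
    | zero => intro x; simp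
    | succ n ih =>
      intro x
      rw [pow_succ, MulAut.mul_apply, ih, k3, pow_succ, mul_assoc, φa, ← map_mul, inv_mul_cancel_right]
  have k5 : σ ^ Nat.card Γ = 1 := congrArg Subtype.val (pow_card_eq_one' (x := (⟨σ, hσ⟩ : Γ)))
  have k6 : ∀ x, φ x = 1 := fun x => by
    have e := k4 (Nat.card Γ) x
    rw [k5, MulAut.one_apply, right_eq_mul] at e
    obtain ⟨k, hk⟩ := h.pg x
    have e2 : φ x ^ p ^ k = 1 := by rw [← map_pow, hk, map_one]
    have co : (p ^ k).Coprime (Nat.card Γ) := ((Nat.Prime.coprime_iff_not_dvd Fact.out).2 h.cop).pow_left k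
    rw [← orderOf_eq_one_iff]
    exact Nat.eq_one_of_dvd_coprimes co (orderOf_dvd_of_pow_eq_one e2) (orderOf_dvd_of_pow_eq_one e)
  have k7 : V = ⊥ := eq_bot_of_le h.pg (normalClosure_le_normal (by
    rintro _ ⟨x, rfl⟩
    exact (QuotientGroup.eq_one_iff _).1 (k6 x)))
  ext x
  have := mV x
  rwa [k7, mem_bot, mul_inv_eq_one] at this

theorem CH.exf (h : CH p Γ) : ∃ ψ, IsIrrCharacter H ψ ∧ dg Γ ψ = Nat.card Γ := by
  obtain ⟨f, -, hf, -⟩ := regX h.pg h.cop h.comm (X := ⊤) (X' := g2 H) (fun _ _ _ _ => mem_top _)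
    (fun σ _ => (aut_mem σ).1) le_rfl 1 fun _ _ => rfl
  let F : H →* ℂˣ := f.comp (topEquiv (G := H)).symm.toMonoidHom
  refine ⟨_, isIrrCharacter_monoidHom_units F, ?_⟩
  have e : St Γ (fun g => (F g : ℂ)) = ⊥ := (eq_bot_iff_forall _).2 fun σ hσ =>
    Subtype.ext (h.triv σ.2 fun x => hf σ σ.2 (fun a b hb => by
      have k : F (σ.1 a) = F a := Units.ext (mem_St.1 hσ a)
      have e : b = (topEquiv (G := H)).symm (σ.1 a) := Subtype.ext hb
      rw [e]
      exact k) x (mem_top x))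
  rw [dg, X3a_deg, e, index_bot, one_mul]

theorem CH.lin (h : CH p Γ) (f : H →* ℂˣ) {σ : MulAut H} (hσ : σ ∈ Γ) (h1 : σ ≠ 1)
    (hf : ∀ x, f (σ x) = f x) : ∀ τ ∈ Γ, ∀ x, f (τ x) = f x := by
  by_cases k : dg Γ (fun g => (f g : ℂ)) = 1
  · rw [dg, X3a_deg, one_mul, index_eq_one] at k
    intro τ hτ x
    exact Units.ext (mem_St.1 (k.ge (mem_top (⟨τ, hτ⟩ : Γ))) x)
  · obtain ⟨φ, hφ, e⟩ := h.exf
    have d : dg Γ (fun g => (f g : ℂ)) ∣ dg Γ φ := by
      rw [e, dg, X3a_deg, one_mul]; exact index_dvd_card _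
    have k2 := h.nd _ _ (isIrrCharacter_monoidHom_units f) hφ k d
    rw [e, dg, X3a_deg, one_mul] at k2
    have k3 := (St Γ fun g => (f g : ℂ)).card_mul_index
    rw [k2, mul_eq_right₀ Nat.card_pos.ne', card_eq_one] at k3
    have m : (⟨σ, hσ⟩ : Γ) ∈ St Γ fun g => (f g : ℂ) := mem_St.2 fun x => congrArg Units.val (hf x)
    rw [k3, mem_bot] at m
    exact absurd (congrArg Subtype.val m) h1

theorem CH.nonlin (h : CH p Γ) {ψ : H → ℂ} (hψ : IsIrrCharacter H ψ) (h1 : charDegree ψ ≠ 1) :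
    ∃ σ ∈ Γ, σ ≠ 1 ∧ ∀ x, ψ (σ x) = ψ x := by
  by_contra k
  push Not at k
  have e0 : St Γ ψ = ⊥ := (eq_bot_iff_forall _).2 fun σ hσ => Subtype.ext (by
    by_contra n
    obtain ⟨x, hx⟩ := k σ σ.2 n
    exact hx (mem_St.1 hσ x))
  obtain ⟨φ, hφ, e⟩ := h.exf
  have e1 : dg Γ ψ = charDegree ψ * Nat.card Γ := by rw [dg, e0, index_bot]
  have k2 := h.nd _ _ hφ hψ (by rw [e, Ne, card_eq_one]; exact h.ne) (by rw [e, e1]; exact dvd_mul_left _ _)
  rw [e, e1, right_eq_mul₀ Nat.card_pos.ne'] at k2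
  exact h1 k2

theorem CH.one (h : CH p Γ) {ψ : H → ℂ} (hψ : IsIrrCharacter H ψ) (h1 : charDegree ψ = 1)
    (h2 : dg Γ ψ ≠ 1) : dg Γ ψ = Nat.card Γ := by
  obtain ⟨φ, hφ, e⟩ := h.exf
  rw [← e]
  refine h.nd _ _ hψ hφ h2 ?_
  rw [e, dg, h1, one_mul]
  exact index_dvd_card _

end Cfsg.Agent.NE3
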