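import Mathlib
import Cfsg.Agent.NE3.Defs
import Cfsg.Agent.NE3.X3a
import Cfsg.Agent.Deg.NdC
import Cfsg.Agent.GT.CoprimeActThms

set_option autoImplicit false

namespace Cfsg.Agent.NE3

open Subgroup Cfsg Cfsg.Agent.Ch Cfsg.Agent.Deg Module
open scoped commutatorElement

universe u

variable {H : Type u} [Group H] [Finite H] {p : ℕ} [Fact p.Prime] {Γ : Subgroup (MulAut H)}

omit [Finite H] in
theorem X3b_g2 (f : H →* ℂˣ) {k : H} (hk : k ∈ g2 H) : f k = 1 :=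
  (show g2 H ≤ f.ker from commutator_le.2 fun a _ b _ => by
    rw [MonoidHom.mem_ker, map_commutatorElement, commutatorElement_eq_one_iff_mul_comm, mul_comm]) hk

theorem X3b_mem {y : H} (h : ∀ f : H →* ℂˣ, f y = 1) : y ∈ g2 H := by
  by_contra hy
  obtain ⟨f, -, hf⟩ := Deg.Nd.exists_lin (X := ⊤) (K := g2 H) le_rfl (x := ⟨y, mem_top y⟩) hy
  exact hf (h (f.comp (topEquiv (G := H)).symm.toMonoidHom))

theorem X3b_key (hP : IsPGroup p H) {σ : MulAut H} (ho : ¬ p ∣ orderOf σ) {y : H}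
    (h1 : ∀ f : H →* ℂˣ, f (σ y) = f y) (h2 : ∀ g : H →* ℂˣ, (∀ z, g (σ z) = g z) → g y = 1) (f : H →* ℂˣ) :
    f y = 1 := by
  have e : ∀ (i : ℕ) (z : H), (σ ^ (i + 1)) z = (σ ^ i) (σ z) := fun i z => by rw [pow_succ]; rfl
  have k := h2 (∏ i ∈ Finset.range (orderOf σ), f.comp (σ ^ i).toMonoidHom) fun z => by
    simp only [MonoidHom.finset_prod_apply, MonoidHom.comp_apply, MulEquiv.coe_toMonoidHom, ← e]
    have k1 := Finset.prod_range_succ' (fun i => f ((σ ^ i) z)) (orderOf σ)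
    rw [Finset.prod_range_succ, pow_orderOf_eq_one, pow_zero] at k1
    exact (mul_right_cancel k1).symm
  have k2 : ∀ i : ℕ, f ((σ ^ i) y) = f y := fun i => by
    induction i with
    | zero => rfl
    | succ i ih => rw [e, ← ih]; exact h1 (f.comp (σ ^ i).toMonoidHom)
  simp only [MonoidHom.finset_prod_apply, MonoidHom.comp_apply, MulEquiv.coe_toMonoidHom, k2, Finset.prod_const,
    Finset.card_range] at k
  obtain ⟨n, hn⟩ := hP y
  have k3 : f y ^ p ^ n = 1 := by rw [← map_pow, hn, map_one]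
  have c : (p ^ n).Coprime (orderOf σ) := ((Nat.Prime.coprime_iff_not_dvd Fact.out).2 ho).pow_left n
  rw [← orderOf_eq_one_iff]
  exact Nat.eq_one_of_dvd_coprimes c (orderOf_dvd_of_pow_eq_one k3) (orderOf_dvd_of_pow_eq_one k)

omit [Finite H] in
theorem X3b_D {y : H} (hy : y ∈ fx Γ ⊔ g2 H) {σ : MulAut H} (hσ : σ ∈ Γ) (f : H →* ℂˣ) : f (σ y) = f y := by
  obtain ⟨c, hc, k, hk, rfl⟩ := mem_sup_of_normal_right.1 hy
  have := X3b_g2 (f.comp σ.toMonoidHom) hk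
  rw [MonoidHom.comp_apply, MulEquiv.coe_toMonoidHom] at this
  rw [map_mul, map_mul, map_mul, hc σ hσ, this, X3b_g2 f hk]

theorem CH.fpf (h : CH p Γ) {σ : MulAut H} (hσ : σ ∈ Γ) (h1 : σ ≠ 1) : Fpf σ (fx Γ) := by
  intro x hx
  have ho : ¬ p ∣ orderOf σ := fun k => h.cop (k.trans (Γ.orderOf_dvd_natCard hσ))
  have k1 : ∀ f : H →* ℂˣ, f (σ x) = f x := fun f => by
    have := X3b_key h.pg ho (X3b_D hx hσ) (fun g hg => by rw [map_mul, map_inv, hg, mul_inv_cancel]) f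
    rwa [map_mul, map_inv, mul_inv_eq_one] at this
  have k2 : ∀ τ : Γ, Γ.subtype τ x * x⁻¹ ∈ g2 H := fun τ => X3b_mem (X3b_key h.pg ho (fun f => by
    have e : σ (τ.1 x) = τ.1 (σ x) := DFunLike.congr_fun (h.comm σ hσ τ.1 τ.2) x
    have := k1 (f.comp τ.1.toMonoidHom)
    simp only [MonoidHom.comp_apply, MulEquiv.coe_toMonoidHom] at this
    simp only [coe_subtype, map_mul, map_inv, e, this, k1]) fun g hg => by
      rw [map_mul, map_inv, coe_subtype, h.lin g hσ h1 hg τ.1 τ.2, mul_inv_cancel])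
  have hN : GT.CopAct.ActInv Γ.subtype (g2 H) := fun τ u hu => X3b_mem fun f =>
    X3b_g2 (f.comp τ.1.toMonoidHom) hu
  have hp := h.pg.to_subgroup (g2 H)
  obtain ⟨n, hn⟩ := hp.exists_card_eq
  have := hp.isNilpotent
  obtain ⟨c, hc, k⟩ := GT.CopAct.act_exists_fixed_mul_inv_mem hN
    (by rw [hn]; exact (((Nat.Prime.coprime_iff_not_dvd Fact.out).2 h.cop).pow_left n).symm)
    (.inr inferInstance) k2
  have e : x = (c * x⁻¹)⁻¹ * c := by group
  rw [e]
  exact mul_mem (mem_sup_right (inv_mem k)) (mem_sup_left fun τ hτ => hc ⟨τ, hτ⟩)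

theorem CH.neD (h : CH p Γ) : fx Γ ⊔ g2 H ≠ ⊤ := by
  intro e
  refine h.ne (eq_bot_iff.2 fun σ hσ => h.triv hσ fun x => X3b_mem fun f => ?_)
  rw [map_mul, map_inv, X3b_D (e ▸ mem_top x) hσ, mul_inv_cancel]

end Cfsg.Agent.NE3
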