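import Mathlib
import Cfsg.Agent.NE3.Defs
import Cfsg.Agent.NE3.X3b
import Cfsg.Agent.Deg.NdC

set_option autoImplicit false

namespace Cfsg.Agent.NE3

open Subgroup Cfsg Cfsg.Agent.Ch Cfsg.Agent.Deg Module
open scoped commutatorElement

universe u

variable {H : Type u} [Group H] [Finite H] {p : ℕ} [Fact p.Prime] {Γ : Subgroup (MulAut H)}

theorem x4_key {D L : Subgroup H} [D.Normal] (hD : commutator H ≤ D) {σ : MulAut H}
    (h1 : ∀ x, σ x * x⁻¹ ∈ D → x ∈ D) (h2 : ∀ x ∈ D, σ x ∈ D) (h3 : ∀ x ∈ L, σ x ∈ L) {ν : H →* ℂˣ}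
    (hν : ∀ d ∈ D, ν d = 1) (h4 : ∀ x ∈ L, ν (σ x) = ν x) : ∀ y ∈ L, ν y = 1 := by
  have cm := (Subgroup.Normal.quotient_commutative_iff_commutator_le.2 hD).is_comm.comm
  let θ : L →* H ⧸ D := MonoidHom.mk' (fun x => ((σ x * (x : H)⁻¹ : H) : H ⧸ D)) fun a b => by
    simp only [coe_mul, map_mul, mul_inv_rev, QuotientGroup.mk_mul]
    rw [mul_assoc, mul_assoc, ← mul_assoc ((σ b : H) : H ⧸ D), cm _ (((a : H)⁻¹ : H) : H ⧸ D)]
  let π : L →* H ⧸ D := (QuotientGroup.mk' D).comp L.subtype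
  have k1 : θ.ker = π.ker := by
    ext x
    change ((σ x * (x : H)⁻¹ : H) : H ⧸ D) = 1 ↔ ((x : H) : H ⧸ D) = 1
    rw [QuotientGroup.eq_one_iff, QuotientGroup.eq_one_iff]
    exact ⟨h1 x, fun k => mul_mem (h2 x k) (inv_mem k)⟩
  have k2 : θ.range = π.range := eq_of_le_of_card_ge
    (by rintro _ ⟨x, rfl⟩; exact ⟨⟨σ x * (x : H)⁻¹, mul_mem (h3 x x.2) (inv_mem x.2)⟩, rfl⟩)
    (by rw [← index_ker, ← index_ker, k1])
  intro y hy
  obtain ⟨x, hx⟩ : π ⟨y, hy⟩ ∈ θ.range := k2 ▸ ⟨_, rfl⟩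
  have k3 := hν _ (QuotientGroup.eq.1 (hx : ((σ x * (x : H)⁻¹ : H) : H ⧸ D) = (y : H ⧸ D)))
  rwa [map_mul, map_inv, map_mul, map_inv, h4 x x.2, mul_inv_cancel, inv_one, one_mul] at k3

theorem CH.vanish (h : CH p Γ) {ψ : H → ℂ} (hψ : IsIrrCharacter H ψ) (h1 : charDegree ψ ≠ 1) {x : H}
    (hx : x ∉ fx Γ ⊔ g2 H) : ψ x = 0 := by
  by_contra h0
  set D := fx Γ ⊔ g2 H
  have hD : commutator H ≤ D := le_sup_right
  have : D.Normal := Subgroup.Normal.of_commutator_le H hD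
  have sD : ∀ σ ∈ Γ, ∀ y ∈ D, σ y ∈ D := fun σ hσ y hy => by
    have : D ≤ D.comap σ.toMonoidHom := sup_le (fun z hz => mem_sup_left (by
        change σ z ∈ fx Γ
        rwa [hz σ hσ])) fun z hz => mem_sup_right
      (characteristic_iff_le_comap.1 (inferInstance : (commutator H).Characteristic) σ hz)
    exact this hy
  let L : Subgroup H := D ⊔ closure {y | ψ y ≠ 0}
  have xL : x ∈ L := mem_sup_right (subset_closure h0)
  obtain ⟨l0, l1, l2⟩ : ∃ l : H →* ℂˣ, (∀ d ∈ D, l d = 1) ∧ l x ≠ 1 := by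
    obtain ⟨f, f1, f2⟩ := Nd.exists_lin (X := ⊤) (K := D) hD (x := ⟨x, mem_top x⟩) hx
    exact ⟨f.comp (topEquiv (G := H)).symm.toMonoidHom, fun d hd => f1 ⟨d, mem_top d⟩ hd, f2⟩
  have hs : ∀ l : H →* ℂˣ, ∃ σ ∈ Γ, σ ≠ 1 ∧ ∀ y, ψ (σ y) * l (σ y) = ψ y * l y := fun l =>
    h.nonlin (hψ.mul_linear (ψ := fun y => (l y : ℂ)) (isCharacter_monoidHom_units l) (by simp)) (by
      unfold charDegree at h1 ⊢
      simpa using h1)
  choose s s1 s2 s3 using hs
  have sZ : ∀ l y, ψ (s l y) ≠ 0 ↔ ψ y ≠ 0 := fun l y => by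
    have := s3 l y
    constructor <;> intro k e <;> rw [e, zero_mul] at this
    · exact mul_ne_zero k (Units.ne_zero _) this
    · exact mul_ne_zero k (Units.ne_zero _) this.symm
  have sL : ∀ l, ∀ y ∈ L, s l y ∈ L := fun l y hy => by
    have : L ≤ L.comap (s l).toMonoidHom := sup_le (fun z hz => mem_sup_left (sD _ (s1 l) z hz))
      ((closure_le _).2 fun z hz => mem_sup_right (subset_closure ((sZ l z).2 hz)))
    exact this hy
  have sL' : ∀ l, ∀ y ∈ L, (s l)⁻¹ y ∈ L := fun l y hy => by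
    have : L ≤ L.comap (s l)⁻¹.toMonoidHom := sup_le (fun z hz => mem_sup_left (sD _ (inv_mem (s1 l)) z hz))
      ((closure_le _).2 fun z hz => mem_sup_right (subset_closure ((sZ l _).1 (by simpa using hz))))
    exact this hy
  let Ξ := {f : L → ℂˣ // ∃ l : H →* ℂˣ, (∀ d ∈ D, l d = 1) ∧ ∀ y : L, f y = l y}
  choose lf lf1 lf2 using fun f : Ξ => f.2
  have : Finite (H →* ℂˣ) := inferInstance
  have : Finite Ξ := Finite.of_injective lf fun f g e => Subtype.ext (funext fun y => by rw [lf2, lf2, e])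
  let F : Ξ → Ξ := fun f => ⟨fun y => l0 (s (lf f) y), l0.comp (s (lf f)).toMonoidHom,
    fun d hd => l1 _ (sD _ (s1 _) d hd), fun _ => rfl⟩
  have inj : Function.Injective F := fun f g e => by
    have e1 : ∀ y ∈ L, l0 (s (lf f) y) = l0 (s (lf g) y) := fun y hy => congrFun (congrArg Subtype.val e) ⟨y, hy⟩
    have e2 : s (lf f) = s (lf g) := by
      by_contra k
      have m := mul_mem (s1 (lf f)) (inv_mem (s1 (lf g)))
      exact l2 (x4_key hD (h.fpf m fun q => k (mul_inv_eq_one.1 q)) (sD _ m)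
        (fun y hy => sL _ _ (sL' _ y hy)) l1 (fun y hy => (e1 _ (sL' _ y hy)).trans (by simp)) x xL)
    have d1 : ∀ d ∈ D, (lf f / lf g) d = 1 := fun d hd => by simp [lf1 f d hd, lf1 g d hd]
    have e3 : L ≤ MonoidHom.eqLocus ((lf f / lf g).comp (s (lf f)).toMonoidHom) (lf f / lf g) :=
      sup_le (fun z hz => (d1 _ (sD _ (s1 _) z hz)).trans (d1 z hz).symm) ((closure_le _).2 fun z hz => by
        have a := s3 (lf f) z
        have b := s3 (lf g) z
        rw [← e2] at b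
        change lf f (s (lf f) z) / lf g (s (lf f) z) = lf f z / lf g z
        rw [div_eq_div_iff_mul_eq_mul]
        refine Units.ext (mul_left_cancel₀ (mul_ne_zero ((sZ (lf f) z).2 hz) hz) ?_)
        rw [Units.val_mul, Units.val_mul]
        linear_combination (ψ z * lf g z) * a - (ψ z * lf f z) * b)
    refine Subtype.ext (funext fun y => ?_)
    rw [lf2, lf2]
    exact div_eq_one.1 (x4_key hD (h.fpf (s1 _) (s2 _)) (sD _ (s1 _)) (sL _) d1 (fun y hy => e3 hy) y y.2)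
  obtain ⟨f, hf⟩ := Finite.surjective_of_injective inj ⟨1, 1, fun _ _ => rfl, fun _ => rfl⟩
  have := congrFun (congrArg Subtype.val hf) ⟨_, sL' (lf f) x xL⟩
  exact l2 (by simpa [F] using this)

end Cfsg.Agent.NE3
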