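import Mathlib
import Cfsg.Agent.NE3.Defs
import Cfsg.Agent.NE3.X0
import Cfsg.Agent.NE3.X2b
import Cfsg.Agent.NE3.X3a
import Cfsg.Agent.NE3.X3b
import Cfsg.Agent.NE3.X4

set_option autoImplicit false

namespace Cfsg.Agent.NE3

open Subgroup Cfsg Cfsg.Agent.Ch Cfsg.Agent.Deg Module
open scoped commutatorElement

universe u

variable {H : Type u} [Group H] [Finite H] {p : ℕ} [Fact p.Prime] {Γ : Subgroup (MulAut H)}

theorem CH.cam (h : CH p Γ) {x : H} (hx : x ∉ fx Γ ⊔ g2 H) {k : H} (hk : k ∈ g2 H) :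
    ∃ g : H, ⁅g, x⁆ = k := by
  have hkx : k * x ∉ fx Γ ⊔ g2 H := fun e =>
    hx ((Subgroup.mul_mem_cancel_left _ (mem_sup_right hk)).1 e)
  obtain ⟨u, hu⟩ := Nd.isConj_of_vanish (x := x) (k := k) hk
    fun χ hχ h1 => ⟨h.vanish hχ h1 hx, h.vanish hχ h1 hkx⟩
  exact ⟨u, by rw [commutatorElement_def, hu]; group⟩

omit [Finite H] in
theorem X5_char (X : Subgroup H) [hX : X.Characteristic] (σ : MulAut H) {x : H} (hx : x ∈ X) :
    σ x ∈ X :=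
  (characteristic_iff_map_le.1 hX σ) ⟨x, hx, rfl⟩

theorem X5_ex (h : CH p Γ) (X : Subgroup H) [X.Characteristic] (hX : X ≤ g2 H) :
    ∃ σ ∈ Γ, σ ≠ 1 ∧ ∀ x ∈ X, σ x * x⁻¹ ∈ ⁅X, (⊤ : Subgroup H)⁆ := by
  obtain ⟨f, h1, h2, -⟩ := regX (X := X) (X' := ⁅X, (⊤ : Subgroup H)⁆) h.pg h.cop h.comm
    (fun σ _ x hx => X5_char X σ hx) (fun σ _ x hx => X5_char _ σ hx)
    (commutator_mono le_rfl le_top) 1 (fun _ _ => rfl)
  by_cases hf : ∀ x, f x = 1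
  · obtain ⟨⟨σ, hσ⟩, hne⟩ := (Subgroup.ne_bot_iff_exists_ne_one).1 h.ne
    exact ⟨σ, hσ, fun e => hne (Subtype.ext e), h2 σ hσ fun x y _ => by rw [hf, hf]⟩
  · obtain ⟨ψ, hψ, hψf⟩ := exists_over f h1
    have h0 : ψ 1 ≠ 0 := by
      rw [← hψ.coe_charDegree]
      exact_mod_cast hψ.charDegree_pos.ne'
    have hd : charDegree ψ ≠ 1 := fun e => hf fun x => by
      have hk := (charDegree_eq_one_iff_commutator_le hψ).1 e (hX x.2)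
      have e1 := apply_eq_of_mem_charKer hk
      rw [hψf x] at e1
      have e2 : (f x : ℂ) = 1 := mul_left_cancel₀ h0 (by rw [e1, mul_one])
      exact Units.ext e2
    obtain ⟨σ, hσ, hne, hfix⟩ := h.nonlin hψ hd
    refine ⟨σ, hσ, hne, h2 σ hσ fun x y hy => Units.ext (mul_left_cancel₀ h0 ?_)⟩
    rw [← hψf, ← hψf, hy, hfix]

theorem CH.cf2 (h : CH p Γ) : ∃ α ∈ Γ, Cf2 p α (fx Γ) := by
  obtain ⟨α, hα, hne, ha⟩ := X5_ex h (g2 H) le_rfl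
  exact ⟨α, hα, h.pg, fun b hb => hb α hα, h.neD, h.fpf hα hne, fun x hx k hk => h.cam hx hk, ha⟩

theorem CH.cf3 (h : CH p Γ) (h3 : g3 H ≠ ⊥) : ∃ α β, Cf3 p α β (fx Γ) := by
  obtain ⟨α, hα, hc⟩ := h.cf2
  obtain ⟨β, hβ, hne, hb⟩ := X5_ex h (g3 H) (commutator_mono le_top le_rfl)
  exact ⟨α, β, hc, h.comm α hα β hβ, fun b hb => hb β hβ, h.fpf hβ hne, hb, h3⟩

end Cfsg.Agent.NE3
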