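import Mathlib
import Cfsg.Agent.NE3.Defs
import Cfsg.Agent.NE3.X5
import Cfsg.Agent.NE3.G1b
import Cfsg.Agent.Deg.PGrp

set_option autoImplicit false

namespace Cfsg.Agent.NE3

open Subgroup Cfsg Cfsg.Agent.Ch Cfsg.Agent.Deg Module
open scoped commutatorElement

universe u

variable {H : Type u} [Group H] [Finite H] {p : ℕ} [Fact p.Prime] {Γ : Subgroup (MulAut H)}

private theorem x6a_ker {ψ : H → ℂ} (hψ : IsIrrCharacter H ψ) {f : g2 H →* ℂˣ}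
    (h1 : ∀ x : g2 H, ψ x = ψ 1 * f x) (x : g2 H) : (x : H) ∈ charKer ψ ↔ f x = 1 := by
  have h0 : ψ 1 ≠ 0 := fun e => hψ.ne_zero (hψ.isCharacter.eq_zero_of_apply_one e)
  rw [hψ.mem_charKer, h1, mul_eq_left₀ h0, Units.val_eq_one]

omit [Finite H] in
private theorem x6a_g2 (x y : H) : ⁅x, y⁆ ∈ g2 H :=
  Subgroup.commutator_mem_commutator trivial trivial

omit [Finite H] in
private theorem x6a_g3le : g3 H ≤ g2 H :=
  Subgroup.commutator_mono le_top le_rfl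

private theorem x6a_sq {ψ : H → ℂ} (hψ : IsIrrCharacter H ψ) {f : g2 H →* ℂˣ}
    (h1 : ∀ x : g2 H, ψ x = ψ 1 * f x) (k1 : ∀ x : g2 H, (x : H) ∈ g3 H → f x = 1) :
    charDegree ψ ^ 2 = (charCenter ψ).index := by
  have h3 : g2 H ≤ charCenter ψ := fun z hz =>
    hψ.mem_charCenter_iff_commutator.2 fun y => by
      have m : ⁅z, y⁆ ∈ g3 H := Subgroup.commutator_mem_commutator hz trivial
      exact (x6a_ker hψ h1 ⟨⁅z, y⁆, x6a_g2 z y⟩).2 (k1 _ m)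
  refine sq_charDegree_eq_index hψ _ le_rfl fun x hx => ?_
  obtain ⟨y, hy⟩ := not_forall.1 (mt hψ.mem_charCenter_iff_commutator.2 hx)
  refine apply_eq_zero_of_commutator hψ.isCharacter (y := y) (h3 (x6a_g2 y x)) fun h => hy ?_
  simpa [mul_assoc] using (charKer _).inv_mem h

omit [Finite H] in
private theorem x6a_aut (σ : MulAut H) {y : H} (hy : y ∈ g3 H) : σ y ∈ g3 H := by
  have : (g3 H).Characteristic := inferInstance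
  exact (Subgroup.characteristic_iff_le_comap.1 this σ) hy

private theorem x6a_le (h : CH p Γ) {ψ φ : H → ℂ} (hψ : IsIrrCharacter H ψ)
    (hφ : IsIrrCharacter H φ) {f f' : g2 H →* ℂˣ} (h1 : ∀ x : g2 H, ψ x = ψ 1 * f x)
    (h2 : ∀ x : g2 H, φ x = φ 1 * f' x) (n1 : f ≠ 1)
    (he : ∀ x : g2 H, (∀ σ ∈ Γ, σ x * (x : H)⁻¹ ∈ g3 H) → f' x = f x) :
    charCenter ψ ≤ charCenter φ := by
  intro x hx
  have hx' := hψ.mem_charCenter_iff_commutator.1 hx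
  have hD : x ∈ fx Γ ⊔ g2 H := by
    by_contra hD
    refine n1 (MonoidHom.ext fun k => ?_)
    obtain ⟨g, hg⟩ := h.cam hD k.2
    refine (x6a_ker hψ h1 k).1 ?_
    rw [← hg, ← commutatorElement_inv]
    exact (charKer ψ).inv_mem (hx' g)
  obtain ⟨α, -, hc⟩ := h.cf2
  obtain ⟨k, hk, c, hcB, rfl⟩ : ∃ k ∈ g2 H, ∃ c ∈ fx Γ, x = k * c := by
    rw [sup_comm] at hD
    obtain ⟨k, hk, c, hc, e⟩ := Subgroup.mem_sup_of_normal_left.1 hD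
    exact ⟨k, hk, c, hc, e.symm⟩
  refine hφ.mem_charCenter_iff_commutator.2 fun g => ?_
  obtain ⟨r, hr, c', hc', rfl⟩ := hc.dec g
  have hkg : ⁅k, r * c'⁆ ∈ g3 H := Subgroup.commutator_mem_commutator hk trivial
  have hcr : ⁅c, r⁆ ∈ g3 H := hc.bP hcB hr
  have hN : (g3 H).Normal := inferInstance
  have m : ⁅k * c, r * c'⁆ * ⁅c, c'⁆⁻¹ ∈ g3 H := by
    have a1 : k * ⁅c, r⁆ * k⁻¹ ∈ g3 H := hN.conj_mem _ hcr _
    have a2 : ⁅⁅c, c'⁆, k * r⁆ ∈ g3 H := Subgroup.commutator_mem_commutator (x6a_g2 c c') trivial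
    have a3 : ⁅k, r⁆ ∈ g3 H := Subgroup.commutator_mem_commutator hk trivial
    have a4 : ⁅k⁻¹, r⁆ ∈ g3 H := Subgroup.commutator_mem_commutator (inv_mem hk) trivial
    have a5 : ⁅⁅c, c'⁆, r⁆ ∈ g3 H := Subgroup.commutator_mem_commutator (x6a_g2 c c') trivial
    have a6 : ⁅⁅c, c'⁆, k⁆ ∈ g3 H := Subgroup.commutator_mem_commutator (x6a_g2 c c') trivial
    have e : ⁅k * c, r * c'⁆ * ⁅c, c'⁆⁻¹ =
        (k * ⁅c, r⁆ * k⁻¹) * (k * ⁅⁅c, c'⁆, r⁆⁻¹ * k⁻¹) * ⁅⁅c, c'⁆, k⁆⁻¹ *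
          (⁅c, c'⁆ * ⁅k, r * c'⁆ * ⁅c, c'⁆⁻¹) := by
      simp only [commutatorElement_def]; group
    rw [e]
    exact mul_mem (mul_mem (mul_mem a1 (hN.conj_mem _ (inv_mem a5) _)) (inv_mem a6))
      (hN.conj_mem _ hkg _)
  have hf : f' ⟨_, x6a_g2 (k * c) (r * c')⟩ = f ⟨_, x6a_g2 (k * c) (r * c')⟩ := by
    refine he _ fun σ hσ => ?_
    have s : σ ⁅c, c'⁆ = ⁅c, c'⁆ := by
      rw [map_commutatorElement, hcB σ hσ, hc' σ hσ]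
    have e : σ ⁅k * c, r * c'⁆ * ⁅k * c, r * c'⁆⁻¹ =
        σ (⁅k * c, r * c'⁆ * ⁅c, c'⁆⁻¹) * (⁅k * c, r * c'⁆ * ⁅c, c'⁆⁻¹)⁻¹ := by
      rw [map_mul σ ⁅k * c, r * c'⁆, map_inv, s]; group
    show σ ⁅k * c, r * c'⁆ * ⁅k * c, r * c'⁆⁻¹ ∈ g3 H
    rw [e]
    exact mul_mem (x6a_aut σ m) (inv_mem m)
  refine (x6a_ker hφ h2 ⟨_, x6a_g2 (k * c) (r * c')⟩).2 ?_
  rw [hf]
  exact (x6a_ker hψ h1 ⟨_, x6a_g2 (k * c) (r * c')⟩).1 (hx' _)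

theorem CH.deg_eq (h : CH p Γ) {ψ φ : H → ℂ} (hψ : IsIrrCharacter H ψ) (hφ : IsIrrCharacter H φ)
    {f f' : g2 H →* ℂˣ} (h1 : ∀ x : g2 H, ψ x = ψ 1 * f x) (h2 : ∀ x : g2 H, φ x = φ 1 * f' x)
    (n1 : f ≠ 1) (n2 : f' ≠ 1) (k1 : ∀ x : g2 H, (x : H) ∈ g3 H → f x = 1)
    (k2 : ∀ x : g2 H, (x : H) ∈ g3 H → f' x = 1)
    (he : ∀ x : g2 H, (∀ σ ∈ Γ, σ x * (x : H)⁻¹ ∈ g3 H) → f' x = f x) :
    charDegree ψ = charDegree φ := by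
  have e : charCenter ψ = charCenter φ :=
    le_antisymm (x6a_le h hψ hφ h1 h2 n1 he)
      (x6a_le h hφ hψ h2 h1 n2 fun x hx => (he x hx).symm)
  have a := x6a_sq hψ h1 k1
  have b := x6a_sq hφ h2 k2
  rw [e, ← b] at a
  exact Nat.pow_left_injective two_ne_zero a

end Cfsg.Agent.NE3
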