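import Mathlib
import Cfsg.Agent.NE3.Defs
import Cfsg.Agent.NE3.HW
import Cfsg.Agent.NE3.X0
import Cfsg.Agent.NE3.X2b
import Cfsg.Agent.NE3.X4
import Cfsg.Agent.NE3.X6a

set_option autoImplicit false

namespace Cfsg.Agent.NE3

open Subgroup Cfsg Cfsg.Agent.Ch Cfsg.Agent.Deg Module
open scoped commutatorElement

universe u

variable {H : Type u} [Group H] [Finite H] {p : ℕ} [Fact p.Prime] {Γ : Subgroup (MulAut H)}

/-- The elements of `Γ` acting trivially on `g2 / g3`. -/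
def x6bK (Γ : Subgroup (MulAut H)) : Subgroup Γ where
  carrier := {σ | ∀ x ∈ g2 H, σ.1 x * x⁻¹ ∈ g3 H}
  one_mem' := fun x _ => by simp
  mul_mem' := fun {a b} ha hb x hx => by
    have h := mul_mem (ha _ ((aut_mem b.1).1 x hx)) (hb x hx)
    rwa [mul_assoc, inv_mul_cancel_left] at h
  inv_mem' := fun {a} ha x hx => by
    have h := inv_mem (ha _ ((aut_mem a⁻¹.1).1 x hx))
    have e : a.1 (a⁻¹.1 x) = x := a.1.apply_symm_apply x
    rwa [e, mul_inv_rev, inv_inv] at h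

theorem CH.x6b_le (h : CH p Γ) {ψ : H → ℂ} (hψ : IsIrrCharacter H ψ) (h1 : charDegree ψ ≠ 1)
    (h3 : g3 H ≤ charKer ψ) : x6bK Γ ≤ St Γ ψ := fun σ hσ x => by
  by_cases hx : x ∈ fx Γ ⊔ g2 H
  · obtain ⟨k, hk, c, hc, rfl⟩ := mem_D hx
    rw [map_mul, hc σ.1 σ.2, ← apply_mul_ker hψ (h3 (hσ k hk)) (k * c), mul_assoc,
      inv_mul_cancel_left]
  · rw [h.vanish hψ h1 hx, h.vanish hψ h1 fun e => hx ?_]
    obtain ⟨k, hk, c, hc, e⟩ := mem_D e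
    have e' : x = σ⁻¹.1 k * c := by
      rw [← hc σ⁻¹.1 σ⁻¹.2, ← map_mul, ← e]
      exact (σ.1.symm_apply_apply x).symm
    rw [e']
    exact mul_mem (mem_sup_right ((aut_mem _).1 k hk)) (mem_sup_left hc)

theorem CH.x6b_dg (h : CH p Γ) {ψ : H → ℂ} (hψ : IsIrrCharacter H ψ) (h1 : charDegree ψ ≠ 1)
    (h3 : g3 H ≤ charKer ψ) : dg Γ ψ = charDegree ψ * (x6bK Γ).index := by
  obtain ⟨f, hf⟩ := exists_under (X := g2 H) hψ h3
  have n1 : f ≠ 1 := fun e => h1 ((charDegree_eq_one_iff_commutator_le hψ).2 fun x hx =>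
    hψ.isCharacter.mem_charKer.2 (by simpa [e] using hf ⟨x, hx⟩))
  have k1 : ∀ x : g2 H, (x : H) ∈ g3 H → f x = 1 := fun x hx => by
    have e := hf x
    rw [hψ.isCharacter.mem_charKer.1 (h3 hx)] at e
    exact Units.ext (mul_left_cancel₀ hψ.apply_one_ne_zero (e.symm.trans (mul_one _).symm))
  obtain ⟨f', k2, a1, a2⟩ := regX h.pg h.cop h.comm (X := g2 H) (X' := g3 H)
    (fun σ _ => (aut_mem σ).1) (fun σ _ => (aut_mem σ).2.1) (commutator_mono le_rfl le_top) f k1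
  have n2 : f' ≠ 1 := fun e => n1 (MonoidHom.ext fun x => by
    rw [← a2 x fun σ hσ => a1 σ hσ (fun a b _ => by simp [e]) x x.2, e])
  obtain ⟨φ, hφ, hφ'⟩ := exists_over (X := g2 H) f' k2
  have hd := h.deg_eq hψ hφ hf hφ' n1 n2 k1 k2 a2
  have h4 : g3 H ≤ charKer φ := fun x hx => hφ.isCharacter.mem_charKer.2 (by
    simpa [k2 ⟨x, g3_le hx⟩ hx] using hφ' ⟨x, g3_le hx⟩)
  have h5 : St Γ φ = x6bK Γ := le_antisymm (fun (σ : Γ) hσ => a1 σ.1 σ.2 fun x y e => Units.ext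
    (mul_left_cancel₀ hφ.apply_one_ne_zero (by rw [← hφ', ← hφ', e, hσ x])))
    (h.x6b_le hφ (hd ▸ h1) h4)
  have h6 : dg Γ φ = charDegree ψ * (x6bK Γ).index := by rw [dg, h5, hd]
  rw [← h6]
  refine h.nd ψ φ hψ hφ (dg_ne_one h1) ?_
  rw [h6]
  exact Nat.mul_dvd_mul_left _ (index_dvd_of_le (h.x6b_le hψ h1 h3))

theorem CH.lev2 (h : CH p Γ) : ∃ a, ∀ ψ, IsIrrCharacter H ψ → charDegree ψ ≠ 1 → g3 H ≤ charKer ψ →
    dg Γ ψ = a := by
  by_cases he : ∃ φ, IsIrrCharacter H φ ∧ charDegree φ ≠ 1 ∧ g3 H ≤ charKer φ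
  swap
  · exact ⟨0, fun ψ a b c => absurd ⟨ψ, a, b, c⟩ he⟩
  obtain ⟨φ, a', b', c'⟩ := he
  refine ⟨dg Γ φ, fun ψ a b c => ?_⟩
  obtain ⟨i, hi⟩ := Deg.exists_charDegree_eq_pow h.pg a
  obtain ⟨j, hj⟩ := Deg.exists_charDegree_eq_pow h.pg a'
  rcases le_total i j with e | e
  · refine h.nd ψ φ a a' (dg_ne_one b) ?_
    rw [h.x6b_dg a b c, h.x6b_dg a' b' c', hi, hj]
    exact Nat.mul_dvd_mul_right (pow_dvd_pow p e) _
  · refine (h.nd φ ψ a' a (dg_ne_one b') ?_).symm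
    rw [h.x6b_dg a b c, h.x6b_dg a' b' c', hi, hj]
    exact Nat.mul_dvd_mul_right (pow_dvd_pow p e) _

end Cfsg.Agent.NE3
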