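import Mathlib
import Cfsg.Agent.NE3.Defs
import Cfsg.Agent.NE3.X5

set_option autoImplicit false

namespace Cfsg.Agent.NE3

open Subgroup Cfsg Cfsg.Agent.Ch Cfsg.Agent.Deg Module
open scoped commutatorElement

universe u

variable {H : Type u} [Group H] [Finite H] {p : ℕ} [Fact p.Prime] {Γ : Subgroup (MulAut H)}

/-- The elements of `Γ` that fix `g3 H` pointwise. -/
def X7_fix (Γ : Subgroup (MulAut H)) : Subgroup Γ where
  carrier := {σ | ∀ y ∈ g3 H, σ.1 y = y}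
  one_mem' := fun _ _ => rfl
  mul_mem' := fun {a b} ha hb y hy => by
    have : (a * b).1 y = a.1 (b.1 y) := rfl
    rw [this, hb y hy, ha y hy]
  inv_mem' := fun {a} ha y hy => by
    apply a.1.injective
    have e : a.1 (a⁻¹.1 y) = y := a.1.apply_symm_apply y
    rw [e, ha y hy]

theorem X7_cen (h4 : g4 H = ⊥) : g3 H ≤ center H := fun y hy => by
  rw [mem_center_iff]
  intro g
  have : ⁅y, g⁆ ∈ g4 H := commutator_mem_commutator hy (mem_top g)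
  rw [h4, mem_bot, commutatorElement_eq_one_iff_mul_comm] at this
  exact this.symm

theorem X7_ne {ψ : H → ℂ} (hψ : IsIrrCharacter H ψ) (hk : ¬ g3 H ≤ charKer ψ) : charDegree ψ ≠ 1 :=
  fun e => hk ((commutator_le_left _ _).trans ((charDegree_eq_one_iff_commutator_le hψ).1 e))

theorem X7_van (h : CH p Γ) (h4 : g4 H = ⊥) (hB : fx Γ ≤ center H)
    (hw : ∀ w ∈ g2 H, w ∉ g3 H → ∀ y ∈ g3 H, ∃ g : H, ⁅w, g⁆ = y) {ψ : H → ℂ}
    (hψ : IsIrrCharacter H ψ) (hk : ¬ g3 H ≤ charKer ψ) {x : H} (hx : x ∉ fx Γ ⊔ g3 H) : ψ x = 0 := by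
  by_cases hD : x ∈ fx Γ ⊔ g2 H
  · obtain ⟨k, k2, c, hc, rfl⟩ := mem_D hD
    have k3 : k ∉ g3 H := fun k3 => hx (mul_mem (mem_sup_right k3) (mem_sup_left hc))
    obtain ⟨y, y3, yk⟩ := SetLike.not_le_iff_exists.1 hk
    obtain ⟨g, hg⟩ := hw k k2 k3 y⁻¹ (inv_mem y3)
    have e : g * (k * c) * g⁻¹ * (k * c)⁻¹ = y := by
      have e1 : c * g⁻¹ = g⁻¹ * c := (mem_center_iff.1 (hB hc) g⁻¹).symm
      have e2 : y = g * k * g⁻¹ * k⁻¹ := by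
        rw [← inv_inv y, ← hg, commutatorElement_def]; group
      rw [e2]
      calc g * (k * c) * g⁻¹ * (k * c)⁻¹ = g * k * (c * g⁻¹) * c⁻¹ * k⁻¹ := by group
        _ = g * k * g⁻¹ * k⁻¹ := by rw [e1]; group
    refine apply_eq_zero_of_commutator hψ.isCharacter (y := g) ?_ ?_
    · rw [e]; exact hψ.center_le_charCenter (X7_cen h4 y3)
    · rw [e]; exact yk
  · exact h.vanish hψ (X7_ne hψ hk) hD

theorem X7_le (h : CH p Γ) (h4 : g4 H = ⊥) (hB : fx Γ ≤ center H)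
    (hw : ∀ w ∈ g2 H, w ∉ g3 H → ∀ y ∈ g3 H, ∃ g : H, ⁅w, g⁆ = y) {ψ : H → ℂ}
    (hψ : IsIrrCharacter H ψ) (hk : ¬ g3 H ≤ charKer ψ) : X7_fix Γ ≤ St Γ ψ := by
  intro σ hσ x
  have hZ : ∀ z ∈ fx Γ ⊔ g3 H, σ.1 z = z := fun z hz => by
    have : fx Γ ⊔ g3 H ≤ σ.1.toMonoidHom.eqLocus (MonoidHom.id H) :=
      sup_le (fun c hc => hc σ.1 σ.2) (fun y hy => hσ y hy)
    exact this hz
  by_cases hx : x ∈ fx Γ ⊔ g3 H
  · rw [hZ x hx]
  · have hx' : σ.1 x ∉ fx Γ ⊔ g3 H := fun hx' => hx (by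
      rw [← σ.1.injective (hZ _ hx')]; exact hx')
    rw [X7_van h h4 hB hw hψ hk hx, X7_van h h4 hB hw hψ hk hx']

theorem CH.lev3 (h : CH p Γ) (h4 : g4 H = ⊥) (hB : fx Γ ≤ center H)
    (hw : ∀ w ∈ g2 H, w ∉ g3 H → ∀ y ∈ g3 H, ∃ g : H, ⁅w, g⁆ = y) :
    ∃ a, ∀ ψ, IsIrrCharacter H ψ → ¬ g3 H ≤ charKer ψ → dg Γ ψ = a := by
  have hdeg : ∀ ψ, IsIrrCharacter H ψ → ¬ g3 H ≤ charKer ψ →
      charDegree ψ = Nat.sqrt (fx Γ ⊔ g3 H).index := fun ψ hψ hk => by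
    rw [← sq_charDegree_eq_index hψ (fx Γ ⊔ g3 H)
      ((sup_le hB (X7_cen h4)).trans hψ.center_le_charCenter) fun g hg => X7_van h h4 hB hw hψ hk hg,
      Nat.sqrt_eq']
  have hch : ∀ σ : MulAut H, ∀ x ∈ g3 H, σ x ∈ g3 H := fun σ x hx =>
    characteristic_iff_le_comap.1 (inferInstance : (g3 H).Characteristic) σ hx
  obtain ⟨f, -, hf, -⟩ := regX h.pg h.cop h.comm (X := g3 H) (X' := ⊥) (fun σ _ => hch σ)
    (fun σ _ x hx => by rw [mem_bot.1 hx, map_one]; exact one_mem _)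
    ((commutator_mono le_rfl le_top).trans h4.le) 1 (fun _ _ => rfl)
  have hf' : ∀ σ : Γ, (∀ x y : g3 H, (y : H) = σ.1 x → f y = f x) → σ ∈ X7_fix Γ := fun σ e y hy =>
    mul_inv_eq_one.1 (mem_bot.1 (hf σ.1 σ.2 e y hy))
  by_cases f1 : f = 1
  · refine ⟨Nat.sqrt (fx Γ ⊔ g3 H).index, fun ψ hψ hk => ?_⟩
    have : St Γ ψ = ⊤ := top_le_iff.1 fun σ _ =>
      X7_le h h4 hB hw hψ hk (hf' σ fun x y _ => by rw [f1]; rfl)
    rw [dg, this, index_top, mul_one, hdeg ψ hψ hk]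
  · obtain ⟨φ, hφ, hφf⟩ := exists_over f fun x hx => by
      have : x = 1 := Subtype.ext (mem_bot.1 (h4.le hx))
      rw [this, map_one]
    have kφ : ¬ g3 H ≤ charKer φ := fun hk => f1 (MonoidHom.ext fun x => by
      have e := apply_eq_of_mem_charKer (hk x.2)
      rw [hφf, mul_eq_left₀ hφ.apply_one_ne_zero] at e
      exact Units.ext e)
    have hS : St Γ φ = X7_fix Γ := le_antisymm (fun σ hσ => hf' σ fun x y e => by
      have e1 := hσ x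
      rw [← e, hφf, hφf] at e1
      exact Units.ext (mul_left_cancel₀ hφ.apply_one_ne_zero e1)) (X7_le h h4 hB hw hφ kφ)
    refine ⟨dg Γ φ, fun ψ hψ hk => h.nd ψ φ hψ hφ (dg_ne_one (X7_ne hψ hk)) ?_⟩
    rw [dg, dg, hdeg ψ hψ hk, hdeg φ hφ kφ, hS]
    exact Nat.mul_dvd_mul_left _ (index_dvd_of_le (X7_le h h4 hB hw hψ hk))

end Cfsg.Agent.NE3
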