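import Mathlib
import Cfsg.Agent.NE3.Defs
import Cfsg.Agent.NE3.X1
import Cfsg.Agent.NE3.X3a
import Cfsg.Agent.NE3.X5
import Cfsg.Agent.NE3.X6b
import Cfsg.Agent.NE3.X7
import Cfsg.Agent.NE3.G6
import Cfsg.Agent.NE3.HW
import Cfsg.Agent.ND.CaseA
import Cfsg.Agent.Deg.Basic

set_option autoImplicit false

namespace Cfsg.Agent.NE3

open Subgroup Cfsg Cfsg.Agent.Ch Cfsg.Agent.Deg Module
open scoped commutatorElement

universe u

theorem CH.main {H : Type u} [Group H] [Finite H] {p : ℕ} [Fact p.Prime] {Γ : Subgroup (MulAut H)}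
    (h : CH p Γ) : g4 H = ⊥ ∧ ∃ a b c : ℕ, ∀ ψ, IsIrrCharacter H ψ → dg Γ ψ ≠ 1 →
      dg Γ ψ = a ∨ dg Γ ψ = b ∨ dg Γ ψ = c := by
  obtain ⟨a, ha⟩ := h.lev2
  by_cases h3 : g3 H = ⊥
  · refine ⟨le_bot_iff.1 (h3 ▸ g4_le), Nat.card Γ, a, a, fun ψ hψ h1 => ?_⟩
    by_cases hd : charDegree ψ = 1
    · exact Or.inl (h.one hψ hd h1)
    · exact Or.inr (Or.inl (ha ψ hψ hd (by rw [h3]; exact bot_le)))
  · obtain ⟨α, β, hc⟩ := h.cf3 h3
    obtain ⟨h4, hB, hw⟩ := hc.fin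
    obtain ⟨b, hb⟩ := h.lev3 h4 hB hw
    refine ⟨h4, Nat.card Γ, a, b, fun ψ hψ h1 => ?_⟩
    by_cases hd : charDegree ψ = 1
    · exact Or.inl (h.one hψ hd h1)
    · by_cases hk : g3 H ≤ charKer ψ
      · exact Or.inr (Or.inl (ha ψ hψ hd hk))
      · exact Or.inr (Or.inr (hb ψ hψ hk))

theorem derived_three {G : Type u} [Group G] (P : Subgroup G) (h1 : commutator G ≤ P)
    (h4 : g4 P = ⊥) : derivedSeries G 3 = ⊥ := by
  have e1 : derivedSeries G 1 ≤ P := by rw [derivedSeries_one]; exact h1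
  have e2 : derivedSeries G 2 ≤ (g2 P).map P.subtype := by
    rw [derivedSeries_succ, Subgroup.map_commutator, ← MonoidHom.range_eq_map, Subgroup.range_subtype]
    exact Subgroup.commutator_mono e1 e1
  rw [derivedSeries_succ, ← le_bot_iff]
  refine (Subgroup.commutator_mono e2 e2).trans ?_
  rw [← Subgroup.map_commutator]
  have : ⁅g2 P, g2 P⁆ = ⊥ := le_bot_iff.1 (h4 ▸ g22)
  rw [this, Subgroup.map_bot]

theorem main {G : Type u} [Group G] [Finite G] {p : ℕ} [Fact p.Prime] (P C : Subgroup G) [P.Normal]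
    (hP : IsPGroup p P) (hC : ¬ p ∣ Nat.card C) (hCc : ∀ a ∈ C, ∀ b ∈ C, a * b = b * a)
    (hPC : P ⊔ C = ⊤) (h : Deg.Nd.ND G) :
    Nat.card (charDegrees G) ≤ 4 ∧ derivedSeries G 3 = ⊥ := by
  obtain ⟨h1, h2, h3⟩ := dg_over P C hP hC hCc hPC
  set Γ := C.map (MulAut.conjNormal : G →* MulAut P) with hΓ
  by_cases hb : Γ = ⊥
  · have hpw : ∀ χ, IsIrrCharacter G χ → ∃ k, charDegree χ = p ^ k := fun χ hχ => by
      obtain ⟨ψ, hψ, e⟩ := h1 χ hχ
      obtain ⟨k, hk⟩ := exists_charDegree_eq_pow hP hψ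
      have hc : Nat.card Γ = 1 := by rw [hb]; exact Subgroup.card_bot
      have hi : (St Γ ψ).index = 1 := Nat.dvd_one.1 (hc ▸ (St Γ ψ).index_dvd_card)
      exact ⟨k, by rw [e, dg, hi, mul_one, hk]⟩
    by_cases hn : ∃ χ, IsIrrCharacter G χ ∧ charDegree χ ≠ 1
    · obtain ⟨χ₀, h0, h0'⟩ := hn
      refine Nd.fin_of_two (a := charDegree χ₀) fun χ hχ hχ' => ?_
      obtain ⟨i, hi⟩ := hpw χ hχ
      obtain ⟨j, hj⟩ := hpw χ₀ h0
      rcases le_total i j with hij | hij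
      · exact h χ χ₀ hχ h0 hχ' (by rw [hi, hj]; exact pow_dvd_pow p hij)
      · exact (h χ₀ χ h0 hχ h0' (by rw [hi, hj]; exact pow_dvd_pow p hij)).symm
    · exact Nd.fin_of_two (a := 1) fun χ hχ hχ' => absurd ⟨χ, hχ, hχ'⟩ hn
  · have hch : CH p Γ :=
      { pg := hP
        cop := fun hd => hC (hd.trans (Subgroup.card_map_dvd C _))
        comm := by
          rintro _ ⟨a, ha, rfl⟩ _ ⟨b, hb, rfl⟩
          rw [← map_mul, ← map_mul, hCc a ha b hb]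
        ne := hb
        nd := fun ψ φ hψ hφ hn hd => by
          obtain ⟨χ, hχ, e⟩ := h2 ψ hψ
          obtain ⟨η, hη, e'⟩ := h2 φ hφ
          rw [← e] at hn
          rw [← e, ← e'] at hd ⊢
          exact h χ η hχ hη hn hd }
    obtain ⟨h4, a, b, c, habc⟩ := hch.main
    refine ⟨Nd.card_le_four (a := a) (b := b) (c := c) fun χ hχ hχ' => ?_, derived_three P h3 h4⟩
    obtain ⟨ψ, hψ, e⟩ := h1 χ hχ
    rw [e] at hχ' ⊢
    exact habc ψ hψ hχ'

end Cfsg.Agent.NE3
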